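import Mathlib

/-! Rank three actions of unitary groups: arithmetic of the case of two orbits on points. -/

set_option autoImplicit false

namespace Cfsg.Agent.UR

open Polynomial in
theorem b0_int {θ : ℚ} {r t : ℤ} (h : θ * (θ + r) = t) : ∃ w : ℤ, θ = w := by
  have hi : IsIntegral ℤ θ := ⟨X ^ 2 + C r * X - C t, by monicity!, by
    rw [eval₂_sub, eval₂_add, eval₂_mul, eval₂_C, eval₂_C]; simp; linear_combination h⟩
  obtain ⟨w, hw⟩ := IsIntegrallyClosed.isIntegral_iff.1 hi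
  exact ⟨w, hw.symm⟩

theorem b0_ar2 (q z W N : ℤ) (hq : 3 ≤ q) (hz : q ^ 3 ≤ |z|) (hqz : q ∣ z) (hW : q ∣ W)
    (hW' : 6 * q ^ 7 ≤ W) (hN : q ∣ N + 1) (v k lam μ l : ℕ) (hk : 0 < k) (h1 : (k : ℤ) * lam = N)
    (hμ : μ ≤ k) (θ m f : ℚ) (e0 : θ * (q ^ 2 * z - 1) = k * (z - 1)) (e1 : m * θ = k - μ)
    (e2 : m = θ + μ - l) (e3 : v * μ = (m + k) * (k - θ)) (e4 : f * (m + θ) = (v - 1) * m - k)
    (e5 : f * ((z - 1) * (q + 1) * (q ^ 2 - 1)) = W * (q ^ 2 * z - 1)) : False := by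
  obtain ⟨t, rfl⟩ := b0_int (θ := θ) (r := μ - l) (t := k - μ) (by push_cast; rw [← e1, e2]; ring)
  obtain ⟨M, rfl⟩ : ∃ M : ℤ, m = M := ⟨t + μ - l, by push_cast; exact e2⟩
  have q2 : 9 ≤ q ^ 2 := by nlinarith
  have q3 : 3 * q ^ 2 ≤ q ^ 3 := by nlinarith
  -- `ρ = A / B`
  obtain ⟨A, B, ε, hA, hB, h2, h3, h4, h5⟩ : ∃ A B ε : ℤ, z - 1 = ε * A ∧ q ^ 2 * z - 1 = ε * B ∧ ε ≠ 0 ∧ 0 < A ∧
      B < (q ^ 2 + 1) * A ∧ B ≤ 2 * q ^ 2 * (B - (q ^ 2 - 1) * A) := by
    rcases le_abs.1 hz with h | h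
    · exact ⟨z - 1, q ^ 2 * z - 1, 1, by ring, by ring, one_ne_zero, by omega, by nlinarith, by nlinarith⟩
    · exact ⟨1 - z, 1 - q ^ 2 * z, -1, by ring, by ring, by simp, by omega, by nlinarith, by nlinarith⟩
  have hA' : (z : ℚ) - 1 = ε * A := by exact_mod_cast hA
  have hB' : (q : ℚ) ^ 2 * z - 1 = ε * B := by exact_mod_cast hB
  have hε : (ε : ℚ) ≠ 0 := by exact_mod_cast h2
  have k0 : (0 : ℤ) < k := by exact_mod_cast hk
  have hμ' : (μ : ℤ) ≤ k := by exact_mod_cast hμ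
  have E0 : t * B = k * A := by
    have : (t : ℚ) * B = k * A := mul_left_cancel₀ hε (by rw [hA', hB'] at e0; linear_combination e0)
    exact_mod_cast this
  have E5 : f * (A * ((q + 1) * (q ^ 2 - 1))) = W * B :=
    mul_left_cancel₀ hε (by rw [hA', hB'] at e5; linear_combination e5)
  have E1 : M * t = k - μ := by exact_mod_cast e1
  have E3 : (v : ℤ) * μ = (M + k) * (k - t) := by exact_mod_cast e3
  have E4 : W * B * (M + t) = ((v - 1) * M - k) * (A * ((q + 1) * (q ^ 2 - 1))) := by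
    have : (W : ℚ) * B * (M + t) = ((v - 1) * M - k) * (A * ((q + 1) * (q ^ 2 - 1))) := by
      rw [← E5, ← e4]; ring
    exact_mod_cast this
  have B0 : 0 < B := by nlinarith
  have t0 : 1 ≤ t := by
    have : 0 < t * B := by rw [E0]; positivity
    exact (pos_iff_pos_of_mul_pos this).2 B0
  have M0 : 0 ≤ M := by nlinarith
  have Mk : M ≤ k := by nlinarith
  have E6 : μ * B = k * (B - M * A) := by linear_combination B * E1 - M * E0
  have M1 : 0 ≤ B - M * A := by
    have : 0 ≤ k * (B - M * A) := by rw [← E6]; positivity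
    exact nonneg_of_mul_nonneg_right this k0 |> fun h => h
  have M2 : M ≤ q ^ 2 := by nlinarith
  rcases M2.eq_or_lt with rfl | M3
  · -- reduce modulo `q`
    obtain ⟨z, rfl⟩ := hqz
    obtain ⟨W, rfl⟩ := hW
    obtain ⟨N', hN'⟩ := hN
    have : q ∣ 1 := by
      have h7 : q * W * (ε * B) * (q ^ 2 + t) * lam =
          ((v - 1) * q ^ 2 * lam - N) * ((ε * A) * ((q + 1) * (q ^ 2 - 1))) := by
        rw [← h1]; linear_combination ε * lam * E4
      rw [← hA, show N = q * N' - 1 by omega] at h7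
      refine ⟨W * (ε * B) * (q ^ 2 + t) * lam - ((v - 1) * q * lam - N') * ((q * z - 1) * ((q + 1) * (q ^ 2 - 1)))
        - (z * ((q + 1) * (q ^ 2 - 1)) - (q ^ 2 + q - 1)), ?_⟩
      linear_combination -h7
    have := Int.le_of_dvd one_pos this
    omega
  · set c := (q + 1) * (q ^ 2 - 1) with hc
    have c0 : 0 < c := by nlinarith
    have c1 : 3 * c ≤ 4 * q ^ 3 := by nlinarith
    set δ := B - M * A with hδ
    have d1 : B ≤ 2 * q ^ 2 * δ := by
      have : B - (q ^ 2 - 1) * A ≤ δ := by nlinarith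
      nlinarith
    have E7 : v * δ = (M + k) * (B - A) :=
      mul_left_cancel₀ k0.ne' (by linear_combination B * E3 - v * E6 - (M + k) * E0)
    -- `k W ≤ v M c`
    have E8 : k * W ≤ v * M * c := by
      have h8 : W * B * (M + t) = W * B * M + k * W * A := by linear_combination W * E0
      have h9 : 0 ≤ W * B * M := by have : 0 ≤ W := by nlinarith [pow_pos (show 0 < q by omega) 7]
                                    positivity
      have h10 : 0 ≤ (M + k) * (A * c) := by positivity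
      have : (k * W) * A ≤ (v * M * c) * A := by nlinarith
      exact le_of_mul_le_mul_right this h3
    have d0 : 0 ≤ δ := M1
    have E9 : k * W * δ ≤ M * c * ((M + k) * (B - A)) := by
      rw [← E7]; nlinarith [mul_le_mul_of_nonneg_right E8 d0]
    have E10 : M * c * ((M + k) * (B - A)) ≤ q ^ 2 * c * (2 * k * B) := by
      have a1 : (M + k) * (B - A) ≤ (M + k) * B := mul_le_mul_of_nonneg_left (by omega) (by omega)
      have a2 : (M + k) * B ≤ 2 * k * B := mul_le_mul_of_nonneg_right (by omega) B0.le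
      calc _ ≤ M * c * (2 * k * B) := mul_le_mul_of_nonneg_left (a1.trans a2) (by positivity)
        _ ≤ _ := by gcongr
    have q7 := pow_pos (show 0 < q by omega) 7
    have W0 : 0 < W := by omega
    have E11 : k * W * B ≤ k * W * (2 * q ^ 2 * δ) := by gcongr
    have E12 : W * (k * B) ≤ 4 * q ^ 4 * c * (k * B) := by
      have := mul_le_mul_of_nonneg_left (E9.trans E10) (show 0 ≤ 2 * q ^ 2 by positivity)
      linarith
    have E13 := le_of_mul_le_mul_right E12 (by positivity)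
    have := mul_le_mul_of_nonneg_left c1 (show 0 ≤ 4 * q ^ 4 by positivity)
    linarith

theorem b0_ar (q y : ℤ) (hq : 3 ≤ q) (hy : q ^ 3 ≤ |y|) (hqy : q ∣ y) (v k lam μ l : ℕ) (hv : 0 < v)
    (hk : 0 < k) (hμ : μ ≤ k) (a b c a' b' c' η θ N K m s : ℚ) (hs : s = q ^ 2 - 1)
    (hN : N = (q ^ 3 * y + 1) * (q ^ 2 * y - 1)) (hm : m = (q * y + 1) * (y - 1)) (hK : K = s + q ^ 2 * m)
    (h1 : k * lam = N) (h2 : lam * θ = K - η)
    (e1 : k * (b + c) = θ * (a + c)) (e2 : μ * b + k * c = θ * c) (e3 : a + l * b + k * c = θ * (b + c))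
    (e4 : a + k * b + v * c = 0) (f1 : s * a' + K * (b' + c') = η * (a' + b' + c'))
    (f2 : m * b' + K * c' = η * c') (f4 : s * a' + K * b' + N * c' = 0)
    (hβ : a + b * θ = s * a' + b' * η) (ht : v * (a + c) = N * (a' + b' + c')) (h0 : a + c ≠ 0) : False := by
  have v0 : (v : ℚ) ≠ 0 := by positivity
  have q2 : 9 ≤ q ^ 2 := by nlinarith
  have q3 : 3 * q ^ 2 ≤ q ^ 3 := by nlinarith
  have q4 : 3 * q ^ 3 ≤ q ^ 4 := by nlinarith
  have q7 : q ^ 7 - q ^ 4 ≤ (q * y + 1) * (y - 1) := by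
    rcases le_abs.1 hy with h | h
    · have : q ^ 3 * (q ^ 4 - q + 1) ≤ y * (q * y - q + 1) := mul_le_mul h (by nlinarith) (by nlinarith) (by omega)
      nlinarith
    · have : q ^ 3 * q ^ 4 ≤ -y * (q * -y) := mul_le_mul h (by nlinarith) (by omega) (by omega)
      nlinarith
  have q8 : 6 * q ^ 7 ≤ q ^ 2 * ((q * y + 1) * (y - 1)) := by
    have := mul_le_mul_of_nonneg_left q7 (show 0 ≤ q ^ 2 by positivity)
    have h6 : 0 < q ^ 6 := by positivity
    have h7 : 3 * q ^ 6 ≤ q ^ 7 := by nlinarith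
    have h9 : 9 * q ^ 7 ≤ q ^ 9 := by nlinarith
    linarith
  have ne : ∀ i j : ℤ, q ∣ i → (j = 1 ∨ j = -1) → ((i + j : ℤ) : ℚ) ≠ 0 := fun i j hi hj h => by
    have h : i + j = 0 := by exact_mod_cast h
    have : q ∣ 1 := by
      rcases hj with rfl | rfl
      · rwa [show (1 : ℤ) = -i by omega, dvd_neg]
      · rwa [show (1 : ℤ) = i by omega]
    have := Int.le_of_dvd one_pos this
    omega
  have n1 : (q : ℚ) * y + 1 ≠ 0 := by simpa using ne (q * y) 1 (by simp) (by simp)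
  have n2 : (y : ℚ) - 1 ≠ 0 := by simpa [sub_eq_add_neg] using ne y (-1) hqy (by simp)
  have n3 : (q : ℚ) ^ 3 * y + 1 ≠ 0 := by exact_mod_cast ne (q ^ (3 : ℕ) * y) 1 (hqy.mul_left _) (by simp)
  have n4 : (q : ℚ) ^ 2 * y - 1 ≠ 0 := by
    rw [sub_eq_add_neg]; exact_mod_cast ne (q ^ (2 : ℕ) * y) (-1) (hqy.mul_left _) (by simp)
  have q0 : (q : ℚ) ≠ 0 := by exact_mod_cast (show q ≠ 0 by omega)
  have y0 : (y : ℚ) ≠ 0 := by
    have : y ≠ 0 := by rintro rfl; simp at hy; omega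
    exact_mod_cast this
  have s0 : s ≠ 0 := by rw [hs]; exact_mod_cast (show q ^ 2 - 1 ≠ 0 by omega)
  have m0 : m ≠ 0 := hm ▸ mul_ne_zero n1 n2
  have N0 : N ≠ 0 := hN ▸ mul_ne_zero n3 n4
  have b0 : b ≠ 0 := by
    rintro rfl
    have ha : a = 0 := by linear_combination e3 - e2
    exact h0 (mul_left_cancel₀ v0 (by linear_combination e4 + (v - 1) * ha))
  have c0 : c' ≠ 0 := by
    rintro rfl
    have hb : b' = 0 := mul_left_cancel₀ m0 (by linear_combination f2)
    have ha : a' = 0 := mul_left_cancel₀ s0 (by linear_combination f4 - K * hb)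
    exact h0 (mul_left_cancel₀ v0 (by linear_combination ht + N * ha + N * hb))
  obtain ⟨M, rfl⟩ : ∃ M, a = M * b := ⟨a / b, by field_simp⟩
  have g1 : M = θ + μ - l := mul_right_cancel₀ b0 (by linear_combination e3 - e2)
  have g2 : M * θ = k - μ := mul_right_cancel₀ b0 (by linear_combination e2 - e1)
  have g3 : v * μ = (M + k) * (k - θ) := mul_right_cancel₀ b0 (by linear_combination v * e2 - (k - θ) * e4)
  have g4 : θ * N = k * (K - η) := by linear_combination k * h2 - θ * h1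
  have g5 : η * (a' + b' + c') = (K - N) * c' := by linear_combination f4 - f1
  have g6 : (η - s * y) * (η + s * q * y) = 0 := by
    refine mul_left_cancel₀ (mul_ne_zero (mul_ne_zero c0 m0) (pow_ne_zero 2 q0)) ?_
    have : s * m * (η * (a' + b' + c')) = η * m * c' * (-q ^ 2 * (η - K) + s - N) := by
      linear_combination η * m * f4 + η * (s - K) * f2 + η * (K - η) * c' * hK
    rw [g5] at this
    rw [hK, hN] at this
    rw [hm, hs] at this ⊢
    linear_combination this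
  have N1 : (k : ℤ) * lam = (q ^ 3 * y + 1) * (q ^ 2 * y - 1) := by exact_mod_cast h1.trans hN
  have N2 : q ∣ (q ^ 3 * y + 1) * (q ^ 2 * y - 1) + 1 := ⟨q ^ 4 * y ^ 2 - q ^ 2 * y + q * y, by ring⟩
  have θ0 : M + θ ≠ 0 := fun h => by
    have : θ = 0 := by nlinarith [show (μ : ℚ) ≤ k by exact_mod_cast hμ]
    rw [this, zero_mul, eq_comm, mul_eq_zero, sub_eq_zero] at g4
    rcases g4 with g4 | rfl
    · exact hk.ne' (by exact_mod_cast g4)
    · rcases mul_eq_zero.1 g6 with g | g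
      · exact mul_ne_zero n2 n3 (by rw [hm, hs] at hK; rw [hs] at g; linear_combination g - hK)
      · exact mul_ne_zero n1 n4 (by rw [hm, hs] at hK; rw [hs] at g; linear_combination g - hK)
  obtain ⟨f, hf⟩ : ∃ f, f * (M + θ) = (v - 1) * M - k := ⟨_, div_mul_cancel₀ _ θ0⟩
  have g7 : f * η * ((η - K) ^ 2 - N * m) = m * N * (K - N) := by
    refine mul_left_cancel₀ c0 ?_
    have a1 : f * (s * a' + b' * η) = N * (a' + b' + c') := by linear_combination b * hf - f * hβ + ht - e4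
    linear_combination η * m * a1 + m * N * g5 - f * η * m * f4 - f * η * (η - K) * f2
  rcases mul_eq_zero.1 g6 with g | g
  · obtain rfl : η = s * y := by linear_combination g
    refine b0_ar2 q y (q * (q ^ 2 * ((q * y + 1) * (y - 1)))) _ hq hy hqy (by simp) (by nlinarith) N2 v k lam μ l hk N1
      hμ θ M f (mul_left_cancel₀ n3 ?_) g2 g1 g3 hf ?_
    · rw [hK, hN, hm, hs] at g4; linear_combination g4
    · refine mul_left_cancel₀ (mul_ne_zero (mul_ne_zero n3 s0) (pow_ne_zero 2 y0)) ?_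
      rw [hK, hN, hm] at g7; rw [hs] at g7 ⊢
      push_cast
      linear_combination -g7
  · obtain rfl : η = -(s * q * y) := by linear_combination g
    refine b0_ar2 q (-(q * y)) (q ^ 2 * ((q * y + 1) * (y - 1))) _ hq ?_ (by simp) (Dvd.dvd.mul_right (by simp) _) q8 N2
      v k lam μ l hk N1 hμ θ M f (mul_left_cancel₀ n4 ?_) g2 g1 g3 hf ?_
    · rw [abs_neg, abs_mul, abs_of_nonneg (show 0 ≤ q by omega)]; nlinarith
    · rw [hK, hN, hm, hs] at g4; push_cast; linear_combination -g4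
    · refine mul_left_cancel₀ (mul_ne_zero (mul_ne_zero (mul_ne_zero n4 s0) (pow_ne_zero 2 y0)) q0) ?_
      rw [hK, hN, hm] at g7; rw [hs] at g7 ⊢
      push_cast
      linear_combination g7

end Cfsg.Agent.UR
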