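import Cfsg.Agent.UR.B0Ar

/-! Invariant matrices. -/

set_option autoImplicit false

namespace Cfsg.Agent.UR

open Matrix Finset MulAction

open Classical in
/-- indicator of a proposition -/
noncomputable def bI (p : Prop) : ℚ := if p then 1 else 0

theorem bI_pos {p : Prop} (h : p) : bI p = 1 := if_pos h

theorem bI_neg {p : Prop} (h : ¬ p) : bI p = 0 := if_neg h

theorem bI_mul (p r : Prop) : bI p * bI r = bI (p ∧ r) := by
  by_cases h : p <;> by_cases h' : r <;> simp [bI, h, h']

theorem bI_sum {A : Type*} [Fintype A] (p : A → Prop) : ∑ a, bI (p a) = ({a | p a}.ncard : ℚ) := by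
  classical
  simp only [bI, sum_boole, Set.ncard_eq_toFinset_card', Set.toFinset_ofPred]

theorem bI_single {A : Type*} [Fintype A] (a : A) (f : A → ℚ) : ∑ b, bI (a = b) * f b = f a := by
  rw [Fintype.sum_eq_single a fun b h => by rw [bI_neg h.symm, zero_mul], bI_pos rfl, one_mul]

variable {G A B C : Type*} [Group G] [MulAction G A] [MulAction G B] [MulAction G C]

variable (G) in
/-- invariant matrices -/
def BInv (M : Matrix A B ℚ) : Prop := ∀ (g : G) a b, M (g • a) (g • b) = M a b

theorem BInv.mul [Fintype B] {M : Matrix A B ℚ} {N : Matrix B C ℚ} (h : BInv G M) (h' : BInv G N) :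
    BInv G (M * N) := fun g a c => by
  rw [mul_apply, mul_apply, ← Equiv.sum_comp (MulAction.toPerm g)]
  simp only [MulAction.toPerm_apply, h g, h' g]

theorem BInv.tr {M : Matrix A B ℚ} (h : BInv G M) : BInv G Mᵀ := fun g a b => h g b a

theorem BInv.smul {M : Matrix A B ℚ} (h : BInv G M) (t : ℚ) : BInv G (t • M) := fun g a b =>
  congrArg (t * ·) (h g a b)

theorem BInv.add {M N : Matrix A B ℚ} (h : BInv G M) (h' : BInv G N) : BInv G (M + N) := fun g a b =>
  congrArg₂ (· + ·) (h g a b) (h' g a b)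

theorem BInv.ext [IsPretransitive G A] {M N : Matrix A B ℚ} (h : BInv G M) (h' : BInv G N) (a : A)
    (e : ∀ b, M a b = N a b) : M = N := by
  ext a' b
  obtain ⟨g, rfl⟩ := exists_smul_eq G a a'
  rw [← smul_inv_smul g b, h, h', e]

theorem BInv.row [IsPretransitive G A] [Fintype B] {M : Matrix A B ℚ} (h : BInv G M) (a a' : A) :
    ∑ b, M a b = ∑ b, M a' b := by
  obtain ⟨g, rfl⟩ := exists_smul_eq G a a'
  rw [← Equiv.sum_comp (MulAction.toPerm g) (M (g • a))]
  simp only [MulAction.toPerm_apply, h g]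

theorem BInv.trace [IsPretransitive G A] [Fintype A] {M : Matrix A A ℚ} (h : BInv G M) (a : A) :
    M.trace = Fintype.card A * M a a := by
  rw [Matrix.trace, sum_congr rfl (g := fun _ => M a a) fun b _ => by
    obtain ⟨g, rfl⟩ := exists_smul_eq G a b; exact h g a a]
  simp

theorem b0_side {X Y : Type*} [Fintype X] [Fintype Y] (N : Matrix X Y ℚ) (E D : Matrix X X ℚ) {a b c s θ : ℚ}
    (hS : ∀ x y, (N * Nᵀ) x y = a * E x y + b * D x y + c) (hE : E * N = s • N) (hD : D * N = θ • N)
    (hJ : ∀ w, ∑ x, N x w = 0) :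
    N * Nᵀ * N = (s * a + b * θ) • N ∧
    (∀ x y, a * ∑ z, D x z * E y z + b * ∑ z, D x z * D y z + c * ∑ z, D x z = θ * (a * E x y + b * D x y + c)) ∧
    ∀ x, a * ∑ z, E x z + b * ∑ z, D x z + c * Fintype.card X = 0 := by
  refine ⟨?_, fun x y => ?_, fun x => ?_⟩
  · ext x w
    have h1 := congrFun₂ hE x w
    have h2 := congrFun₂ hD x w
    simp only [mul_apply (M := E), mul_apply (M := D), Matrix.smul_apply, smul_eq_mul] at h1 h2
    rw [mul_apply, Matrix.smul_apply, smul_eq_mul]
    simp only [hS, add_mul, sum_add_distrib, mul_assoc, ← mul_sum, h1, h2, hJ]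
    ring
  · have h : (D * (N * Nᵀ)ᵀ) x y = θ * (N * Nᵀ) x y := by
      rw [transpose_mul, transpose_transpose, ← Matrix.mul_assoc, hD, Matrix.smul_mul, Matrix.smul_apply, smul_eq_mul]
    rw [mul_apply] at h
    simp only [transpose_apply, hS, mul_add, sum_add_distrib] at h
    simp only [mul_sum, mul_add]
    rw [← h]
    congr 1
    · congr 1 <;> exact sum_congr rfl fun _ _ => by ring
    · exact sum_congr rfl fun _ _ => by ring
  · have h : ∑ z, (N * Nᵀ) x z = 0 := by
      simp only [mul_apply, transpose_apply]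
      rw [sum_comm]
      simp only [← mul_sum, hJ, mul_zero, sum_const_zero]
    simp only [hS, sum_add_distrib, ← mul_sum, sum_const, card_univ, nsmul_eq_mul] at h
    linear_combination h

end Cfsg.Agent.UR
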