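import Cfsg.Agent.Polar.MinU

/-! Rank three actions of unitary groups: basic notions. -/

set_option autoImplicit false

namespace Cfsg.Agent.UR

open Module MulAction Cfsg.Agent.Forms Cfsg.Agent.Polar Cfsg.Agent.Polar.PQ

/-- the number of nonzero isotropic vectors of a unitary space of dimension `n ≥ 1` -/
def Iq (q n : ℕ) : ℕ :=
  if Even n then (q ^ n - 1) * (q ^ (n - 1) + 1) else (q ^ n + 1) * (q ^ (n - 1) - 1)

variable {F : Type*} [Field F] [Fintype F] {q : ℕ} {hF : Fintype.card F = q ^ 2}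
variable {V : Type*} [AddCommGroup V] [Module F V] {P : PQ (uFP hF) V}

theorem ncard_sing0 [Finite V] (hP : P.ND) {n : ℕ} (hn : finrank F V = n) (h1 : 1 ≤ n) :
    (P.sing0 Set.univ).ncard = Iq q n := by
  have hq := two_le_q hF
  obtain ⟨m, rfl⟩ : ∃ m, n = m + 1 := ⟨n - 1, by omega⟩
  have h := u_count (m + 1) V P hP hn
  rw [← ncard_sing0_add_one] at h
  have h2 : 1 ≤ q ^ m := Nat.one_le_pow _ _ (by omega)
  have h3 : 1 ≤ q ^ (m + 1) := Nat.one_le_pow _ _ (by omega)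
  refine Nat.eq_of_mul_eq_mul_left (show 0 < q by omega) ?_
  unfold Iq
  split_ifs with he
  · have := (h.1 he).1
    zify [h3] at this ⊢
    simp only [Nat.add_sub_cancel] at this ⊢
    linear_combination this
  · have := (h.2 (Nat.not_even_iff_odd.1 he)).1
    simp only [Nat.add_sub_cancel]
    zify [h2] at this ⊢
    linear_combination this

variable (P) in
/-- transvections -/
def IsT (g : P.Iso) : Prop :=
  ∃ v c, P.Sing v ∧ v ≠ 0 ∧ c ∈ (uFP hF).Λ ∧ c ≠ 0 ∧ g = P.eich v 0 c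

/-- centres of transvections in `H` -/
def InS (H : Subgroup P.Iso) (v : V) : Prop :=
  P.Sing v ∧ v ≠ 0 ∧ ∃ c ∈ (uFP hF).Λ, c ≠ 0 ∧ P.eich v 0 c ∈ H

/-- `H` contains no transvection -/
def NoTv (H : Subgroup P.Iso) : Prop := ∀ v, ¬ InS H v

/-- conjugate points -/
def Cj (H : Subgroup P.Iso) (v w : V) : Prop := ∃ g ∈ H, ∃ a : F, a ≠ 0 ∧ g • v = a • w

/-- at most two orbits on isotropic points -/
def Pt2 (H : Subgroup P.Iso) : Prop := ∀ u v w, P.Sing u → u ≠ 0 → P.Sing v → v ≠ 0 →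
  P.Sing w → w ≠ 0 → Cj H u v ∨ Cj H u w ∨ Cj H v w

/-- transitive on isotropic points -/
def PtTr (H : Subgroup P.Iso) : Prop := ∀ u v, P.Sing u → u ≠ 0 → P.Sing v → v ≠ 0 → Cj H u v

/-- transitive on the isotropic points which are not centres of transvections in `H` -/
def TrC (H : Subgroup P.Iso) : Prop := ∀ u v, P.Sing u → u ≠ 0 → P.Sing v → v ≠ 0 →
  ¬ InS H u → ¬ InS H v → Cj H u v

/-- conjugate subspaces -/
def CjS (H : Subgroup P.Iso) (A B : Submodule F V) : Prop := ∃ g ∈ H, ∀ x, g • x ∈ B ↔ x ∈ A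

/-- at most two orbits on totally isotropic lines -/
def Ln2 (H : Subgroup P.Iso) : Prop := ∀ A B C : Submodule F V, P.TotSing A → finrank F A = 2 →
  P.TotSing B → finrank F B = 2 → P.TotSing C → finrank F C = 2 → CjS H A B ∨ CjS H A C ∨ CjS H B C

/-- at most three double cosets in `EG` -/
def DC3 (H : Subgroup P.Iso) : Prop := ∀ g : Fin 4 → P.Iso, (∀ i, g i ∈ P.EG) →
  ∃ i j, i ≠ j ∧ ∃ a ∈ H, ∃ b ∈ H, g i = a * g j * b

/-- irreducible -/
def Irr (H : Subgroup P.Iso) : Prop :=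
  ∀ W : Submodule F V, (∀ g ∈ H, ∀ x ∈ W, g • x ∈ W) → W = ⊥ ∨ W = ⊤

/-- `H` meets the unipotent radicals of all point stabilisers trivially -/
def NoQ (H : Subgroup P.Iso) : Prop := ∀ u, P.Sing u → u ≠ 0 → ∀ g ∈ H, g ∈ P.U u → g = 1

/-- elements of `H` inducing a transvection on `u^⊥ / u` -/
def ResT (H : Subgroup P.Iso) (u : V) : Set P.Iso :=
  {h | h ∈ H ∧ ∃ w c, P.Sing w ∧ P.B w u = 0 ∧ w ∉ F ∙ u ∧ c ∈ (uFP hF).Λ ∧ c ≠ 0 ∧
    (P.eich w 0 c)⁻¹ * h ∈ P.U u}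

/-- centres of the transvections induced on `u^⊥ / u` -/
def Cen (H : Subgroup P.Iso) (u w : V) : Prop := P.Sing w ∧ P.B w u = 0 ∧ w ∉ F ∙ u ∧
  ∃ c ∈ (uFP hF).Λ, c ≠ 0 ∧ ∃ y ∈ P.U u, P.eich w 0 c * y ∈ H

/-- the vector parts of the elements of `H ⊓ U u` (contains the line `F ∙ u` if `u` is singular) -/
def Av (H : Subgroup P.Iso) (u : V) : Set V := {a | ∃ c, P.EOk u a c ∧ P.eich u a c ∈ H}

theorem Av_eq (H : Subgroup P.Iso) {u : V} (hu : P.Sing u) : Av H u = P.vecs H hu := rfl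

/-- the point `w` of `u^⊥ / u` meets `Av H u` -/
def Hit (H : Subgroup P.Iso) (u w : V) : Prop := ∃ a : F, a ≠ 0 ∧ a • w ∈ Av H u

/-- `w` is orthogonal to `Av H u` -/
def Prp (H : Subgroup P.Iso) (u w : V) : Prop := ∀ a ∈ Av H u, P.B a w = 0

/-- flags of type one: the totally isotropic line through `u`, `w` is neither hit nor orthogonal -/
structure TyI (H : Subgroup P.Iso) (u w : V) : Prop where
  su : P.Sing u
  u0 : u ≠ 0
  nS : ¬ InS H u
  sw : P.Sing w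
  perp : P.B w u = 0
  nHit : ¬ Hit H u w
  nPrp : ¬ Prp H u w

/-- `Av H u` is totally isotropic -/
def CTi (H : Subgroup P.Iso) (u : V) : Prop := ∀ a ∈ Av H u, ∀ b ∈ Av H u, P.B a b = 0

/-- `Av H u` spans a nonisotropic point of `u^⊥ / u` -/
def CN1 (H : Subgroup P.Iso) (u : V) : Prop :=
  ∃ a ∈ Av H u, ¬ P.Sing a ∧ Av H u ⊆ Submodule.span F {u, a}

/-- `Av H u` spans a hyperbolic line of `u^⊥ / u` -/
def CN2 (H : Subgroup P.Iso) (u : V) : Prop := ∃ a ∈ Av H u, ∃ b ∈ Av H u,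
  P.Sing a ∧ P.Sing b ∧ P.B a b ≠ 0 ∧ Av H u ⊆ Submodule.span F {u, a, b}

/-- `Av H u` spans `u^⊥` -/
def CFull (H : Subgroup P.Iso) (u : V) : Prop := finrank F V = 6 ∧ (2 : F) = 0 ∧
  (∀ a ∈ Av H u, P.Sing a) ∧ ∀ w, P.B w u = 0 → Prp H u w → w ∈ F ∙ u

variable (P) in
/-- a transitive action of rank three -/
structure Rk3 {X : Type*} [MulAction P.EG X] (x : X) : Prop where
  trans : IsPretransitive P.EG X
  three : Nat.card (orbitRel.Quotient (stabilizer P.EG x) X) = 3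

variable (P) in
/-- the stabilizer as a group of isometries -/
def Hx {X : Type*} [MulAction P.EG X] (x : X) : Subgroup P.Iso := (stabilizer P.EG x).map P.EG.subtype

section
variable {X : Type*} [MulAction P.EG X]

theorem Hx_sub (x : X) : (Hx P x).subgroupOf P.EG = stabilizer P.EG x :=
  Subgroup.comap_map_eq_self_of_injective Subtype.val_injective _

theorem mem_Hx {x : X} {g : P.EG} : g.1 ∈ Hx P x ↔ g • x = x := by
  rw [← Subgroup.mem_subgroupOf, Hx_sub, mem_stabilizer_iff]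

theorem Hx_le (x : X) : Hx P x ≤ P.EG := Subgroup.map_subtype_le _

theorem mem_Hx_smul {x : X} (k : P.EG) {g : P.Iso} : g ∈ Hx P (k • x) ↔ k.1⁻¹ * g * k.1 ∈ Hx P x := by
  by_cases hg : g ∈ P.EG
  · rw [mem_Hx (g := ⟨g, hg⟩), ← show ((k⁻¹ * ⟨g, hg⟩ * k : P.EG) : P.Iso) = k.1⁻¹ * g * k.1 from rfl,
      mem_Hx, mul_smul, mul_smul, inv_smul_eq_iff]
  · refine ⟨fun h => (hg (Hx_le _ h)).elim, fun h => (hg ?_).elim⟩
    simpa [mul_assoc] using mul_mem (mul_mem k.2 (Hx_le _ h)) (inv_mem k.2)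

theorem Rk3.index {x : X} (R : Rk3 P x) : (Hx P x).relIndex P.EG = Nat.card X := by
  have := R.trans
  rw [Subgroup.relIndex, Hx_sub, index_stabilizer_of_transitive]

end

/-! ### Transvections -/

theorem tv_smul {v : V} (hv : P.Sing v) {c : F} (hc : c ∈ (uFP hF).Λ) (x : V) :
    P.eich v 0 c • x = x - (c * P.B x v) • v := by
  rw [(EOk.lam hv hc).eich_smul]; simp

theorem u_eich_smul {e w : V} {c : F} (h : P.EOk e w c) (x : V) :
    P.eich e w c • x = x + P.B x e • w - (P.B x w + c * P.B x e) • e := by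
  rw [h.eich_smul]; simp

theorem conj_tv {v : V} (hv : P.Sing v) {c : F} (hc : c ∈ (uFP hF).Λ) (g : P.Iso) :
    g * P.eich v 0 c * g⁻¹ = P.eich (g • v) 0 c := by
  rw [(EOk.lam hv hc).conj_eich, smul_zero]

/-- Siegel elements seen from the second point -/
theorem eich_swap {u w : V} (hu : P.Sing u) (hw : P.Sing w) (h : P.B w u = 0) (a : F) :
    P.eich u (a • w) 0 = P.eich w (-(frobq hF a) • u) 0 := iso_ext fun x => by
  rw [u_eich_smul ⟨hu, by simp [h], hw.smul a⟩,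
    u_eich_smul ⟨hw, by simp [B_swap_zero h], hu.smul _⟩]
  simp only [B_smul_right, map_neg, frobq_frobq]
  module

theorem InS.smul {H : Subgroup P.Iso} {v : V} (h : InS H v) {a : F} (ha : a ≠ 0) : InS H (a • v) := by
  obtain ⟨h1, h2, c, hc, h0, hH⟩ := h
  have hτ : frobq hF a ≠ 0 := (map_ne_zero _).2 ha
  refine ⟨h1.smul a, smul_ne_zero ha h2, a⁻¹ * frobq hF a⁻¹ * c, (uFP hF).lam_smul _ _ hc,
    by simp [ha, h0], ?_⟩
  rwa [transvec_smul h1 ((uFP hF).lam_smul _ _ hc), show a * frobq hF a * (a⁻¹ * frobq hF a⁻¹ * c) = c by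
    rw [map_inv₀]; field_simp]

theorem InS.act {H : Subgroup P.Iso} {v : V} (h : InS H v) {g : P.Iso} (hg : g ∈ H) : InS H (g • v) := by
  obtain ⟨h1, h2, c, hc, h0, hH⟩ := h
  exact ⟨h1.act g, act_ne_zero g h2, c, hc, h0,
    conj_tv h1 hc g ▸ mul_mem (mul_mem hg hH) (inv_mem hg)⟩

theorem Cj.symm {H : Subgroup P.Iso} {v w : V} (h : Cj H v w) : Cj H w v := by
  obtain ⟨g, hg, a, ha, e⟩ := h
  exact ⟨g⁻¹, inv_mem hg, a⁻¹, inv_ne_zero ha, by
    rw [inv_smul_eq_iff, act_smul, e, smul_smul, inv_mul_cancel₀ ha, one_smul]⟩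

theorem Cj.trans {H : Subgroup P.Iso} {u v w : V} (h : Cj H u v) (h' : Cj H v w) : Cj H u w := by
  obtain ⟨g, hg, a, ha, e⟩ := h
  obtain ⟨k, hk, b, hb, e'⟩ := h'
  exact ⟨k * g, mul_mem hk hg, a * b, mul_ne_zero ha hb, by rw [mul_smul, e, act_smul, e', smul_smul]⟩

theorem Cj.inS {H : Subgroup P.Iso} {v w : V} (h : Cj H v w) (hv : InS H v) : InS H w := by
  obtain ⟨g, hg, a, ha, e⟩ := h
  simpa [e, smul_smul, ha] using (hv.act hg).smul (inv_ne_zero ha)

theorem Pt2.trC {H : Subgroup P.Iso} (h : Pt2 H) (h0 : ¬ NoTv H) : TrC H := fun u v a b c d e f => by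
  obtain ⟨w, hw⟩ := not_forall.1 h0
  rw [not_not] at hw
  rcases h u v w a b c d hw.1 hw.2.1 with h | h | h
  exacts [h, (e (h.symm.inS hw)).elim, (f (h.symm.inS hw)).elim]

theorem PtTr.trC {H : Subgroup P.Iso} (h : PtTr H) : TrC H := fun u v a b c d _ _ => h u v a b c d

theorem NoQ.noTv (hP : P.ND) {H : Subgroup P.Iso} (h : NoQ H) : NoTv H := by
  rintro v ⟨h1, h2, c, hc, h0, hH⟩
  obtain ⟨y, hy⟩ := hP.exists_eq' h2 1
  have := congrArg (· • y) (h v h1 h2 _ hH (eich_mem_U _ _ _))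
  simp [tv_smul h1 hc, hy, h0, h2] at this

/-! ### The sets `Av H u` -/

section
variable {H : Subgroup P.Iso} {u : V}

theorem Av.sing {a : V} (h : a ∈ Av H u) : P.Sing u := h.choose_spec.1.sing

theorem Av.perp {a : V} (h : a ∈ Av H u) : P.B a u = 0 := h.choose_spec.1.perp

theorem Av.add {a b : V} (h : a ∈ Av H u) (h' : b ∈ Av H u) : a + b ∈ Av H u :=
  (P.vecs H (Av.sing h)).add_mem h h'

theorem Av.neg {a : V} (h : a ∈ Av H u) : -a ∈ Av H u := (P.vecs H (Av.sing h)).neg_mem h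

theorem Av.sub {a b : V} (h : a ∈ Av H u) (h' : b ∈ Av H u) : a - b ∈ Av H u :=
  (P.vecs H (Av.sing h)).sub_mem h h'

theorem Av.smul_self (hu : P.Sing u) (a : F) : a • u ∈ Av H u := smul_mem_vecs hu a

theorem Av.act {a : V} (h : a ∈ Av H u) {g : P.Iso} (hg : g ∈ H) : g • a ∈ Av H (g • u) := by
  obtain ⟨c, h1, h2⟩ := h
  exact ⟨c, h1.act g, h1.conj_eich g ▸ mul_mem (mul_mem hg h2) (inv_mem hg)⟩

theorem Av.fix {a : V} (h : a ∈ Av H u) {g : P.Iso} (hg : g ∈ H) (hu : g • u = u) : g • a ∈ Av H u :=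
  hu ▸ Av.act h hg

theorem Av.smul_left {a : V} {t : F} (ht : t ≠ 0) : a ∈ Av H (t • u) ↔ frobq hF t • a ∈ Av H u := by
  have key : ∀ (u a : V) (t : F), t ≠ 0 → a ∈ Av H (t • u) → frobq hF t • a ∈ Av H u := by
    rintro u a t ht ⟨c, h1, h2⟩
    have h3 : P.EOk u a c := by
      have := h1.smul_left t⁻¹
      rwa [smul_smul, inv_mul_cancel₀ ht, one_smul] at this
    refine ⟨t * frobq hF t * c, ?_, by rwa [← h3.eich_smul_left]⟩
    have := h3.smul_right (frobq hF t)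
    rwa [frobq_frobq, mul_comm (frobq hF t)] at this
  refine ⟨key u a t ht, fun h => ?_⟩
  have := key (t • u) (frobq hF t • a) t⁻¹ (inv_ne_zero ht) (by simpa [smul_smul, ht] using h)
  simpa [smul_smul, ht] using this

/-- inner products of elements of `Av H u` are fixed by the field involution -/
theorem Av.fixed {a b : V} (h0 : u ≠ 0) (hS : ¬ InS H u) (h : a ∈ Av H u) (h' : b ∈ Av H u) :
    frobq hF (P.B a b) = P.B a b := by
  have := comm_mem_Dv (Av.sing h) h h'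
  by_contra hne
  exact hS ⟨Av.sing h, h0, _, this.1, fun e => hne (by rw [← u_swap]; linear_combination e), this.2⟩

end

end Cfsg.Agent.UR
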