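import Cfsg.Agent.UR.B0a
import Cfsg.Agent.UR.Base
import Cfsg.Agent.Polar.OGeo

/-! The action on isotropic vectors: counts and invariant matrices. -/

set_option autoImplicit false
set_option linter.unusedSectionVars false

namespace Cfsg.Agent.UR

open Module MulAction Matrix Finset Cfsg.Agent.Forms Cfsg.Agent.Polar Cfsg.Agent.Polar.PQ

variable {F : Type*} [Field F] [Fintype F] {q : ℕ} {hF : Fintype.card F = q ^ 2}
variable {V : Type*} [AddCommGroup V] [Module F V] [Finite V] {P : PQ (uFP hF) V} {n : ℕ}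

variable (P) in
/-- nonzero isotropic vectors -/
abbrev Om : Type _ := {v : V // P.Sing v ∧ v ≠ 0}

instance Om.act : MulAction P.EG (Om P) where
  smul g v := ⟨g.1 • v.1, v.2.1.act _, act_ne_zero _ v.2.2⟩
  one_smul v := Subtype.ext (one_smul P.Iso v.1)
  mul_smul g h v := Subtype.ext (mul_smul g.1 h.1 v.1)

noncomputable instance Om.fin : Fintype (Om P) := Fintype.ofFinite _

theorem Om.smul_val (g : P.EG) (v : Om P) : (g • v).1 = g.1 • v.1 := rfl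

theorem Om.trans (hP : P.ND) (h3 : 3 ≤ finrank F V) : IsPretransitive P.EG (Om P) := ⟨fun u v => by
  obtain ⟨g, hg, e⟩ := u_vTrans hP h3 u.1 v.1 u.2.1 v.2.1 u.2.2 v.2.2
  exact ⟨⟨g, hg⟩, Subtype.ext e⟩⟩

theorem Om.sum (p : V → Prop) : ∑ v : Om P, bI (p v.1) = ({v | (P.Sing v ∧ v ≠ 0) ∧ p v}.ncard : ℚ) := by
  rw [bI_sum, ← Set.ncard_image_of_injective _ (Subtype.val_injective (p := fun v => P.Sing v ∧ v ≠ 0))]
  congr 2
  ext v
  exact ⟨by rintro ⟨w, hw, rfl⟩; exact ⟨w.2, hw⟩, fun h => ⟨⟨v, h.1⟩, h.2, rfl⟩⟩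

theorem Om.card (hP : P.ND) (hn : finrank F V = n) (h1 : 1 ≤ n) : (Fintype.card (Om P) : ℚ) = Iq q n := by
  have := Om.sum (P := P) fun _ => True
  rw [← ncard_sing0 hP hn h1, show P.sing0 Set.univ = {v | (P.Sing v ∧ v ≠ 0) ∧ True} by
    ext v; simp [mem_sing0, and_comm], ← this]
  simp [bI]

variable (P) in
/-- same point -/
noncomputable def mE : Matrix (Om P) (Om P) ℚ := fun u w => bI (w.1 ∈ F ∙ u.1)

variable (P) in
/-- orthogonality -/
noncomputable def mP : Matrix (Om P) (Om P) ℚ := fun u w => bI (P.B w.1 u.1 = 0)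

theorem mP_inv : BInv P.EG (mP P) := fun g u w => by simp [mP, Om.smul_val]

theorem mP_symm (u w : Om P) : mP P u w = mP P w u := by simp only [mP, B_eq_zero_comm (x := w.1)]

theorem mE_sum (u : Om P) : ∑ w, mE P u w = (q : ℚ) ^ 2 - 1 := by
  have h := ncard_span_ne (F := F) u.2.2
  rw [u_card hF] at h
  rw [show ∑ w, mE P u w = _ from Om.sum fun w => w ∈ F ∙ u.1, eq_sub_iff_add_eq,
    show {v | (P.Sing v ∧ v ≠ 0) ∧ v ∈ F ∙ u.1} = {y | y ∈ F ∙ u.1 ∧ y ≠ 0} by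
      ext v
      refine ⟨fun h => ⟨h.2, h.1.2⟩, fun h => ⟨⟨?_, h.2⟩, h.1⟩⟩
      obtain ⟨a, rfl⟩ := Submodule.mem_span_singleton.1 h.1
      exact u.2.1.smul a]
  exact_mod_cast h

theorem mP_two (hP : P.ND) (hn : finrank F V = n) (h3 : 3 ≤ n) {e f : Om P} (h : P.Hyp e.1 f.1) :
    ∑ w, mP P e w * mP P f w = Iq q (n - 2) := by
  simp only [mP, bI_mul]
  rw [Om.sum fun w => P.B w e.1 = 0 ∧ P.B w f.1 = 0,
    ← ncard_sing0 (h.emb.nd hP) (n := n - 2) (by have := h.finrank_perp; omega) (by omega),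
    ← Set.ncard_image_of_injective _ Subtype.val_injective]
  congr 2
  ext v
  exact ⟨fun hv => ⟨⟨v, mem_perp_pair.2 hv.2⟩, ⟨trivial, fun e => hv.1.2 (congrArg Subtype.val e), hv.1.1⟩, rfl⟩,
    by rintro ⟨w, hw, rfl⟩; exact ⟨⟨hw.2.2, fun e => hw.2.1 (Subtype.ext e)⟩, mem_perp_pair.1 w.2⟩⟩

theorem mP_sum (hP : P.ND) (hn : finrank F V = n) (h3 : 3 ≤ n) (e : Om P) :
    ∑ w, mP P e w = (q : ℚ) ^ 2 - 1 + q ^ 2 * Iq q (n - 2) := by
  obtain ⟨f, h⟩ := hP.exists_hyp e.2.1 e.2.2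
  have h1 := h.card_level_zero 0
  have h2 := ncard_sing0_add_one (P := P.res (P.perp {e.1, f}))
  rw [ncard_sing0 (h.emb.nd hP) (n := n - 2) (by have := h.finrank_perp; omega) (by omega)] at h2
  rw [u_card hF, show Nat.card {w : P.perp {e.1, f} // P.QEq w 0} = _ from h2.symm,
    show Nat.card {x : V // P.B x e.1 = 0 ∧ P.QEq x 0} = _ from
      Nat.card_coe_set_eq {x : V | P.B x e.1 = 0 ∧ P.Sing x},
    show {x : V | P.B x e.1 = 0 ∧ P.Sing x} = insert 0 {v | (P.Sing v ∧ v ≠ 0) ∧ P.B v e.1 = 0} by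
      ext v; by_cases hv : v = 0 <;> simp [hv, sing_zero, and_comm],
    Set.ncard_insert_of_notMem (by simp)] at h1
  rw [show ∑ w, mP P e w = _ from Om.sum fun w => P.B w e.1 = 0]
  have h1 := congrArg (Nat.cast : ℕ → ℚ) h1
  push_cast at h1
  linear_combination h1

theorem b0_pair (hP : P.ND) (h5 : 5 ≤ finrank F V) {u v u' v' : Om P} (h : P.B v.1 u.1 = 0) (l : v.1 ∉ F ∙ u.1)
    (h' : P.B v'.1 u'.1 = 0) (l' : v'.1 ∉ F ∙ u'.1) : ∃ g : P.EG, g • u = u' ∧ g • v = v' := by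
  obtain ⟨f, hf, hvf⟩ := hP.exists_hyp_perp u.2.1 u.2.2 l h
  obtain ⟨f', hf', hvf'⟩ := hP.exists_hyp_perp u'.2.1 u'.2.2 l' h'
  obtain ⟨g, hg, e1, e2⟩ := (u_vTrans hP (by omega)).exists_hyp hf hf'
  have m : g • v.1 ∈ P.perp {u'.1, f'} := mem_perp_pair.2 ⟨by simp [← e1, h], by simp [← e2, hvf]⟩
  obtain ⟨k, hk, hkv⟩ := u_vTrans (hf'.emb.nd hP) (by have := hf'.finrank_perp; omega) ⟨g • v.1, m⟩
    ⟨v'.1, mem_perp_pair.2 ⟨h', hvf'⟩⟩ (v.2.1.act g) v'.2.1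
    (fun h0 => act_ne_zero g v.2.2 (congrArg Subtype.val h0)) (fun h0 => v'.2.2 (congrArg Subtype.val h0))
  refine ⟨⟨hf'.emb.ext k * g, mul_mem (hf'.emb.ext_mem_EG hk) hg⟩, Subtype.ext ?_, Subtype.ext ?_⟩
  · rw [Om.smul_val, mul_smul, e1, hf'.emb.ext_smul_ker _ hf'.emb_r_left]
  · have := hf'.emb.ext_smul_i k ⟨g • v.1, m⟩
    rw [hkv] at this
    rw [Om.smul_val, mul_smul]
    exact this

/-- rank three on isotropic points -/
theorem b0_rank (hP : P.ND) (h5 : 5 ≤ finrank F V) {T : Matrix (Om P) (Om P) ℚ} (hT : BInv P.EG T)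
    (hs : ∀ u v w : Om P, w.1 ∈ F ∙ v.1 → T u w = T u v) :
    ∃ a b c : ℚ, ∀ u w, T u w = a * mE P u w + b * mP P u w + c := by
  have := Om.trans hP (by omega)
  obtain ⟨e, he0, he⟩ := u_exists_sing P (by omega)
  obtain ⟨f, h⟩ := hP.exists_hyp he he0
  obtain ⟨z, hz0, hz⟩ := u_exists_sing (P.res (P.perp {e, f})) (by have := h.finrank_perp; omega)
  have hz' := mem_perp_pair.1 z.2
  have z0 : z.1 ≠ 0 := fun e => hz0 (Subtype.ext e)
  set E : Om P := ⟨e, he, he0⟩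
  set f' : Om P := ⟨f, h.right, h.right_ne_zero⟩
  set Z : Om P := ⟨z.1, hz, z0⟩
  refine ⟨T E E - T E Z, T E Z - T E f', T E f', fun u w => ?_⟩
  by_cases h1 : w.1 ∈ F ∙ u.1
  · obtain ⟨g, rfl⟩ := exists_smul_eq P.EG E u
    rw [hs _ _ _ h1, hT, mE, mP, bI_pos h1, bI_pos (by
      obtain ⟨a, ha⟩ := Submodule.mem_span_singleton.1 h1
      simp [← ha, (g • E).2.1.B_self])]
    ring
  by_cases h2 : P.B w.1 u.1 = 0
  · obtain ⟨g, rfl, rfl⟩ := b0_pair hP h5 (u := E) (v := Z) hz'.1 (fun h3 => by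
      obtain ⟨a, ha⟩ := Submodule.mem_span_singleton.1 h3
      have := hz'.2
      rw [show z.1 = a • e from ha.symm, B_smul_left, h.pair, mul_one] at this
      exact z0 (by rw [show z.1 = a • e from ha.symm, this, zero_smul])) h2 h1
    rw [hT, mE, mP, bI_neg h1, bI_pos h2]; ring
  · have h3 := hyp_of_ne u.2.1 w.2.1 (B_swap_ne h2)
    obtain ⟨g, hg, e1, e2⟩ := (u_vTrans hP (by omega)).exists_hyp h h3
    obtain rfl : (⟨g, hg⟩ : P.EG) • E = u := Subtype.ext e1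
    rw [← hs _ w ((⟨g, hg⟩ : P.EG) • f') (Submodule.mem_span_singleton.2 ⟨_, e2.symm⟩), hT, mE, mP, bI_neg h1,
      bI_neg h2]
    ring

/-- transvections as elements of `EG` -/
noncomputable def tE (c : F) (v : Om P) : P.EG := ⟨P.eich v.1 0 c, eich_mem_EG _ _ _⟩

theorem tE_conj {c : F} (hc : c ∈ (uFP hF).Λ) (g : P.EG) (v : Om P) : tE c (g • v) = g * tE c v * g⁻¹ :=
  Subtype.ext (conj_tv v.2.1 hc g.1).symm

theorem tE_inv {c : F} (hc : c ∈ (uFP hF).Λ) (v : Om P) : (tE c v)⁻¹ = tE (-c) v :=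
  Subtype.ext (by
    change (P.eich v.1 0 c)⁻¹ = P.eich v.1 0 (-c)
    rw [(EOk.lam v.2.1 hc).eich_inv, neg_zero, uFP_eps, one_mul, u_lam_tau hc])

/-- the sum of the transvections on functions on points -/
theorem b0_eig {c : F} (hc : c ∈ (uFP hF).Λ) (c0 : c ≠ 0) (φ : Om P → ℚ)
    (hs : ∀ v w : Om P, w.1 ∈ F ∙ v.1 → φ w = φ v) (h0 : ∑ w, φ w = 0) (u : Om P) :
    ∑ v : Om P, φ (tE c v • u) = (∑ w, mP P u w) * φ u - ∑ w, mP P u w * φ w := by
  have hB : ∀ v : Om P, P.B u.1 (v.1 - (c * P.B u.1 v.1)⁻¹ • u.1) = P.B u.1 v.1 := fun v => by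
    simp [u.2.1.B_self]
  let σ : Om P → Om P := fun v => ⟨v.1 - (c * P.B u.1 v.1)⁻¹ • u.1, by
    by_cases h : P.B u.1 v.1 = 0
    · simpa [h] using v.2.1
    · have h' := (map_ne_zero (frobq hF)).2 h
      simp only [u_sing_iff, map_sub, LinearMap.sub_apply, B_smul_left, B_smul_right, u.2.1.B_self, v.2.1.B_self,
        u_swap u.1 v.1, map_inv₀, map_mul, u_lam_tau hc]
      field_simp; ring, fun h => by
    have h1 := hB v
    rw [h, map_zero] at h1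
    exact v.2.2 (by simpa [← h1] using h)⟩
  have hσ : Function.Injective σ := fun v w h => by
    have h1 : v.1 - (c * P.B u.1 v.1)⁻¹ • u.1 = w.1 - (c * P.B u.1 w.1)⁻¹ • u.1 := congrArg Subtype.val h
    have h2 := hB v
    rw [h1, hB] at h2
    exact Subtype.ext (by simpa [h2] using h1)
  have h1 : ∀ v : Om P, φ (tE c v • u) = mP P u v * φ u + (φ (σ v) - mP P u (σ v) * φ (σ v)) := fun v => by
    have e : (tE c v • u).1 = u.1 - (c * P.B u.1 v.1) • v.1 := tv_smul v.2.1 hc u.1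
    rw [← mP_symm v u, ← mP_symm (σ v) u, mP, mP, show P.B u.1 (σ v).1 = _ from hB v]
    by_cases h : P.B u.1 v.1 = 0
    · rw [bI_pos h, show tE c v • u = u from Subtype.ext (by simp [e, h])]; ring
    · rw [bI_neg h, hs (σ v) _ (Submodule.mem_span_singleton.2 ⟨-(c * P.B u.1 v.1), by
        simp only [e, σ, smul_sub, smul_smul, neg_mul, mul_inv_cancel₀ (mul_ne_zero c0 h)]; module⟩)]
      ring
  simp only [h1, sum_add_distrib, ← sum_mul]
  rw [(Finite.injective_iff_bijective.1 hσ).sum_comp fun w => φ w - mP P u w * φ w, sum_sub_distrib, h0]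
  ring

end Cfsg.Agent.UR
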