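import Cfsg.Agent.UR.Base

/-! Rank three actions of unitary groups: the elements fixing the perp of a totally isotropic line. -/

set_option autoImplicit false

namespace Cfsg.Agent.UR

open Module MulAction Cfsg.Agent.Forms Cfsg.Agent.Polar Cfsg.Agent.Polar.PQ

theorem bl_ar_const {q a a' i : ℕ} (ha : 2 ≤ a) (h1 : a * a' = q) (hi : i ∣ q) (hq : 2 ≤ q)
    (h : q ^ 2 + 1 + a' = i * (q + 1) + a' * q) : False := by
  have h2 : 2 * a' ≤ q := h1 ▸ Nat.mul_le_mul_right _ ha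
  have h3 : (2 * (a' + 1) : ℤ) = (q + 1) * (i + a' + 1 - q) := by
    zify at h; linear_combination h
  have h4 : (i + a' + 1 - q : ℤ) = 1 := by
    zify at h2 hq
    have : (0 : ℤ) ≤ a' := by positivity
    by_contra hne
    rcases lt_or_gt_of_ne hne with h5 | h5 <;> nlinarith
  rw [h4] at h3
  have h5 : 2 * a' + 1 = q := by omega
  have h6 : a' ∣ 1 := (Nat.dvd_add_right (Dvd.intro_left 2 rfl)).1 (h5 ▸ Dvd.intro_left a h1)
  obtain rfl := Nat.dvd_one.1 h6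
  obtain rfl : q = 3 := by omega
  obtain rfl : i = 2 := by omega
  omega

variable {F : Type*} [Field F] [Fintype F] {q : ℕ} {hF : Fintype.card F = q ^ 2}
  {V : Type*} [AddCommGroup V] [Module F V] [Finite V] {P : PQ (uFP hF) V} {H : Subgroup P.Iso}

theorem bl_sub_mem (hP : P.ND) {ℓ : Submodule F V} {g : P.Iso} (hE : ∀ z ∈ P.perp ℓ, g • z = z)
    (x : V) : g • x - x ∈ ℓ := by
  have : FiniteDimensional F V := Module.Finite.of_finite
  rw [← perp_perp hP ℓ]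
  intro z hz
  rw [map_sub, LinearMap.sub_apply, sub_eq_zero]
  conv_lhs => rw [← hE z hz, B_smul_smul]

omit [Finite V] in
theorem bl_exists_notMem {ℓ : Submodule F V} (h2 : finrank F ℓ = 2) (v : V) :
    ∃ w ∈ ℓ, w ∉ F ∙ v := by
  by_contra h
  push Not at h
  have h1 := Submodule.finrank_mono (show ℓ ≤ F ∙ v from h)
  have h3 : finrank F (F ∙ v) ≤ 1 := by simpa using finrank_span_le_card (R := F) ({v} : Set V)
  omega

theorem bl_span {ℓ : Submodule F V} (h2 : finrank F ℓ = 2) {v w : V} (hv : v ∈ ℓ) (h0 : v ≠ 0)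
    (hw : w ∈ ℓ) (hw0 : w ∉ F ∙ v) : Submodule.span F {v, w} = ℓ :=
  have : FiniteDimensional F V := Module.Finite.of_finite
  Submodule.eq_of_le_of_finrank_eq
    (Submodule.span_le.2 (by rintro _ (rfl | rfl) <;> assumption))
    (by rw [finrank_span_pair (li_of_notMem h0 hw0), h2])

theorem bl_exists_dual (hP : P.ND) {ℓ : Submodule F V} (h2 : finrank F ℓ = 2) {v : V}
    (h0 : v ≠ 0) : ∃ y, P.B y v = 0 ∧ y ∉ P.perp ℓ := by
  have : FiniteDimensional F V := Module.Finite.of_finite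
  obtain ⟨w, hw, hw0⟩ := bl_exists_notMem h2 v
  obtain ⟨y, h1, h3⟩ := exists_perp_B_eq hP (li_of_notMem h0 hw0) 1
  exact ⟨y, h1, fun h => one_ne_zero (h3.symm.trans (h w hw))⟩

/-- criterion for an element fixing `ℓ^⊥` pointwise to lie in `U v` -/
theorem bl_crit (hP : P.ND) {ℓ : Submodule F V} (hℓ : P.TotSing ℓ) (h2 : finrank F ℓ = 2)
    {v y : V} (hv : v ∈ ℓ) (h0 : v ≠ 0) (hy : P.B y v = 0) (hy0 : y ∉ P.perp ℓ) {g : P.Iso}
    (hE : ∀ z ∈ P.perp ℓ, g • z = z) : g ∈ P.U v ↔ P.B (g • y - y) y = 0 := by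
  obtain ⟨w, hw, hyw⟩ : ∃ w ∈ ℓ, P.B y w ≠ 0 := by
    by_contra h; push Not at h; exact hy0 h
  have hw0 : w ∉ F ∙ v := fun h => by
    obtain ⟨a, rfl⟩ := Submodule.mem_span_singleton.1 h
    exact hyw (by rw [B_smul_right, hy, mul_zero])
  have hsp := bl_span h2 hv h0 hw hw0
  constructor
  · intro h
    obtain ⟨a, ha⟩ := h.2 y hy
    rw [ha, add_sub_cancel_left, B_smul_left, B_swap_zero hy, mul_zero]
  · intro h
    refine ⟨hE v (hℓ.le_perp hv), fun x hx => ?_⟩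
    obtain ⟨a, b, hab⟩ := Submodule.mem_span_pair.1 (hsp.ge (bl_sub_mem hP hE y))
    rw [← hab] at h
    obtain rfl : b = 0 := by simpa [B_swap_zero hy, B_swap_ne hyw] using h
    have h3 : x - (P.B x w / P.B y w) • y ∈ P.perp ℓ := fun z hz => by
      obtain ⟨c, d, rfl⟩ := Submodule.mem_span_pair.1 (hsp.ge hz)
      simp only [map_add, map_sub, LinearMap.sub_apply, B_smul_left, B_smul_right, hx, hy]
      field_simp; ring
    have h4 := hE _ h3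
    rw [smul_sub, act_smul] at h4
    refine ⟨P.B x w / P.B y w * a, ?_⟩
    generalize g • x = x' at *
    generalize g • y = y' at *
    linear_combination (norm := module) h4 - (P.B x w / P.B y w) • hab

theorem bl_one' (hP : P.ND) {ℓ : Submodule F V} (hℓ : P.TotSing ℓ) (h2 : finrank F ℓ = 2)
    {g : P.Iso} (hE : ∀ z ∈ P.perp ℓ, g • z = z) : ∃ x ∈ ℓ, x ≠ 0 ∧ g ∈ P.U x := by
  have : FiniteDimensional F V := Module.Finite.of_finite
  obtain ⟨c, hc, hc0⟩ := u_exists_lam hF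
  let N : V →ₗ[F] V := ((g : V ≃ₗ[F] V) : V →ₗ[F] V) - LinearMap.id
  have hN : ∀ x, N x = g • x - x := fun x => rfl
  have hs : ∀ x y, P.B (N y) x = -P.B y (N x) := fun x y => by
    have h1 := B_smul_smul g y x
    have h3 := hℓ.perp _ (bl_sub_mem hP hE y) _ (bl_sub_mem hP hE x)
    simp only [hN, map_sub, LinearMap.sub_apply] at h3 ⊢
    linear_combination h1 - h3
  obtain ⟨W, hW⟩ := Submodule.exists_isCompl (P.perp ℓ)
  have h3 := Submodule.finrank_add_eq_of_isCompl hW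
  have h4 := finrank_perp hP ℓ
  obtain ⟨y, hy, hy0, hys⟩ := u_iso (P := ofHerm hF (c • (P.B ∘ₗ N)) fun x y => by
    change c * P.B (N y) x = frobq hF (c * P.B (N x) y)
    rw [map_mul, u_lam_tau hc, ← u_swap, hs]; ring) W (by omega)
  rw [u_sing_iff] at hys
  change c * P.B (N y) y = 0 at hys
  obtain ⟨v, hv0, hv⟩ := exists_ne_zero_ker₁ ((P.B.flip y) ∘ₗ ℓ.subtype) (by omega)
  exact ⟨v, v.2, fun h => hv0 (Subtype.ext h), (bl_crit hP hℓ h2 v.2 (fun h => hv0 (Subtype.ext h))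
    (B_swap_zero hv) (fun h => hy0 (by simpa using hW.disjoint.le_bot ⟨h, hy⟩)) hE).2
    ((mul_eq_zero.1 hys).resolve_left hc0)⟩

theorem bl_one (hP : P.ND) (_h0 : NoTv H) (ℓ : Submodule F V) (hℓ : P.TotSing ℓ)
    (h2 : finrank F ℓ = 2) {g : P.Iso} (_hg : g ∈ H) (_h1 : g ≠ 1)
    (hE : ∀ z ∈ P.perp ℓ, g • z = z) : ∃ x ∈ ℓ, x ≠ 0 ∧ g ∈ P.U x := bl_one' hP hℓ h2 hE

/-- the order of `H ⊓ E_ℓ ⊓ U x` -/
noncomputable def al (H : Subgroup P.Iso) (ℓ : Submodule F V) (x : V) : ℕ :=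
  Nat.card (H ⊓ P.fst (P.perp ℓ) ⊓ P.U x : Subgroup P.Iso)

omit [Finite V] in
theorem NoTv.Dv_eq_bot (h0 : NoTv H) {x : V} (hx : P.Sing x) (hx0 : x ≠ 0) : P.Dv H hx = ⊥ :=
  eq_bot_iff.2 fun c hc => by_contra fun h => h0 x ⟨hx, hx0, c, hc.1, h, hc.2⟩

omit [Finite V] in
theorem NoTv.mono (h0 : NoTv H) {K : Subgroup P.Iso} (hK : K ≤ H) : NoTv K :=
  fun v ⟨a, b, c, hc, d, e⟩ => h0 v ⟨a, b, c, hc, d, hK e⟩

theorem card_Av (hP : P.ND) (h0 : NoTv H) (ℓ : Submodule F V) (hℓ : P.TotSing ℓ) {x : V}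
    (hx : x ∈ ℓ) (hx0 : x ≠ 0) : al H ℓ x * q ^ 2 = (Av H x ∩ ℓ).ncard := by
  have : FiniteDimensional F V := Module.Finite.of_finite
  obtain ⟨f, h⟩ := hP.exists_hyp (hℓ.sing x hx) hx0
  have key : ∀ w, w ∈ h.Yv (H ⊓ P.fst (P.perp ℓ)) ↔ w ∈ h.Yv H ∧ w ∈ ℓ := fun w => by
    rw [h.Yv_fst H (X := P.perp ℓ) fun z hz => hz x hx, perp_perp hP]
  rw [al, h.card_inf_U, (h0.mono inf_le_left).Dv_eq_bot h.left hx0, AddSubgroup.card_bot, mul_one,
    ← u_card hF, ← Nat.card_prod, ← Nat.card_coe_set_eq]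
  refine Nat.card_congr (Equiv.ofBijective (fun p => ⟨p.1.1 + p.2 • x,
    Av.add ((key _).1 p.1.2).1.1 (Av.smul_self h.left _),
    add_mem ((key _).1 p.1.2).2 (ℓ.smul_mem _ hx)⟩) ⟨?_, ?_⟩)
  · rintro ⟨⟨a, ha⟩, s⟩ ⟨⟨b, hb⟩, t⟩ hab
    have h1 : a + s • x = b + t • x := congrArg Subtype.val hab
    have h3 := congrArg (P.B · f) h1
    simp only [map_add, LinearMap.add_apply, B_smul_left, h.pair, (mem_perp_pair.1 ha.2).2,
      (mem_perp_pair.1 hb.2).2, zero_add, mul_one] at h3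
    subst h3
    obtain rfl := add_right_cancel h1
    rfl
  · rintro ⟨a, ha, ha'⟩
    have h1 := Hyp.eq_of_perp (f := f) (Av.perp ha)
    refine ⟨(⟨P.hproj x f a, (key _).2 ⟨h.hproj_mem_Yv ha, ?_⟩⟩, P.B a f), Subtype.ext h1.symm⟩
    rw [eq_sub_of_add_eq h1.symm]
    exact sub_mem ha' (ℓ.smul_mem _ hx)

theorem al_dvd (hP : P.ND) (h0 : NoTv H) (ℓ : Submodule F V) (hℓ : P.TotSing ℓ)
    (h2 : finrank F ℓ = 2) {x : V} (hx : x ∈ ℓ) (hx0 : x ≠ 0) : al H ℓ x ∣ q ^ 2 := by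
  have hq := two_le_q hF
  have h1 := AddSubgroup.card_dvd_of_le
    (inf_le_right : P.vecs H (hℓ.sing x hx) ⊓ ℓ.toAddSubgroup ≤ _)
  have h3 : Nat.card ℓ.toAddSubgroup = q ^ 2 * q ^ 2 := by
    rw [← sq, ← u_card hF]; exact (card_submodule ℓ).trans (by rw [h2])
  rw [h3, show Nat.card (P.vecs H (hℓ.sing x hx) ⊓ ℓ.toAddSubgroup : AddSubgroup V) =
    (Av H x ∩ ℓ).ncard from Nat.card_coe_set_eq _, ← card_Av hP h0 ℓ hℓ hx hx0] at h1
  exact Nat.dvd_of_mul_dvd_mul_right (by positivity) h1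

theorem al_mul (hP : P.ND) (H : Subgroup P.Iso) (ℓ : Submodule F V) (hℓ : P.TotSing ℓ)
    (h2 : finrank F ℓ = 2) {x : V} (hx : x ∈ ℓ) (hx0 : x ≠ 0) :
    ∃ i, i ∣ q ∧ Nat.card (H ⊓ P.fst (P.perp ℓ) : Subgroup P.Iso) = al H ℓ x * i := by
  obtain ⟨y, hy, hy0⟩ := bl_exists_dual hP h2 hx0
  let φ : (H ⊓ P.fst (P.perp ℓ) : Subgroup P.Iso) →* Multiplicative (uFP hF).Λ :=
    MonoidHom.mk' (fun g => Multiplicative.ofAdd ⟨P.B (g.1 • y - y) y, by
      have h1 := B_smul_smul g.1 y y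
      have h3 := hℓ.perp _ (bl_sub_mem hP g.2.2 y) _ (bl_sub_mem hP g.2.2 y)
      rw [mem_uFP_lam, ← u_swap]
      simp only [map_sub, LinearMap.sub_apply] at h3 ⊢
      linear_combination h1 - h3⟩) fun g k => by
      rw [← ofAdd_add]
      congr 1
      ext
      have h1 := g.2.2 _ (hℓ.le_perp (bl_sub_mem hP k.2.2 y))
      rw [smul_sub] at h1
      change P.B ((g.1 * k.1) • y - y) y = P.B (g.1 • y - y) y + P.B (k.1 • y - y) y
      rw [← LinearMap.add_apply, ← map_add, mul_smul, sub_eq_iff_eq_add.1 h1]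
      congr 2
      abel
  have h1 : φ.ker = (P.U x).subgroupOf _ := by
    ext g
    rw [MonoidHom.mem_ker, Subgroup.mem_subgroupOf, bl_crit hP hℓ h2 hx hx0 hy hy0 g.2.2]
    exact ⟨fun h => congrArg (fun t => (Multiplicative.toAdd t).1) h,
      fun h => congrArg Multiplicative.ofAdd (Subtype.ext h)⟩
  refine ⟨Nat.card φ.range, ?_, ?_⟩
  · have := Subgroup.card_subgroup_dvd_card φ.range
    rwa [Nat.card_congr Multiplicative.toAdd, card_lam] at this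
  · rw [← Subgroup.card_mul_index φ.ker, Subgroup.index_ker, h1, al, inf_comm _ (P.U x),
      ← Subgroup.inf_subgroupOf_right,
      Nat.card_congr (Subgroup.subgroupOfEquivOfLe inf_le_right).toEquiv]

/-- the double count -/
theorem al_sum (hP : P.ND) (h0 : NoTv H) (ℓ : Submodule F V) (hℓ : P.TotSing ℓ)
    (h2 : finrank F ℓ = 2) :
    ∑ x ∈ (Set.toFinite (P.sing0 ℓ)).toFinset, al H ℓ x + (q + 1) * (q ^ 2 - 1) =
      Nat.card (H ⊓ P.fst (P.perp ℓ) : Subgroup P.Iso) * ((q + 1) * (q ^ 2 - 1)) +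
        (P.sing0 ℓ).ncard := by
  classical
  have : FiniteDimensional F V := Module.Finite.of_finite
  set E := H ⊓ P.fst (P.perp ℓ) with hE
  set S := (Set.toFinite (P.sing0 ℓ)).toFinset with hS
  set T := (Set.toFinite (E : Set P.Iso)).toFinset with hT
  have h1 : ∀ x, al H ℓ x = ∑ g ∈ T, if g ∈ P.U x then 1 else 0 := fun x => by
    rw [← Finset.card_filter, al, ← hE, ← Set.ncard_coe_finset, ← Nat.card_coe_set_eq]
    refine Nat.card_congr (Equiv.subtypeEquivRight fun g => ?_)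
    simp [hT]
  have h3 : ∀ g ∈ T.erase 1, (∑ x ∈ S, if g ∈ P.U x then 1 else 0) = (q + 1) * (q ^ 2 - 1) := by
    intro g hg
    obtain ⟨hg1, hg⟩ := Finset.mem_erase.1 hg
    have hg : g ∈ E := by simpa [hT] using hg
    obtain ⟨v, hv, hv0, hU⟩ := bl_one' hP hℓ h2 hg.2
    obtain ⟨f, hf⟩ := hP.exists_hyp (hℓ.sing v hv) hv0
    obtain ⟨w, hw, c, hc, rfl⟩ := hf.mem_U_iff.1 hU
    have hwX := ((hf.Yv_fst H (X := P.perp ℓ) fun x hx => hx v hv).1 ⟨⟨c, hc, hg⟩, hw⟩).2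
    rw [perp_perp hP] at hwX
    have hc' := (sing_iff_of_QEq hc.val).1 (hℓ.sing w hwX)
    rw [← Finset.card_filter, ← Set.ncard_coe_finset,
      ← u4_baer_level hP hℓ h2 hv hv0 hwX (hf.notMem_span_left hw ?_) hc']
    · congr 1; ext; simp [hS]
    rintro rfl
    have : c ∈ P.Dv H hf.left := ⟨hc', hg.1⟩
    rw [h0.Dv_eq_bot hf.left hv0, AddSubgroup.mem_bot] at this
    exact hg1 (by rw [this, eich_zero])
  have h4 : (1 : P.Iso) ∈ T := by simpa [hT] using one_mem E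
  have h5 : Nat.card E = (T.erase 1).card + 1 := by
    rw [Finset.card_erase_add_one h4, hT, ← Set.ncard_eq_toFinset_card, ← Nat.card_coe_set_eq]; rfl
  simp only [h1]
  rw [Finset.sum_comm, ← Finset.add_sum_erase _ _ h4, Finset.sum_congr rfl h3, h5,
    Set.ncard_eq_toFinset_card _ (Set.toFinite _), ← hS]
  simp only [one_mem, if_true, Finset.sum_const, smul_eq_mul]
  ring

theorem bl_ncard_sing0 (ℓ : Submodule F V) (hℓ : P.TotSing ℓ) (h2 : finrank F ℓ = 2) :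
    (P.sing0 ℓ).ncard = (q ^ 2 + 1) * (q ^ 2 - 1) := by
  have h1 := hℓ.ncard_sing0
  have hq := two_le_q hF
  obtain ⟨k, hk⟩ : ∃ k, q ^ 2 = k + 1 := ⟨q ^ 2 - 1, by
    have : 0 < q ^ 2 := by positivity
    omega⟩
  rw [h2, u_card hF, hk] at h1
  rw [hk, Nat.add_sub_cancel]
  nlinarith

theorem bl_const (hP : P.ND) (_hq : 3 ≤ q) (h0 : NoTv H) (ℓ : Submodule F V) (hℓ : P.TotSing ℓ)
    (h2 : finrank F ℓ = 2) (α : ℕ) (h1 : q ^ 2 < α)
    (h : ∀ x ∈ ℓ, x ≠ 0 → (Av H x ∩ ℓ).ncard = α) : False := by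
  have hq := two_le_q hF
  have hq2 : 1 < q ^ 2 := Nat.one_lt_pow (by omega) (by omega)
  obtain ⟨x, hx, hx0⟩ := bl_exists_notMem h2 (0 : V)
  replace hx0 := ne_zero_of_notMem hx0
  have h3 := al_sum hP h0 ℓ hℓ h2
  obtain ⟨i, hi, h4⟩ := al_mul hP H ℓ hℓ h2 hx hx0
  have h5 := (card_Av hP h0 ℓ hℓ hx hx0).trans (h x hx hx0)
  have h6 := al_dvd hP h0 ℓ hℓ h2 hx hx0
  rw [Finset.sum_congr rfl (g := fun _ => al H ℓ x) fun y hy => by
    have hy : y ∈ P.sing0 ℓ := by simpa using hy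
    exact Nat.eq_of_mul_eq_mul_right (by omega)
      (((card_Av hP h0 ℓ hℓ hy.1 hy.2.1).trans (h y hy.1 hy.2.1)).trans h5.symm),
    Finset.sum_const, smul_eq_mul, ← Set.ncard_eq_toFinset_card, bl_ncard_sing0 ℓ hℓ h2, h4] at h3
  generalize al H ℓ x = a at *
  have h7 : (q ^ 2 + 1) * a + (q + 1) = a * i * (q + 1) + (q ^ 2 + 1) :=
    Nat.eq_of_mul_eq_mul_right (show 0 < q ^ 2 - 1 by omega) (by linarith)
  have h8 : 2 ≤ a := by
    by_contra h9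
    have := Nat.mul_le_mul_right (q ^ 2) (show a ≤ 1 by omega)
    omega
  obtain ⟨r, rfl⟩ : ∃ r, q = r + 1 := ⟨q - 1, by omega⟩
  have h9 : a ∣ (r + 1) * r := by
    have : ((r + 1) ^ 2 + 1) * a = a * (i * (r + 1 + 1)) + (r + 1) * r := by linarith
    exact (Nat.dvd_add_right (Dvd.intro _ rfl)).1 (this ▸ Dvd.intro_left _ rfl)
  have h10 : Nat.Coprime a r := Nat.Coprime.coprime_dvd_left h6 (by simp)
  obtain ⟨a', ha'⟩ := h10.dvd_of_dvd_mul_right h9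
  refine bl_ar_const h8 ha'.symm hi hq (Nat.eq_of_mul_eq_mul_left (show 0 < a by omega) ?_)
  zify at *
  linear_combination h7 + r * ha'

theorem bl_big (hP : P.ND) (h0 : NoTv H) (ℓ : Submodule F V) (hℓ : P.TotSing ℓ)
    (h2 : finrank F ℓ = 2) (h : ∀ x ∈ ℓ, x ≠ 0 → q ^ 3 < (Av H x ∩ ℓ).ncard) : False := by
  have hq := two_le_q hF
  obtain ⟨p, k, hp, -, hk⟩ := exists_char_pow hF
  have key : ∀ x ∈ ℓ, x ≠ 0 → p * q ∣ al H ℓ x := fun x hx hx0 => by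
    have h1 := al_dvd hP h0 ℓ hℓ h2 hx hx0
    have h3 := h x hx hx0
    rw [← card_Av hP h0 ℓ hℓ hx hx0, pow_succ'] at h3
    replace h3 := lt_of_mul_lt_mul_right h3 (Nat.zero_le _)
    generalize al H ℓ x = a at *
    rw [hk, ← pow_mul] at h1
    obtain ⟨j, -, hj⟩ := (Nat.dvd_prime_pow hp).1 h1
    rw [hj, hk] at h3
    rw [hj, hk, ← pow_succ']
    exact pow_dvd_pow _ ((Nat.pow_lt_pow_iff_right hp.one_lt).1 h3)
  obtain ⟨x, hx, hx0⟩ := bl_exists_notMem h2 (0 : V)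
  replace hx0 := ne_zero_of_notMem hx0
  have h3 := al_sum hP h0 ℓ hℓ h2
  obtain ⟨i, -, h4⟩ := al_mul hP H ℓ hℓ h2 hx hx0
  obtain ⟨s, hs⟩ : p * q ∣ ∑ x ∈ (Set.toFinite (P.sing0 ℓ)).toFinset, al H ℓ x :=
    Finset.dvd_sum fun y hy => by
      have hy : y ∈ P.sing0 ℓ := by simpa using hy
      exact key y hy.1 hy.2.1
  obtain ⟨t, ht⟩ := key x hx hx0
  rw [hs, h4, ht, bl_ncard_sing0 ℓ hℓ h2] at h3
  obtain ⟨m, hm⟩ : p ∣ q := hk ▸ dvd_pow_self p (by rintro rfl; rw [pow_zero] at hk; omega)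
  have hq2 : 1 ≤ q ^ 2 := Nat.one_le_pow _ _ (by omega)
  have h5 : (p : ℤ) * (s - t * i * ((q + 1) * (q ^ 2 - 1)) - m * (q ^ 2 - q - 1)) = 1 := by
    refine mul_left_cancel₀ (show (q : ℤ) ≠ 0 by omega) ?_
    zify [hq2] at h3 hm
    linear_combination h3 + q * (q ^ 2 - q - 1) * hm
  have h6 : (p : ℤ) ∣ 1 := ⟨_, h5.symm⟩
  exact hp.one_lt.ne' (by exact_mod_cast Int.eq_one_of_dvd_one (by positivity) h6)

theorem bl_hit (hP : P.ND) (h0 : NoTv H) (ℓ : Submodule F V) (hℓ : P.TotSing ℓ)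
    (h2 : finrank F ℓ = 2) {u : V} (hu : u ∈ ℓ) (hu0 : u ≠ 0) (h : q ^ 3 < (Av H u ∩ ℓ).ncard) :
    ∀ x ∈ ℓ, x ≠ 0 → ∃ a ∈ Av H x ∩ ℓ, a ∉ F ∙ x := fun x hx hx0 => by
  have hq := two_le_q hF
  rw [← card_Av hP h0 ℓ hℓ hu hu0, pow_succ'] at h
  replace h := lt_of_mul_lt_mul_right h (Nat.zero_le _)
  obtain ⟨i, hi, h3⟩ := al_mul hP H ℓ hℓ h2 hu hu0
  obtain ⟨j, hj, h4⟩ := al_mul hP H ℓ hℓ h2 hx hx0
  by_contra hc
  push Not at hc
  have h5 := Set.ncard_le_ncard (show Av H x ∩ ℓ ⊆ (F ∙ x : Submodule F V) from hc)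
  rw [← card_Av hP h0 ℓ hℓ hx hx0, ← Nat.card_coe_set_eq, SetLike.coe_sort_coe,
    card_span_singleton hx0, u_card hF] at h5
  have h6 : al H ℓ x ≤ 1 := Nat.le_of_mul_le_mul_right (by simpa using h5)
    (show 0 < q ^ 2 by positivity)
  have h7 := Nat.le_of_dvd (by omega) hj
  have h8 := Nat.pos_of_dvd_of_pos hi (by omega)
  nlinarith

end Cfsg.Agent.UR
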