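import Cfsg.Agent.UR.KL
import Cfsg.Agent.Polar.OGeo

/-! The possible shapes of `Av H u`. -/

set_option autoImplicit false

namespace Cfsg.Agent.UR

open Module MulAction Cfsg.Agent.Forms Cfsg.Agent.Polar Cfsg.Agent.Polar.PQ

variable {F : Type*} [Field F] [Fintype F] {q : ℕ} {hF : Fintype.card F = q ^ 2}
variable {V : Type*} [AddCommGroup V] [Module F V] {P : PQ (uFP hF) V} {H : Subgroup P.Iso}

theorem cl_iso [FiniteDimensional F V] (hP : P.ND) (h2 : 2 ≤ finrank F V) (φ : V →ₗ[F] F) {y : V}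
    (hy : φ y ≠ 0) : ∃ w, P.Sing w ∧ φ w ≠ 0 := by
  obtain ⟨e, he0, he⟩ := u_exists_sing P h2
  obtain ⟨f, h⟩ := hP.exists_hyp he he0
  by_contra hn
  push Not at hn
  exact hy (h.mem_of_sing (S := (LinearMap.ker φ).toAddSubgroup) (W := ⊤) trivial trivial
    (fun x _ hx => hn x hx) trivial)

theorem cl_frame [FiniteDimensional F V] (hP : P.ND) (h3 : 3 ≤ finrank F V) (φ : V →ₗ[F] F) {y : V}
    (hy : φ y ≠ 0) : ∃ w w' z, P.Hyp w w' ∧ φ w ≠ 0 ∧ φ w' ≠ 0 ∧ P.B z w = 0 ∧ P.B z w' = 0 ∧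
      P.B z z ≠ 0 := by
  obtain ⟨w, hw, h0⟩ := cl_iso hP (by omega) φ hy
  obtain ⟨w', h, h0'⟩ : ∃ w', P.Hyp w w' ∧ φ w' ≠ 0 := by
    obtain ⟨w', h⟩ := hP.exists_hyp hw (by rintro rfl; simp at h0)
    by_cases h1 : φ w' = 0
    · obtain ⟨c, hc, c0⟩ := u_exists_lam hF
      refine ⟨w' + c • w, ⟨hw, u_sing_iff.2 ?_, by simp [h.pair, hw.B_self]⟩, by simp [h1, c0, h0]⟩
      simp [h.pair, h.right.B_self, hw.B_self, u_swap w w', u_lam_tau hc]
    · exact ⟨w', h, h1⟩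
  have h1 := h.finrank_perp
  have : Nontrivial (P.perp {w, w'}) := Module.nontrivial_of_finrank_pos (R := F) (by omega)
  obtain ⟨θ, hθ⟩ := exists_trace_one hF
  obtain ⟨z, hz⟩ := u_exists_QEq (h.emb.nd hP) θ
  refine ⟨w, w', z, h, h0, h0', (mem_perp_pair.1 z.2).1, (mem_perp_pair.1 z.2).2, ?_⟩
  rw [← res_B, ← u_QEq_iff.1 hz, hθ]
  exact one_ne_zero

theorem cl_three (hq : 3 ≤ q) {γ : F} (hγ : frobq hF γ = γ) (h0 : γ ≠ 0) (x₀ : F) :
    ∃ x, x + frobq hF x = γ ∧ frobq hF x ≠ x ∧ x ≠ x₀ := by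
  obtain ⟨θ, hθ⟩ := exists_trace_one hF
  obtain ⟨c, hc, c0⟩ := u_exists_lam hF
  obtain ⟨t, ht, t0, t1⟩ := exists_fixed_ne hF (show q ≠ 2 by omega)
  have key : ∀ s, frobq hF s = s → γ * θ + s * c + frobq hF (γ * θ + s * c) = γ := fun s hs => by
    rw [map_add, map_mul, map_mul, hγ, hs, u_lam_tau hc]; linear_combination γ * hθ
  have two : ∀ s s', frobq hF s = s → frobq hF s' = s' → frobq hF (γ * θ + s * c) = γ * θ + s * c →
      frobq hF (γ * θ + s' * c) = γ * θ + s' * c → s = s' := fun s s' hs hs' h1 h2 => by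
    have e1 := key s hs
    have e2 := key s' hs'
    rw [h1] at e1; rw [h2] at e2
    have h2 : (2 : F) ≠ 0 := fun h => h0 (by linear_combination -e1 + (γ * θ + s * c) * h)
    exact mul_right_cancel₀ (mul_ne_zero h2 c0) (by linear_combination e1 - e2)
  by_contra hn
  push Not at hn
  have h := fun s hs => (em _).imp_right (hn _ (key s hs))
  have inj : ∀ s s', γ * θ + s * c = x₀ → γ * θ + s' * c = x₀ → s = s' := fun s s' h1 h2 =>
    mul_right_cancel₀ c0 (by linear_combination h1 - h2)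
  rcases h 0 (map_zero _) with a | a <;> rcases h 1 (map_one _) with b | b <;> rcases h t ht with d | d
  exacts [t0 (two _ _ ht (map_zero _) d a), zero_ne_one (two _ _ (map_zero _) (map_one _) a b),
    t0 (two _ _ ht (map_zero _) d a), t1 (inj _ _ d b), t1 (two _ _ ht (map_one _) d b),
    t0 (inj _ _ d a), zero_ne_one (inj _ _ a b), t0 (inj _ _ d a)]

theorem cl_nonhit [FiniteDimensional F V] (hq : 3 ≤ q) {u : V} (h0 : u ≠ 0) (hS : ¬ InS H u)
    {U : Submodule F V} (hU : (P.res U).ND) (h3 : 3 ≤ finrank F U) {b y : V} (hy : y ∈ U)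
    (hb : P.B y b ≠ 0) : ∃ w ∈ U, P.Sing w ∧ P.B w b ≠ 0 ∧ ¬ Hit H u w := by
  obtain ⟨⟨w, hw⟩, ⟨w', hw'⟩, ⟨z, hz⟩, h, h1, h2, h4, h5, h6⟩ :=
    cl_frame hU h3 ((P.B.flip b).comp U.subtype) (y := ⟨y, hy⟩) hb
  replace h : P.Hyp w w' := ⟨h.left, h.right, h.pair⟩
  simp only [LinearMap.comp_apply, Submodule.subtype_apply, LinearMap.flip_apply, res_B] at h1 h2 h4 h5 h6
  by_contra hn
  push Not at hn
  obtain ⟨s, hs, ha⟩ := hn w hw h.left h1
  obtain ⟨s', hs', ha'⟩ := hn w' hw' h.right h2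
  have hβ := Av.fixed h0 hS ha ha'
  have hβ0 : P.B (s • w) (s' • w') ≠ 0 := by simp [h.pair, hs, hs']
  have hb0 : P.B (s • w) b ≠ 0 := by simp [h1, hs]
  have e1 : P.B (s • w) (s • w) = 0 := (h.left.smul s).B_self
  have e2 : P.B (s' • w') (s' • w') = 0 := (h.right.smul s').B_self
  have e3 : P.B z (s • w) = 0 := by simp [h4]
  have e4 : P.B z (s' • w') = 0 := by simp [h5]
  have m1 := U.smul_mem s hw
  have m2 := U.smul_mem s' hw'
  generalize s • w = a at *
  generalize s' • w' = a' at *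
  have e5 : P.B a' a = P.B a a' := by rw [u_swap, hβ]
  obtain ⟨x, hx, hx1, hx2⟩ := cl_three hq (γ := -(P.B z z / P.B a a'))
    (by rw [map_neg, map_div₀, hβ, u_fix_B_self]) (by simp [h6, hβ0]) (-(P.B (a' + z) b / P.B a b))
  obtain ⟨κ, hκ, hk⟩ := hn (x • a + (a' + z)) (U.add_mem (U.smul_mem x m1) (U.add_mem m2 hz))
    (u_sing_iff.2 (by
      simp [e1, e2, e3, e4, e5, B_swap_zero e3, B_swap_zero e4]
      field_simp at hx
      linear_combination hx))
    fun h => hx2 (by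
      rw [map_add, LinearMap.add_apply, B_smul_left] at h
      field_simp
      linear_combination h)
  have f1 := Av.fixed h0 hS hk ha
  have f2 := Av.fixed h0 hS hk ha'
  simp [e1, e2, e3, e4, e5, hβ, hβ0] at f1 f2
  rw [f1] at f2
  exact hx1 (mul_right_cancel₀ hβ0 (mul_left_cancel₀ hκ f2))

theorem Av.hproj {u a : V} (f : V) (ha : a ∈ Av H u) : P.hproj u f a ∈ Av H u := by
  simpa [hproj_apply, Av.perp ha] using Av.sub ha (Av.smul_self (Av.sing ha) (P.B a f))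

theorem cl_nd {S : Set V} (hP : P.ND) (h : ∀ v, ∃ w ∈ P.perp S, v - w ∈ Submodule.span F S) :
    (P.res (P.perp S)).ND := fun y hy => Subtype.ext (hP _ fun v => by
  obtain ⟨w, hw, hv⟩ := h v
  have h1 : P.B y (v - w) = 0 := by
    refine Submodule.span_induction (p := fun x _ => P.B y x = 0) (fun x hx => y.2 x hx) (by simp)
      (fun a b _ _ ha hb => by simp [ha, hb]) (fun a x _ hx => by simp [hx]) hv
  rw [map_sub, show P.B y w = 0 from hy ⟨w, hw⟩, sub_zero] at h1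
  exact h1)

theorem cl [Finite V] {n : ℕ} (hP : P.ND) (hn : finrank F V = n) (h6 : 6 ≤ n) (hq : 3 ≤ q)
    (hT : TrC H) {u : V} (hu : P.Sing u) (h0 : u ≠ 0) (hS : ¬ InS H u) :
    CTi H u ∨ CN1 H u ∨ CN2 H u ∨ CFull H u := by
  have : FiniteDimensional F V := Module.Finite.of_finite
  obtain ⟨f, h⟩ := hP.exists_hyp hu h0
  have hfu := h.pair'
  simp only [uFP_eps] at hfu
  have e0 := hu.B_self
  have e1 := h.right.B_self
  have e2 := h.pair
  have ty : ∀ w, P.Sing w → P.B w u = 0 → ∀ b ∈ Av H u, P.B w b ≠ 0 → ¬ Hit H u w → TyI H u w :=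
    fun w h1 h2 b hb h3 h4 => ⟨hu, h0, hS, h1, h2, h4, fun h5 => h3 (B_swap_zero (h5 b hb))⟩
  by_cases hA : ∃ a ∈ Av H u, ¬ P.Sing a
  · obtain ⟨a, ha, hs⟩ : ∃ a ∈ Av H u, ¬ P.Sing a ∧ P.B a f = 0 := by
      obtain ⟨a, ha, hs⟩ := hA
      refine ⟨_, Av.hproj f ha, fun h1 => hs ?_, (mem_perp_pair.1 (h.hproj_mem a)).2⟩
      rw [Hyp.eq_of_perp (f := f) (Av.perp ha)]
      exact h1.add (hu.smul _) (by simp [(mem_perp_pair.1 (h.hproj_mem a)).1])
    refine Or.inr (Or.inl ⟨a, ha, hs.1, fun b hb => by_contra fun hb' => ?_⟩)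
    have haa : P.B a a ≠ 0 := fun h1 => hs.1 (u_sing_iff.2 h1)
    have e3 := Av.perp ha
    have e4 := hs.2
    have pr : ∀ v, v - P.B v f • u - P.B v u • f - (P.B v a / P.B a a) • a ∈ P.perp {u, f, a} := fun v => by
      simp [mem_perp₃, *, B_swap_zero e3, B_swap_zero e4]
    have hU : (P.res (P.perp {u, f, a})).ND := cl_nd hP fun v => ⟨_, pr v, by
      rw [sub_sub, sub_sub, sub_sub_cancel]
      refine add_mem ?_ (add_mem ?_ ?_) <;> exact Submodule.smul_mem _ _ (Submodule.subset_span (by simp))⟩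
    obtain ⟨⟨y, hy⟩, hy'⟩ := hU.exists_eq' (x := ⟨_, pr b⟩) (fun h1 => hb' (Submodule.mem_span_pair.2
      ⟨P.B b f, P.B b a / P.B a a, by
        have := congrArg Subtype.val h1
        simp only [Av.perp hb, zero_smul, sub_zero, Submodule.coe_zero] at this
        rw [sub_sub, sub_eq_zero] at this
        exact this.symm⟩)) 1
    have hy1 := mem_perp₃.1 hy
    obtain ⟨w, hw, h1, h2, h3⟩ := cl_nonhit hq h0 hS hU (by have := finrank_perp₃ (P := P) u f a; omega)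
      (b := b) hy (by simp [hy1] at hy'; simp [hy'])
    have hw1 := mem_perp₃.1 hw
    exact haa (kl1 hP hT (ty w h1 hw1.1 b hb h2 h3) ha ha (B_swap_zero hw1.2.2) (B_swap_zero hw1.2.2))
  push Not at hA
  by_cases hB : CTi H u
  · exact Or.inl hB
  obtain ⟨a, ha, b, hb, hβ, e4, e6⟩ : ∃ a ∈ Av H u, ∃ b ∈ Av H u, P.B a b ≠ 0 ∧ P.B a f = 0 ∧ P.B b f = 0 := by
    simp only [CTi, not_forall] at hB
    obtain ⟨a, ha, b, hb, h1⟩ := hB
    refine ⟨_, Av.hproj f ha, _, Av.hproj f hb, ?_, (mem_perp_pair.1 (h.hproj_mem a)).2,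
      (mem_perp_pair.1 (h.hproj_mem b)).2⟩
    simpa [hproj_apply, Av.perp ha, Av.perp hb, B_swap_zero (Av.perp hb), e0] using h1
  have e3 := Av.perp ha
  have e5 := Av.perp hb
  have e7 := (hA a ha).B_self
  have e8 := (hA b hb).B_self
  have e9 : P.B b a = P.B a b := by rw [u_swap, Av.fixed h0 hS ha hb]
  have h2 : (2 : F) = 0 := by
    have := (hA _ (Av.add ha hb)).B_self
    simp [e7, e8, e9] at this
    exact (mul_eq_zero.1 (show 2 * P.B a b = 0 by linear_combination this)).resolve_right hβ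
  by_cases hC : Av H u ⊆ Submodule.span F {u, a, b}
  · exact Or.inr (Or.inr (Or.inl ⟨a, ha, b, hb, hA a ha, hA b hb, hβ, hC⟩))
  obtain ⟨c, hc, hc'⟩ := Set.not_subset.1 hC
  have pr : ∀ v, v - P.B v f • u - P.B v u • f - (P.B v b / P.B a b) • a - (P.B v a / P.B a b) • b ∈
      P.perp {u, f, a, b} := fun v => by
    simp [mem_perp₄, *, B_swap_zero e3, B_swap_zero e4, B_swap_zero e5, B_swap_zero e6]
  have hU : (P.res (P.perp {u, f, a, b})).ND := cl_nd hP fun v => ⟨_, pr v, by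
    rw [sub_sub, sub_sub, sub_sub, sub_sub_cancel]
    refine add_mem ?_ (add_mem ?_ (add_mem ?_ ?_)) <;>
      exact Submodule.smul_mem _ _ (Submodule.subset_span (by simp))⟩
  obtain ⟨⟨y, hy⟩, hy'⟩ := hU.exists_eq' (x := ⟨_, pr c⟩) (fun h1 => hc' (by
      have := congrArg Subtype.val h1
      simp only [Av.perp hc, zero_smul, sub_zero, Submodule.coe_zero] at this
      rw [sub_sub, sub_sub, sub_eq_zero] at this
      rw [this]
      refine add_mem ?_ (add_mem ?_ ?_) <;>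
        exact Submodule.smul_mem _ _ (Submodule.subset_span (by simp)))) 1
  have hy1 := mem_perp₄.1 hy
  have hy2 : P.B y c ≠ 0 := by simp [hy1] at hy'; simp [hy']
  have hit : ∀ w ∈ P.perp {u, f, a, b}, P.Sing w → P.B w c ≠ 0 → Hit H u w := fun w hw h1 h3 =>
    by_contra fun h4 => by
      have hw1 := mem_perp₄.1 hw
      exact hβ (kl1 hP hT (ty w h1 hw1.1 c hc h3 h4) ha hb (B_swap_zero hw1.2.2.1) (B_swap_zero hw1.2.2.2))
  have h4 := finrank_perp₄ (P := P) u f a b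
  have h3 : ¬ 3 ≤ finrank F (P.perp {u, f, a, b}) := fun h3 => by
    obtain ⟨w, hw, h1, h2, h3⟩ := cl_nonhit hq h0 hS hU h3 hy hy2
    exact h3 (hit w hw h1 h2)
  refine Or.inr (Or.inr (Or.inr ⟨by omega, h2, hA, fun w hw hp => ?_⟩))
  obtain ⟨d, hd, hd'⟩ := cl_iso hU (by omega) ((P.B.flip c).comp (Submodule.subtype _)) (y := ⟨y, hy⟩) hy2
  obtain ⟨s, hs, hsd⟩ := hit d d.2 hd hd'
  obtain ⟨d', h'⟩ := hU.exists_hyp hd (by rintro rfl; simp at hd')
  have h5 := h'.finrank_perp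
  have hw' := pr w
  simp only [hw, B_swap_zero (hp a ha), B_swap_zero (hp b hb), zero_div, zero_smul, sub_zero] at hw'
  have h7 : P.B (w - P.B w f • u) d = 0 := by
    have := B_swap_zero (hp _ hsd)
    simp [hs] at this
    simp [this, B_swap_zero (mem_perp₄.1 d.2).1]
  have h8 := hyp_decomp (P := P.res _) d d' ⟨_, hw'⟩
  have h11 := h'.hproj_mem ⟨_, hw'⟩
  rw [Submodule.finrank_eq_zero.1 (show finrank F ((P.res _).perp {d, d'}) = 0 by omega),
    Submodule.mem_bot] at h11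
  rw [h11, res_B, res_B, h7] at h8
  have h9 := congrArg Subtype.val h8
  simp only [mul_zero, zero_smul, add_zero, Submodule.coe_smul] at h9
  generalize P.B (w - P.B w f • u) d' = r at h9
  have h10 := congrArg (fun x => P.B x c) h9
  simp only [map_sub, LinearMap.sub_apply, B_smul_left, B_swap_zero (hp c hc), B_swap_zero (Av.perp hc),
    mul_zero, sub_zero] at h10
  rw [(mul_eq_zero.1 h10.symm).resolve_right hd', zero_smul, sub_eq_zero] at h9
  exact Submodule.mem_span_singleton.2 ⟨_, h9.symm⟩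

end Cfsg.Agent.UR
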