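import Cfsg.Agent.UR.Base

/-! Flags of type one. -/

set_option autoImplicit false

namespace Cfsg.Agent.UR

open Module MulAction Cfsg.Agent.Forms Cfsg.Agent.Polar Cfsg.Agent.Polar.PQ

variable {F : Type*} [Field F] [Fintype F] {q : ℕ} {hF : Fintype.card F = q ^ 2}
variable {V : Type*} [AddCommGroup V] [Module F V] {P : PQ (uFP hF) V} {H : Subgroup P.Iso}

theorem kl_move {x u a b : V} {c : F} (hc : P.EOk x b c) (hH : P.eich x b c ∈ H)
    (hx : P.B x u = 0) (hb : P.B b u = 0) (ha : a ∈ Av H u) :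
    P.B a x • b - (P.B a b + c * P.B a x) • x ∈ Av H u := by
  have := Av.sub (Av.fix ha hH (hc.eich_smul_of_perp₂ (B_swap_zero hx) (B_swap_zero hb))) ha
  rw [u_eich_smul hc] at this
  convert this using 1
  abel

theorem Cj.ncard_Av [Finite V] {u w : V} (h : Cj H u w) : (Av H u).ncard ≤ (Av H w).ncard := by
  obtain ⟨g, hg, t, ht, e⟩ := h
  refine Set.ncard_le_ncard_of_injOn (fun a => frobq hF t • g • a)
    (fun a ha => (Av.smul_left ht).1 (e ▸ Av.act ha hg)) fun a _ b _ hab => ?_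
  exact MulAction.injective g (smul_right_injective V ((map_ne_zero _).2 ht) hab)

theorem TyI.exists_ne {u w : V} (h : TyI H u w) : ∃ a ∈ Av H u, P.B a w ≠ 0 := by
  simpa [Prp] using h.nPrp

theorem TyI.eq_zero {u w : V} (h : TyI H u w) {s : F} (hs : s • w ∈ Av H u) : s = 0 :=
  by_contra fun h0 => h.nHit ⟨s, h0, hs⟩

theorem TyI.right {u w : V} (h : TyI H u w) (s : F) {t : F} (ht : t ≠ 0) :
    TyI H u (s • u + t • w) where
  su := h.su
  u0 := h.u0
  nS := h.nS
  sw := (h.su.smul s).add (h.sw.smul t) (by simp [B_swap_zero h.perp])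
  perp := by simp [h.perp, h.su.B_self]
  nHit := by
    rintro ⟨a, ha, h1⟩
    have := Av.sub h1 (Av.smul_self h.su (a * s))
    rw [smul_add, smul_smul, smul_smul, add_sub_cancel_left] at this
    exact mul_ne_zero ha ht (h.eq_zero this)
  nPrp := fun h1 => h.nPrp fun a ha => by simpa [Av.perp ha, ht] using h1 a ha

theorem TyI.left {u w : V} (h : TyI H u w) {t : F} (ht : t ≠ 0) : TyI H (t • u) w where
  su := h.su.smul t
  u0 := smul_ne_zero ht h.u0
  nS := fun h1 => h.nS (by simpa [smul_smul, ht] using h1.smul (inv_ne_zero ht))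
  sw := h.sw
  perp := by simp [h.perp]
  nHit := by
    rintro ⟨a, ha, h1⟩
    rw [Av.smul_left ht, smul_smul] at h1
    exact mul_ne_zero ((map_ne_zero _).2 ht) ha (h.eq_zero h1)
  nPrp := fun h1 => h.nPrp fun a ha => by
    have := h1 ((frobq hF t)⁻¹ • a) ((Av.smul_left ht).2 (by simpa [smul_smul, ht] using ha))
    simpa [ht] using this

theorem TyI.symm [Finite V] (hT : TrC H) {u w : V} (h : TyI H u w) : TyI H w u := by
  obtain ⟨a, ha, hβ⟩ := h.exists_ne
  have hw0 : w ≠ 0 := by rintro rfl; simp at hβ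
  have hS : ¬ InS H w := by
    rintro ⟨h1, -, c, hc, c0, hH⟩
    have := Av.neg (kl_move (EOk.lam h1 hc) hH h.perp (by simp) ha)
    simp only [smul_zero, map_zero, zero_add, zero_sub, neg_neg] at this
    exact mul_ne_zero c0 hβ (h.eq_zero this)
  have hN : ∀ s : F, s • u ∈ Av H w → s = 0 := by
    rintro s ⟨c, hc, hH⟩
    have := Av.sub (Av.smul_self h.su (P.B a w * s))
      (kl_move hc hH h.perp (by simp [h.su.B_self]) ha)
    rw [smul_smul, sub_sub_cancel, B_smul_right, Av.perp ha, mul_zero, zero_add] at this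
    obtain rfl := (mul_eq_zero.1 (h.eq_zero this)).resolve_right hβ
    rw [eich_swap h.sw h.su (B_swap_zero h.perp)] at hH
    simpa using h.eq_zero ⟨0, ⟨h.su, by simp [h.perp], h.sw.smul _⟩, hH⟩
  refine ⟨h.sw, hw0, hS, h.su, B_swap_zero h.perp, fun ⟨s, hs, h1⟩ => hs (hN s h1), fun hp => ?_⟩
  have h1 : ∀ b ∈ Av H w, ∃ s : F, P.B a w • b - s • w ∈ Av H u := fun b hb =>
    ⟨_, kl_move hb.choose_spec.1 hb.choose_spec.2 h.perp (hp b hb) ha⟩
  choose! s hs using h1
  have h2 : (Av H w).ncard ≤ (Av H u \ {a}).ncard := by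
    refine Set.ncard_le_ncard_of_injOn (fun b => P.B a w • b - s b • w + s b • u)
      (fun b hb => ⟨Av.add (hs b hb) (Av.smul_self h.su _), fun e => hβ ?_⟩) fun b hb b' hb' e => ?_
    · rw [← Set.mem_singleton_iff.1 e]
      simp [Av.perp hb, h.sw.B_self, B_swap_zero h.perp]
    · simp only at e
      have e1 : ((s b' - s b) / P.B a w) • u = b - b' - ((s b - s b') / P.B a w) • w := by
        refine smul_right_injective V hβ ?_
        simp only [smul_sub, smul_smul, mul_div_cancel₀ _ hβ]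
        linear_combination (norm := module) -e
      have e2 := hN _ (e1 ▸ Av.sub (Av.sub hb hb') (Av.smul_self h.sw _))
      rw [div_eq_zero_iff, or_iff_left hβ, sub_eq_zero] at e2
      simp only [e2, add_left_inj, sub_left_inj] at e
      exact smul_right_injective V hβ e
  have h3 := (hT u w h.su h.u0 h.sw hw0 h.nS hS).ncard_Av
  have h4 := Set.ncard_sdiff_singleton_lt_of_mem ha (Set.toFinite _)
  omega

theorem kl0 [Finite V] (_hP : P.ND) (hT : TrC H) {u w : V} (h : TyI H u w) {y z : V}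
    (hy : y ∈ Submodule.span F {u, w}) (hy0 : y ≠ 0) (hz : z ∈ Submodule.span F {u, w})
    (hz0 : z ∉ F ∙ y) : TyI H y z := by
  obtain ⟨s, t, rfl⟩ := Submodule.mem_span_pair.1 hy
  obtain ⟨s', t', rfl⟩ := Submodule.mem_span_pair.1 hz
  by_cases ht : t = 0
  · subst ht
    rw [zero_smul, add_zero] at hy0 hz0 ⊢
    have hs : s ≠ 0 := left_ne_zero_of_smul hy0
    refine (h.right s' ?_).left hs
    rintro rfl
    exact hz0 (Submodule.mem_span_singleton.2 ⟨s' / s, by simp [smul_smul, hs]⟩)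
  · have e : s' • u + t' • w = (t' / t) • (s • u + t • w) + (s' - t' / t * s) • u := by
      rw [smul_add, smul_smul, smul_smul, div_mul_cancel₀ _ ht]; module
    rw [e] at hz0 ⊢
    refine ((h.right s ht).symm hT).right _ fun h0 => hz0 ?_
    rw [h0, zero_smul, add_zero]
    exact Submodule.smul_mem _ _ (Submodule.mem_span_singleton_self _)

theorem kl2 [Finite V] (_hP : P.ND) (hT : TrC H) {u w d : V} (h : TyI H u w) (hd : d ∈ Av H u)
    (hdw : P.B d w = 0) (κ : F) : ∃ ν : F, κ • d + ν • w ∈ Av H u := by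
  have huw := B_swap_zero h.perp
  let C : V → V → Prop := fun x d => P.B d u = 0 ∧ P.B d w = 0 ∧ ∃ s t : F, d + (s • u + t • w) ∈ Av H x
  have hI : ∀ (s t s' t' : F) (a d : V), a ∈ Av H (s' • u + t' • w) → C (s • u + t • w) d →
      C (s' • u + t' • w) (P.B a (s • u + t • w) • d) := by
    rintro s t s' t' a d ha ⟨h1, h2, s1, t1, c, hc, hH⟩
    refine ⟨by simp [h1], by simp [h2], ?_⟩
    have := kl_move hc hH (by simp [huw, h.perp, h.su.B_self, h.sw.B_self])
      (by simp [huw, h.perp, h.su.B_self, h.sw.B_self, h1, h2]) ha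
    generalize P.B a (d + (s1 • u + t1 • w)) + c * P.B a (s • u + t • w) = r at this
    generalize P.B a (s • u + t • w) = β at this ⊢
    exact ⟨β * s1 - r * s, β * t1 - r * t, by convert this using 1; module⟩
  have hpow : ∀ κ : F, (∀ d, C u d → C u (κ • d)) → ∀ (n : ℕ) d, C u d → C u (κ ^ n • d) := by
    intro κ hκ n
    induction n with
    | zero => simp
    | succ n ih => exact fun d hd => by rw [pow_succ', mul_smul]; exact hκ _ (ih d hd)
  obtain ⟨a1, ha1, hβ1⟩ := h.exists_ne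
  obtain ⟨a2, ha2, hβ2⟩ := (h.symm hT).exists_ne
  have eu : (1 : F) • u + (0 : F) • w = u := by simp
  have ew : (0 : F) • u + (1 : F) • w = w := by simp
  have key : ∀ s : F, s ≠ 0 → ∀ d, C u d → C u ((frobq hF s * P.B a2 u) • d) := by
    intro s hs
    obtain ⟨a', ha', hγ⟩ := ((h.right s one_ne_zero).symm hT).exists_ne
    have i1 : ∀ d, C u d → C (s • u + (1 : F) • w) (P.B a' u • d) := fun d hd => by
      simpa only [eu] using hI 1 0 s 1 a' d ha' (by rwa [eu])
    have i2 : ∀ d, C (s • u + (1 : F) • w) d → C u (P.B a1 w • d) := fun d hd => by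
      simpa [Av.perp ha1] using hI s 1 1 0 a1 d (by rwa [eu]) hd
    have i3 : ∀ d, C (s • u + (1 : F) • w) d → C w ((frobq hF s * P.B a2 u) • d) := fun d hd => by
      simpa [Av.perp ha2] using hI s 1 0 1 a2 d (by rwa [ew]) hd
    have i4 : ∀ d, C w d → C u (P.B a1 w • d) := fun d hd => by
      simpa using hI 0 1 1 0 a1 d (by rwa [eu]) (by rwa [ew])
    intro d hd
    have := hpow (P.B a1 w * P.B a' u) (fun d hd => by rw [mul_smul]; exact i2 _ (i1 d hd))
      (Fintype.card F - 2) _ (i4 _ (i3 _ (i1 d hd)))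
    have e := FiniteField.pow_card_sub_one_eq_one _ (mul_ne_zero hβ1 hγ)
    rw [show Fintype.card F - 1 = Fintype.card F - 2 + 1 by
      have := Fintype.one_lt_card (α := F); omega, pow_succ] at e
    rwa [smul_smul, smul_smul, smul_smul, show (P.B a1 w * P.B a' u) ^ (Fintype.card F - 2) * P.B a1 w *
      (frobq hF s * P.B a2 u) * P.B a' u = frobq hF s * P.B a2 u by linear_combination (frobq hF s * P.B a2 u) * e] at this
  by_cases hκ : κ = 0
  · exact ⟨0, by simpa [hκ] using Av.smul_self (H := H) h.su 0⟩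
  obtain ⟨-, -, s, t, h1⟩ := key (frobq hF (κ / P.B a2 u)) ((map_ne_zero _).2 (div_ne_zero hκ hβ2)) d
    ⟨Av.perp hd, hdw, 0, 0, by simpa using hd⟩
  rw [frobq_frobq, div_mul_cancel₀ _ hβ2] at h1
  exact ⟨t, by convert Av.sub h1 (Av.smul_self h.su s) using 1; abel⟩

theorem kl1 [Finite V] (hP : P.ND) (hT : TrC H) {u w a b : V} (h : TyI H u w) (ha : a ∈ Av H u)
    (hb : b ∈ Av H u) (haw : P.B a w = 0) (hbw : P.B b w = 0) : P.B a b = 0 :=
  u_eq_zero_of_fix hF fun κ => by
    obtain ⟨ν, h1⟩ := kl2 hP hT h ha haw κ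
    simpa [B_swap_zero hbw] using Av.fixed h.u0 h.nS h1 hb

end Cfsg.Agent.UR
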