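import Cfsg.Agent.UR.Base

/-! Rank three actions of unitary groups: lifts of transvections of `e^⊥ / e`. -/

set_option autoImplicit false

namespace Cfsg.Agent.UR

open Module MulAction Cfsg.Agent.Forms Cfsg.Agent.Polar Cfsg.Agent.Polar.PQ

variable {F : Type*} [Field F] [Fintype F] {q : ℕ} {hF : Fintype.card F = q ^ 2}
variable {V : Type*} [AddCommGroup V] [Module F V] {P : PQ (uFP hF) V} {H : Subgroup P.Iso}
variable {e f : V}

/-- `g ∈ Lv e f` lifts to `H` with vector part `b` -/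
structure Cy (H : Subgroup P.Iso) (e f : V) (g : P.Iso) (b : V) : Prop where
  mem : g ∈ P.Lv e f
  b_mem : b ∈ P.perp {e, f}
  lift : ∃ d, P.EOk e b d ∧ P.eich e b d * g ∈ H

theorem Cy.one (he : P.Sing e) : Cy H e f 1 0 :=
  ⟨one_mem _, zero_mem _, 0, EOk.zero he, by rw [eich_zero, one_mul]; exact one_mem _⟩

theorem Cy.mul {g k : P.Iso} {b b' : V} (h1 : Cy H e f g b) (h2 : Cy H e f k b') :
    Cy H e f (g * k) (b + g • b') := by
  obtain ⟨d, hd, hH⟩ := h1.lift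
  obtain ⟨d', hd', hH'⟩ := h2.lift
  have k1 := hd'.conj_eich g
  have o1 := hd'.act g
  rw [h1.mem.1.1] at k1 o1
  refine ⟨mul_mem h1.mem h2.mem, add_mem h1.b_mem (Lv_smul_mem h1.mem h2.b_mem), _, hd.add o1, ?_⟩
  rw [← hd.eich_mul o1, ← k1]
  convert mul_mem hH hH' using 1
  group

theorem Cy.inv {g : P.Iso} {b : V} (h1 : Cy H e f g b) : Cy H e f g⁻¹ (-(g⁻¹ • b)) := by
  obtain ⟨d, hd, hH⟩ := h1.lift
  have k1 := hd.conj_eich g⁻¹
  have o1 := hd.act g⁻¹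
  rw [(inv_mem h1.mem).1.1] at k1 o1
  refine ⟨inv_mem h1.mem, neg_mem (Lv_smul_mem (inv_mem h1.mem) h1.b_mem), _, o1.neg, ?_⟩
  rw [← o1.eich_inv, ← k1]
  convert inv_mem hH using 1
  group

theorem Cy.eq_zero (h : P.Hyp e f) (hQ : NoQ H) {b : V} (h1 : Cy H e f 1 b) : b = 0 := by
  obtain ⟨d, hd, hH⟩ := h1.lift
  rw [mul_one] at hH
  have := hQ e h.left h.left_ne_zero _ hH (eich_mem_U _ _ _)
  rw [← eich_zero e] at this
  exact (h.eich_inj hd (mem_perp_pair.1 h1.b_mem).2 (EOk.zero h.left) (by simp) this).1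

theorem Cy.unique (h : P.Hyp e f) (hQ : NoQ H) {g : P.Iso} {b b' : V} (h1 : Cy H e f g b)
    (h2 : Cy H e f g b') : b = b' := by
  have := h1.mul h2.inv
  rw [mul_inv_cancel, smul_neg, smul_inv_smul] at this
  exact add_neg_eq_zero.1 (this.eq_zero h hQ)

theorem Cy.comm (h : P.Hyp e f) (hQ : NoQ H) {g k : P.Iso} {b b' : V} (h1 : Cy H e f g b)
    (h2 : Cy H e f k b') (hc : g * k = k * g) : b + g • b' = b' + k • b :=
  (h1.mul h2).unique h hQ (hc ▸ h2.mul h1)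

theorem Cy.mem_Kc (h : P.Hyp e f) {g : P.Iso} {b : V} (h1 : Cy H e f g b) : g ∈ P.Kc H e := by
  obtain ⟨d, -, hH⟩ := h1.lift
  exact h.mem_Kc.2 ⟨Lv_le_Gam e f h1.mem, _, eich_mem_U _ _ _, hH⟩

theorem cy_of_Kc (h : P.Hyp e f) {g : P.Iso} (hg : g ∈ P.Kc H e) (hL : g ∈ P.Lv e f) :
    ∃ b, Cy H e f g b := by
  obtain ⟨b, hb, d, hd⟩ := h.exists_of_mem_Kc hg
  exact ⟨b, hL, hb, d, hd⟩

/-- the transvection `T_w(c)` of `perp {e, f}` lifts to `H` with vector part `b` -/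
structure Lf (H : Subgroup P.Iso) (e f w : V) (c : F) (b : V) : Prop where
  w_mem : w ∈ P.perp {e, f}
  w0 : w ≠ 0
  sw : P.Sing w
  lam : c ∈ (uFP hF).Λ
  c0 : c ≠ 0
  b_mem : b ∈ P.perp {e, f}
  lift : ∃ d, P.EOk e b d ∧ P.eich e b d * P.eich w 0 c ∈ H

/-- the centres of the transvections with parameter `c` that lift -/
def Tc (H : Subgroup P.Iso) (e f : V) (c : F) : Set V := {w | ∃ b, Lf H e f w c b}

theorem mem_Tc {c : F} {w : V} : w ∈ Tc H e f c ↔ ∃ b, Lf H e f w c b := Iff.rfl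

theorem Tc_sub {c : F} : Tc H e f c ⊆ P.sing0 (P.perp {e, f}) :=
  fun _ ⟨_, h⟩ => ⟨h.w_mem, h.w0, h.sw⟩

theorem tv_mem_Lv {w : V} {c : F} (hw : w ∈ P.perp {e, f}) (hs : P.Sing w)
    (hc : c ∈ (uFP hF).Λ) : P.eich w 0 c ∈ P.Lv e f :=
  eich_mem_Lv hw (zero_mem _) (EOk.lam hs hc)

section
variable {w w' b b' : V} {c c' : F}

theorem Lf.cy (h : Lf H e f w c b) : Cy H e f (P.eich w 0 c) b :=
  ⟨tv_mem_Lv h.w_mem h.sw h.lam, h.b_mem, h.lift⟩

theorem Cy.lf (h : Cy H e f (P.eich w 0 c) b) (hw : w ∈ P.perp {e, f}) (h0 : w ≠ 0) (hs : P.Sing w)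
    (hc : c ∈ (uFP hF).Λ) (c0 : c ≠ 0) : Lf H e f w c b :=
  ⟨hw, h0, hs, hc, c0, h.b_mem, h.lift⟩

theorem Lf.tv (h : Lf H e f w c b) (x : V) : P.eich w 0 c • x = x - (c * P.B x w) • w :=
  tv_smul h.sw h.lam x

theorem Lf.mem_Kc (h : P.Hyp e f) (h1 : Lf H e f w c b) : P.eich w 0 c ∈ P.Kc H e :=
  h1.cy.mem_Kc h

theorem Lf.unique (h : P.Hyp e f) (hQ : NoQ H) (h1 : Lf H e f w c b) (h2 : Lf H e f w c b') :
    b = b' := h1.cy.unique h hQ h2.cy

theorem lift_aux (h : P.Hyp e f) {u : P.Iso} (hw : P.Sing w) (hwe : P.B w e = 0) (hw0 : w ∉ F ∙ e)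
    (hc : c ∈ (uFP hF).Λ) (c0 : c ≠ 0) (hu : u ∈ P.U e) (hH : P.eich w 0 c * u ∈ H) :
    (∃ b, Lf H e f (P.hproj e f w) c b) ∧
      P.eich w 0 c * u * (P.eich (P.hproj e f w) 0 c)⁻¹ ∈ P.U e := by
  have e1 := Hyp.eq_of_perp (f := f) hwe
  have hm := h.hproj_mem w
  have hs : P.Sing (P.hproj e f w) := by
    have := hw.add (h.left.smul (-P.B w f)) (by simp [hwe])
    rwa [neg_smul, ← sub_eq_add_neg, ← eq_sub_of_add_eq e1.symm] at this
  have h0 : P.hproj e f w ≠ 0 := fun h0 => hw0 (by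
    rw [e1, h0, zero_add]; exact Submodule.smul_mem _ _ (Submodule.mem_span_singleton_self e))
  obtain ⟨-, k⟩ := u_transvec_add h.left hs (mem_perp_pair.1 hm).1 (P.B w f) hc
  rw [add_comm, ← e1] at k
  have hL := tv_mem_Lv hm hs hc
  have hU : P.eich w 0 c * u * (P.eich (P.hproj e f w) 0 c)⁻¹ ∈ P.U e := by
    rw [k, mul_assoc, mul_assoc, ← mul_assoc _ u]
    exact mul_mem (eich_mem_U _ _ _) (conj_mem_U_of_pst (mem_pst_of_fix hL.1.1) hu)
  obtain ⟨b, hb⟩ := cy_of_Kc (H := H) h (h.mem_Kc.2 ⟨Lv_le_Gam e f hL, _, hU, by simpa using hH⟩) hL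
  exact ⟨⟨b, hb.lf hm h0 hs hc c0⟩, hU⟩

theorem lf_of_cen (h : P.Hyp e f) (hc : Cen H e w) : ∃ c b, Lf H e f (P.hproj e f w) c b := by
  obtain ⟨h1, h2, h3, c, h4, h5, u, hu, hH⟩ := hc
  exact ⟨c, (lift_aux h h1 h2 h3 h4 h5 hu hH).1⟩

/-- a rank two element of the pointwise stabiliser of `⟨x, y⟩^⊥` lies in some `U z` -/
theorem lift_E [FiniteDimensional F V] (hP : P.ND) (hQ : NoQ H) {x y : V} (hx : P.Sing x)
    (hy : P.Sing y) (hxy : P.B y x = 0) (x0 : x ≠ 0) (hind : y ∉ F ∙ x) {s d : F}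
    (hc : c ∈ (uFP hF).Λ) (c0 : c ≠ 0) (hd : d ∈ (uFP hF).Λ)
    (hH : P.eich x (s • y) d * P.eich y 0 c ∈ H) : False := by
  have ho : P.EOk x (s • y) d :=
    ⟨hx, by simp [hxy], (hy.smul s).of_sub_mem (by simpa using neg_mem hd)⟩
  have hc' := u_lam_tau hc
  have hd' := u_lam_tau hd
  have key : ∀ v, (P.eich x (s • y) d * P.eich y 0 c) • v = v + (s * P.B v x - c * P.B v y) • y -
      (frobq hF s * P.B v y + d * P.B v x) • x := fun v => by
    rw [mul_smul, tv_smul hy hc, u_eich_smul ho]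
    simp only [map_sub, LinearMap.sub_apply, B_smul_left, B_smul_right, hxy, hy.B_self]
    module
  obtain ⟨t, ht⟩ := exists_norm_eq hF (s * frobq hF s / (c * frobq hF c) - d / c) (by
    simp only [map_sub, map_div₀, map_mul, frobq_frobq, hc', hd', map_neg]; field_simp)
  obtain ⟨α, hα⟩ : ∃ α, α = t + frobq hF s / c := ⟨_, rfl⟩
  have h1 : α * (s + c * frobq hF α) = frobq hF s * frobq hF α - d := by
    rw [hα]
    simp only [map_add, map_div₀, frobq_frobq, hc'] at ht ⊢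
    field_simp at ht ⊢
    linear_combination ht
  have h2 := hQ (α • x + y) ((hx.smul α).add hy (by simp [B_swap_zero hxy])) (fun h0 => hind (by
    rw [eq_neg_of_add_eq_zero_right h0]
    exact neg_mem (Submodule.smul_mem _ _ (Submodule.mem_span_singleton_self x)))) _ hH
    ⟨by rw [key]; simp [hxy, B_swap_zero hxy, hx.B_self, hy.B_self], fun v hv => ⟨s * P.B v x - c * P.B v y, by
      rw [map_add, B_smul_right] at hv
      rw [key, show P.B v y = -(frobq hF α * P.B v x) by linear_combination hv]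
      match_scalars
      · ring
      · ring
      · linear_combination (-P.B v x) * h1⟩⟩
  obtain ⟨v, hv1, hv2⟩ := hP.exists_pair (linearIndependent_pair_of_ne x0 fun a ha => hind
    (Submodule.mem_span_singleton.2 ⟨a, ha.symm⟩)) 0 1
  have h3 := key v
  rw [h2, one_smul, B_swap_zero hv1, u_swap y v, hv2] at h3
  refine hind (Submodule.mem_span_singleton.2 ⟨-(frobq hF s / c), ?_⟩)
  have h4 : c • y = -(frobq hF s • x) := by
    simp only [map_one, mul_zero, mul_one, zero_sub, add_zero] at h3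
    linear_combination (norm := module) h3
  rw [← smul_right_inj c0, h4, smul_smul, ← neg_smul]
  congr 1
  field_simp

theorem Lf.not_mem [FiniteDimensional F V] (hP : P.ND) (h : P.Hyp e f) (hQ : NoQ H)
    (h1 : Lf H e f w c b) : b ∉ F ∙ w := fun hb => by
  obtain ⟨s, rfl⟩ := Submodule.mem_span_singleton.1 hb
  obtain ⟨d, hd, hH⟩ := h1.lift
  refine lift_E hP hQ h.left h1.sw (mem_perp_pair.1 h1.w_mem).1 h.left_ne_zero (fun hw => ?_) h1.lam
    h1.c0 ((sing_iff_of_QEq hd.val).1 (h1.sw.smul s)) hH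
  obtain ⟨a, rfl⟩ := Submodule.mem_span_singleton.1 hw
  have := (mem_perp_pair.1 h1.w_mem).2
  rw [B_smul_left, h.pair, mul_one] at this
  exact h1.w0 (by rw [this, zero_smul])

theorem Lf.of_smul {a : F} (h : Lf H e f (a • w) c b) : Lf H e f w (a * frobq hF a * c) b := by
  have ha : a ≠ 0 := left_ne_zero_of_smul h.w0
  have hs := Sing.of_smul ha h.sw
  exact ⟨(Submodule.smul_mem_iff _ ha).1 h.w_mem, right_ne_zero_of_smul h.w0, hs,
    (uFP hF).lam_smul _ _ h.lam, mul_ne_zero (mul_ne_zero ha ((map_ne_zero _).2 ha)) h.c0, h.b_mem,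
    transvec_smul hs h.lam a ▸ h.lift⟩

theorem Lf.smul {a : F} (ha : a ≠ 0) :
    Lf H e f (a • w) c b ↔ Lf H e f w (a * frobq hF a * c) b := by
  refine ⟨Lf.of_smul, fun h => ?_⟩
  have : Lf H e f (a⁻¹ • a • w) (a * frobq hF a * c) b := by
    rwa [smul_smul, inv_mul_cancel₀ ha, one_smul]
  have hτ : frobq hF a ≠ 0 := (map_ne_zero _).2 ha
  convert this.of_smul using 1
  rw [map_inv₀]; field_simp

theorem Lf.smul_one (h : Lf H e f w c b) {a : F} (ha : a * frobq hF a = 1) :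
    Lf H e f (a • w) c b := (Lf.smul (left_ne_zero_of_mul_eq_one ha)).2 (by rwa [ha, one_mul])

theorem Lf.rescale (h : Lf H e f w c b) (hc : c' ∈ (uFP hF).Λ) (c0 : c' ≠ 0) :
    ∃ a : F, a ≠ 0 ∧ a * frobq hF a * c' = c ∧ Lf H e f (a • w) c' b := by
  obtain ⟨a, ha⟩ := exists_norm_eq hF (c / c') (by
    rw [map_div₀, u_lam_tau hc, u_lam_tau h.lam, neg_div_neg_eq])
  have h1 : a * frobq hF a * c' = c := by rw [ha, div_mul_cancel₀ _ c0]
  have a0 : a ≠ 0 := by rintro rfl; exact h.c0 (by simpa using h1.symm)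
  exact ⟨a, a0, h1, (Lf.smul a0).2 (h1 ▸ h)⟩

theorem Lf.inv (h : Lf H e f w c b) : Lf H e f w (-c) (-(P.eich w 0 (-c) • b)) := by
  have := h.cy.inv
  rw [transvec_inv h.sw h.lam] at this
  exact this.lf h.w_mem h.w0 h.sw (neg_mem h.lam) (neg_ne_zero.2 h.c0)

theorem Lf.mul (h : Lf H e f w c b) (h' : Lf H e f w c' b') (h0 : c + c' ≠ 0) :
    Lf H e f w (c + c') (b + P.eich w 0 c • b') := by
  have := h.cy.mul h'.cy
  rw [transvec_mul h.sw h.lam h'.lam] at this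
  exact this.lf h.w_mem h.w0 h.sw (add_mem h.lam h'.lam) h0

theorem Lf.comm (h : P.Hyp e f) (hQ : NoQ H) (h1 : Lf H e f w c b) (h2 : Lf H e f w' c' b')
    (hp : P.B w w' = 0) (hn : w' ∉ F ∙ w) : P.B b w' = 0 := by
  have := h1.cy.comm h hQ h2.cy (transvec_commute h2.sw h2.lam (by
    rw [h1.tv, B_swap_zero hp]; simp))
  rw [h1.tv, h2.tv] at this
  by_contra h0
  have h3 : (c' * P.B b w') • w' = (c * P.B b' w) • w := by
    linear_combination (norm := module) this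
  refine hn ((Submodule.smul_mem_iff _ (mul_ne_zero h2.c0 h0)).1 ?_)
  rw [h3]
  exact Submodule.smul_mem _ _ (Submodule.mem_span_singleton_self w)

theorem Lf.two (h : P.Hyp e f) (hQ : NoQ H) (h1 : Lf H e f w c b) (h2 : (2 : F) = 0) :
    P.B b w = 0 ∧ P.Sing b := by
  have h3 := h1.cy.mul h1.cy
  have h4 : P.eich w 0 c * P.eich w 0 c = 1 := by
    rw [transvec_mul h1.sw h1.lam h1.lam, ← two_mul, h2, zero_mul, eich_zero]
  rw [h4] at h3
  have h5 := h3.eq_zero h hQ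
  rw [h1.tv, ← add_sub_assoc, ← two_smul F, h2, zero_smul, zero_sub, neg_eq_zero, smul_eq_zero,
    or_iff_left h1.w0, mul_eq_zero, or_iff_right h1.c0] at h5
  refine ⟨h5, ?_⟩
  obtain ⟨d, hd, hH⟩ := h1.lift
  have k1 := hd.conj_eich (P.eich w 0 c)
  rw [h1.cy.mem.1.1, h1.tv, h5, mul_zero, zero_smul, sub_zero] at k1
  have h6 : P.eich e b d * P.eich w 0 c * (P.eich e b d * P.eich w 0 c) =
      P.eich e (b + b) (d + d + P.B b b) := by
    rw [← hd.eich_mul hd]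
    nth_rw 4 [← k1]
    rw [inv_eq_of_mul_eq_one_right h4]
    group
  have h7 := hQ e h.left h.left_ne_zero _ (h6 ▸ mul_mem hH hH) (eich_mem_U _ _ _)
  rw [← eich_zero e] at h7
  have h8 := (h.eich_inj (hd.add hd) (by simp [(mem_perp_pair.1 h1.b_mem).2]) (EOk.zero h.left)
    (by simp) h7).2
  exact u_sing_iff.2 (by linear_combination h8 - d * h2)

theorem Cy.act_lf {k : P.Iso} {u : V} (hk : Cy H e f k u) (h1 : Lf H e f w c b) :
    Lf H e f (k • w) c (k • b + (c * P.B u (k • w)) • k • w) := by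
  have := (hk.mul h1.cy).mul hk.inv
  rw [conj_tv h1.sw h1.lam] at this
  convert this.lf (Lv_smul_mem hk.mem h1.w_mem) (act_ne_zero k h1.w0) (h1.sw.act k) h1.lam h1.c0
    using 1
  rw [smul_neg, mul_smul k, h1.tv, smul_sub, smul_inv_smul, act_smul, ← B_act_right]
  generalize k • b = x, k • w = y
  module

theorem Lf.act (h : P.Hyp e f) (h1 : Lf H e f w c b) {k : P.Iso} (hk : k ∈ P.Kc H e)
    (hL : k ∈ P.Lv e f) : ∃ s : F, Lf H e f (k • w) c (k • b + s • k • w) := by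
  obtain ⟨u, hu⟩ := cy_of_Kc h hk hL
  exact ⟨_, hu.act_lf h1⟩

theorem Tc.act (h : P.Hyp e f) (hw : w ∈ Tc H e f c) {k : P.Iso} (hk : k ∈ P.Kc H e)
    (hL : k ∈ P.Lv e f) : k • w ∈ Tc H e f c := by
  obtain ⟨b, hb⟩ := hw
  obtain ⟨s, hs⟩ := hb.act h hk hL
  exact ⟨_, hs⟩

end

theorem card_resT [Finite V] (h : P.Hyp e f) (hQ : NoQ H) {c : F} (hc : c ∈ (uFP hF).Λ)
    (c0 : c ≠ 0) : (ResT H e).ncard * (q + 1) ≤ (Tc H e f c).ncard := by
  have key : ∀ g : ResT H e, ∃ w ∈ Tc H e f c, g.1 * (P.eich w 0 c)⁻¹ ∈ P.U e := by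
    rintro ⟨g, hg, w, c', h1, h2, h3, h4, h5, h6⟩
    obtain ⟨⟨b, hb⟩, hU⟩ := lift_aux (H := H) h h1 h2 h3 h4 h5 h6 (by simpa using hg)
    obtain ⟨a, -, ha, hl⟩ := hb.rescale hc c0
    refine ⟨_, ⟨b, hl⟩, ?_⟩
    rw [transvec_smul hb.sw hc, ha]
    simpa using hU
  choose w hw hU using key
  rw [← u_ncard_norm_one hF, ← Nat.card_coe_set_eq, ← Nat.card_coe_set_eq, ← Nat.card_coe_set_eq,
    ← Nat.card_prod]
  refine Nat.card_le_card_of_injective (fun x => ⟨x.2.1 • w x.1, (hw x.1).imp fun b hb =>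
    hb.smul_one x.2.2⟩) ?_
  rintro ⟨g, t, ht⟩ ⟨g', t', ht'⟩ hh
  have h1 : t • w g = t' • w g' := congrArg Subtype.val hh
  have h2 : P.eich (w g) 0 c = P.eich (w g') 0 c := by
    have := congrArg (P.eich · 0 c) h1
    simp only [transvec_smul (Tc_sub (hw _)).2.2 hc] at this
    rwa [show t * frobq hF t = 1 from ht, show t' * frobq hF t' = 1 from ht', one_mul] at this
  have h3 := mul_mem (hU g) (inv_mem (hU g'))
  rw [h2, mul_inv_rev, inv_inv, mul_assoc, inv_mul_cancel_left] at h3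
  obtain rfl : g = g' := Subtype.ext (mul_inv_eq_one.1
    (hQ e h.left h.left_ne_zero _ (mul_mem g.2.1 (inv_mem g'.2.1)) h3))
  obtain rfl : t = t' := smul_left_injective F (Tc_sub (hw g)).2.1 h1
  rfl

theorem ncard_sing0_perp [Finite V] (hP : P.ND) {n : ℕ} (hn : finrank F V = n) (h3 : 3 ≤ n)
    (h : P.Hyp e f) : (P.sing0 (P.perp {e, f})).ncard = Iq q (n - 2) := by
  have : FiniteDimensional F V := Module.Finite.of_finite
  have h1 := h.finrank_perp
  have h2 := ncard_sing0_res (P := P) (P.perp {e, f})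
  rw [← ncard_sing0_add_one, ncard_sing0 (h.emb.nd hP) (n := n - 2) (by omega) (by omega)] at h2
  omega

theorem exists_sing_perp [FiniteDimensional F V] (h : P.Hyp e f) (h4 : 4 ≤ finrank F V) :
    ∃ z ∈ P.perp {e, f}, z ≠ 0 ∧ P.Sing z := by
  have h1 := h.finrank_perp
  obtain ⟨z, hz0, hz⟩ := u_exists_sing (P.res (P.perp {e, f})) (by omega)
  exact ⟨z, z.2, fun h0 => hz0 (Subtype.ext h0), hz⟩

theorem cnt_perp' [Finite V] (hP : P.ND) {n : ℕ} (hn : finrank F V = n) (h4 : 4 ≤ n)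
    (h : P.Hyp e f) {β : V} (hβ : β ∈ P.perp {e, f}) (h0 : β ≠ 0) {T : Set V}
    (hT : ∀ x ∈ T, x ∈ P.sing0 (P.perp {e, f}) ∧ P.B x β = 0) : q * T.ncard < Iq q (n - 2) := by
  classical
  have : FiniteDimensional F V := Module.Finite.of_finite
  obtain ⟨z, hz, hs, hzβ⟩ := h.exists_sing_perp_ne hP (exists_sing_perp h (by omega)) hβ h0
  have hzβ' := B_swap_ne hzβ
  have z0 : z ≠ 0 := by rintro rfl; simp at hzβ
  let m : V → F := fun x => if P.B x z = 0 then 1 else P.B x z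
  have hm : ∀ x, m x ≠ 0 := fun x => by
    by_cases hx : P.B x z = 0 <;> simp [m, hx]
  rw [← ncard_sing0_perp hP hn (by omega) h, ← Set.ncard_sdiff_singleton_add_one
    (show z ∈ P.sing0 (P.perp {e, f}) from ⟨hz, z0, hs⟩), Nat.lt_succ_iff, ← Nat.card_coe_set_eq,
    ← Nat.card_coe_set_eq]
  conv_lhs => rw [← card_lam hF, ← Nat.card_prod]
  have hB : ∀ x ∈ T, ∀ a : F, P.B (x + a • z) β = a * P.B z β := fun x hx a => by
    simp [(hT x hx).2]
  refine Nat.card_le_card_of_injective (fun x => ⟨x.2.1 + (x.1.1 * m x.2.1) • z,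
    ⟨add_mem (hT _ x.2.2).1.1 (Submodule.smul_mem _ _ hz), fun h1 => ?_, ?_⟩, fun h1 => ?_⟩) ?_
  · have := hB _ x.2.2 (x.1.1 * m x.2.1)
    rw [h1, map_zero, LinearMap.zero_apply, eq_comm, mul_eq_zero, or_iff_left hzβ'] at this
    rw [this, zero_smul, add_zero] at h1
    exact (hT _ x.2.2).1.2.1 h1
  · refine (sing_iff_of_QEq (QEq.add_sing (hT _ x.2.2).1.2.2 hs _)).2 ?_
    by_cases hx : P.B x.2.1 z = 0
    · simp [hx]
    · have := (uFP hF).lam_smul (P.B x.2.1 z) _ (neg_mem x.1.2)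
      convert this using 1
      simp only [m, hx, if_false, map_mul, u_lam_tau x.1.2]
      ring
  · have := hB _ x.2.2 (x.1.1 * m x.2.1)
    rw [Set.mem_singleton_iff.1 h1] at this
    rw [Set.mem_singleton_iff, mul_right_cancel₀ hzβ' (this.symm.trans (one_mul _).symm), one_smul,
      add_eq_right] at h1
    exact (hT _ x.2.2).1.2.1 h1
  · rintro ⟨⟨a, ha⟩, ⟨x, hx⟩⟩ ⟨⟨a', ha'⟩, ⟨x', hx'⟩⟩ hh
    have h1 : x + (a * m x) • z = x' + (a' * m x') • z := congrArg Subtype.val hh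
    have h2 := hB x hx (a * m x)
    rw [h1, hB x' hx'] at h2
    have h3 := mul_right_cancel₀ hzβ' h2
    rw [h3, add_left_inj] at h1
    subst h1
    obtain rfl := mul_right_cancel₀ (hm x) h3
    rfl

theorem cnt_perp [Finite V] (hP : P.ND) {n : ℕ} (hn : finrank F V = n) (h4 : 4 ≤ n)
    (h : P.Hyp e f) {β : V} (hβ : β ∈ P.perp {e, f}) (h0 : β ≠ 0) :
    q * (P.sing0 (P.perp {e, f} ⊓ P.perp {β} : Submodule F V)).ncard < Iq q (n - 2) :=
  cnt_perp' hP hn h4 h hβ h0 fun _ hx => ⟨⟨hx.1.1, hx.2⟩, mem_perp_singleton.1 hx.1.2⟩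

/-- `ResT` is transported by `H`. -/
theorem ncard_resT_eq (hT : PtTr H) {u v : V} (hu : P.Sing u) (u0 : u ≠ 0) (hv : P.Sing v)
    (v0 : v ≠ 0) [Finite V] : (ResT H u).ncard = (ResT H v).ncard := by
  have key : ∀ u v : V, Cj H u v → (ResT H u).ncard ≤ (ResT H v).ncard := by
    rintro u v ⟨g, hg, a, ha, hgu⟩
    refine Set.ncard_le_ncard_of_injOn (fun k => g * k * g⁻¹) ?_ (fun k _ k' _ hk => by
      simpa using hk)
    rintro k ⟨hk, w, c, h1, h2, h3, h4, h5, h6⟩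
    refine ⟨mul_mem (mul_mem hg hk) (inv_mem hg), g • w, c, h1.act g, ?_, fun h7 => h3 ?_, h4, h5, ?_⟩
    · have := B_smul_smul g w u
      rw [hgu, B_smul_right, h2] at this
      exact (mul_eq_zero.1 this).resolve_left ((map_ne_zero _).2 ha)
    · obtain ⟨t, ht⟩ := Submodule.mem_span_singleton.1 h7
      refine Submodule.mem_span_singleton.2 ⟨t / a, MulAction.injective g ?_⟩
      simp only [act_smul, hgu, smul_smul, div_mul_cancel₀ _ ha, ht]
    · have := conj_mem_U (g := g) h6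
      rw [hgu, U_smul ha] at this
      rw [← conj_tv h1 h4]
      convert this using 1
      group
  exact le_antisymm (key u v (hT u v hu u0 hv v0)) (key v u (hT v u hv v0 hu u0))

end Cfsg.Agent.UR
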