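import Cfsg.Agent.UR.Base

/-! Rank three actions of unitary groups: the point transitive case, tools and the totally isotropic types. -/

set_option autoImplicit false
set_option linter.unusedSectionVars false

namespace Cfsg.Agent.UR

open Module MulAction Submodule Cfsg.Agent.Forms Cfsg.Agent.Polar Cfsg.Agent.Polar.PQ

variable {F : Type*} [Field F] [Fintype F] {q : ℕ} {hF : Fintype.card F = q ^ 2}
variable {V : Type*} [AddCommGroup V] [Module F V] [Finite V] {P : PQ (uFP hF) V} {H : Subgroup P.Iso}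

theorem n1_exists_sing (P : PQ (uFP hF) V) {A W : Submodule F V} (h : finrank F A + 2 ≤ finrank F W) :
    ∃ x ∈ W, x ∉ A ∧ P.Sing x := by
  obtain ⟨C, hC⟩ := A.exists_isCompl
  have h2 := Submodule.finrank_sup_add_finrank_inf_eq W C
  have h3 := Submodule.finrank_add_eq_of_isCompl hC
  have h4 := Submodule.finrank_le (W ⊔ C)
  obtain ⟨x, h0, hx⟩ := u_exists_sing (P.res (W ⊓ C)) (by omega)
  exact ⟨x, x.2.1, fun h => h0 (Subtype.ext (Submodule.disjoint_def.1 hC.disjoint x h x.2.2)), hx⟩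

theorem n1_exists_perp (hP : P.ND) {A : Submodule F V} {b : V} (hb : b ∉ A) :
    ∃ y, (∀ a ∈ A, P.B y a = 0) ∧ P.B y b = 1 := by
  rw [← perp_perp hP A, mem_perp] at hb
  push Not at hb
  obtain ⟨y, hy, h⟩ := hb
  have h' := B_swap_ne h
  exact ⟨(P.B y b)⁻¹ • y, fun a ha => by simp [mem_perp.1 hy a ha], by simp [h']⟩

theorem n1_adjust {y b : V} (hb : P.Sing b) (h : P.B y b = 1) : ∃ s : F, P.Sing (y + s • b) := by
  obtain ⟨θ, hθ⟩ := exists_trace_one hF
  refine ⟨-(θ * P.B y y), u_sing_iff.2 ?_⟩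
  have h' : P.B b y = 1 := by rw [u_swap, h, map_one]
  simp only [map_add, LinearMap.add_apply, B_smul_left, B_smul_right, h, h', hb.B_self, map_neg, map_mul,
    u_fix_B_self]
  linear_combination (-P.B y y) * hθ

/-- an isotropic vector orthogonal to `A` and not orthogonal to an isotropic `b ∈ A^⊥ ∖ A` -/
theorem n1_exists_iso (hP : P.ND) {A : Submodule F V} {b : V} (hb : b ∉ A) (hs : P.Sing b)
    (hA : ∀ a ∈ A, P.B b a = 0) : ∃ w, P.Sing w ∧ (∀ a ∈ A, P.B w a = 0) ∧ P.B w b = 1 := by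
  obtain ⟨y, h1, h2⟩ := n1_exists_perp hP hb
  obtain ⟨s, h3⟩ := n1_adjust hs h2
  exact ⟨_, h3, fun a ha => by simp [h1 a ha, hA a ha], by simp [h2, hs.B_self]⟩

theorem n1_rank2 {u w : V} (hu : u ≠ 0) (hw : w ∉ F ∙ u) : finrank F (span F {u, w}) = 2 := by
  rw [span_insert, finrank_sup_span_singleton hw, finrank_span_singleton hu]

theorem n1_line {l : Submodule F V} (h : finrank F l = 2) {x a : V} (hx : x ∈ l) (h0 : x ≠ 0) (ha : a ∈ l)
    (ha' : a ∉ F ∙ x) : span F {x, a} = l :=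
  Submodule.eq_of_le_of_finrank_eq (span_le.2 (Set.pair_subset hx ha)) (by rw [h, n1_rank2 h0 ha'])

theorem n1_left (u w : V) : u ∈ span F {u, w} := subset_span (by simp)

theorem n1_right (u w : V) : w ∈ span F {u, w} := subset_span (by simp)

theorem n1_nmem {u w : V} (h0 : u ≠ 0) (h : w ∉ F ∙ u) : u ∉ F ∙ w := fun e => by
  obtain ⟨a, rfl⟩ := mem_span_singleton.1 e
  have ha : a ≠ 0 := by rintro rfl; simp at h0
  exact h (mem_span_singleton.2 ⟨a⁻¹, by simp [smul_smul, ha]⟩)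

theorem n1_ne {u w : V} (h : w ∉ F ∙ u) : w ≠ 0 := by rintro rfl; exact h (zero_mem _)

theorem n1_other {l : Submodule F V} (h : finrank F l = 2) {x : V} (h0 : x ≠ 0) : ∃ a ∈ l, a ∉ F ∙ x := by
  by_contra hn
  push Not at hn
  have := Submodule.finrank_mono (show l ≤ F ∙ x from hn)
  rw [finrank_span_singleton h0] at this
  omega

theorem n1_B_span {S : Set V} {x y : V} (h : ∀ a ∈ S, P.B a y = 0) (hx : x ∈ span F S) : P.B x y = 0 := by
  have : span F S ≤ P.perp {y} := span_le.2 fun a ha => mem_perp_singleton.2 (h a ha)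
  exact mem_perp_singleton.1 (this hx)

theorem n1_B_pair {u w x y : V} (h1 : P.B u y = 0) (h2 : P.B w y = 0) (hx : x ∈ span F {u, w}) : P.B x y = 0 :=
  n1_B_span (by simp [h1, h2]) hx

theorem n1_ts {u w : V} (hu : P.Sing u) (hw : P.Sing w) (h : P.B w u = 0) : P.TotSing (span F {u, w}) :=
  EOk.totSing_span ⟨hu, h, hw⟩

theorem n1_self {u : V} (hu : P.Sing u) : u ∈ Av H u := by simpa using Av.smul_self (H := H) hu 1

/-- transport along conjugate points -/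
theorem n1_sim {u v : V} (h : Cj H u v) : ∃ φ : V ≃ₗ[F] V, ∃ m : F, m ≠ 0 ∧
    (∀ x y, P.B (φ x) (φ y) = m * P.B x y) ∧ (∀ x, φ x ∈ F ∙ v ↔ x ∈ F ∙ u) ∧
    ∀ a, φ a ∈ Av H v ↔ a ∈ Av H u := by
  obtain ⟨g, hg, t, ht, e⟩ := h
  have hτ : frobq hF t ≠ 0 := (map_ne_zero _).2 ht
  refine ⟨(g : V ≃ₗ[F] V).trans (LinearEquiv.smulOfNeZero F V _ hτ), frobq hF t * t, mul_ne_zero hτ ht,
    fun x y => ?_, fun x => ?_, fun a => ?_⟩
  · show P.B (frobq hF t • g • x) (frobq hF t • g • y) = _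
    rw [B_smul_left, B_smul_right, frobq_frobq, B_smul_smul, mul_assoc]
  · show frobq hF t • g • x ∈ F ∙ v ↔ _
    rw [Submodule.smul_mem_iff _ hτ, ← span_singleton_smul_eq ht.isUnit, ← e, mem_span_singleton,
      mem_span_singleton]
    exact exists_congr fun a => by rw [← act_smul, smul_left_cancel_iff]
  · show frobq hF t • g • a ∈ Av H v ↔ _
    rw [← Av.smul_left ht, ← e]
    exact ⟨fun h => by simpa using Av.act h (inv_mem hg), fun h => Av.act h hg⟩

theorem Cj.cTi {u v : V} (h : Cj H u v) (hu : CTi H u) : CTi H v := fun a ha b hb => by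
  obtain ⟨φ, m, -, h1, -, h3⟩ := n1_sim h
  obtain ⟨a, rfl⟩ := φ.surjective a
  obtain ⟨b, rfl⟩ := φ.surjective b
  rw [h1, hu a ((h3 a).1 ha) b ((h3 b).1 hb), mul_zero]

/-- `Av H u` is larger than the point -/
def NZ (H : Subgroup P.Iso) (u : V) : Prop := ∃ d ∈ Av H u, d ∉ F ∙ u

/-- `Av H u` lies in a line -/
def InL (H : Subgroup P.Iso) (u : V) : Prop := ∀ d ∈ Av H u, d ∉ F ∙ u → Av H u ⊆ span F {u, d}

/-- `Av H u` spans `u^⊥` -/
def Ful (H : Subgroup P.Iso) (u : V) : Prop := ∀ w, P.B w u = 0 → Prp H u w → w ∈ F ∙ u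

theorem Cj.nz {u v : V} (h : Cj H u v) (hu : NZ H u) : NZ H v := by
  obtain ⟨φ, m, -, -, h2, h3⟩ := n1_sim h
  obtain ⟨d, a, b⟩ := hu
  exact ⟨φ d, (h3 d).2 a, mt (h2 d).1 b⟩

theorem Cj.inL {u v : V} (h : Cj H u v) (hu : InL H u) : InL H v := fun d hd hd' a ha => by
  obtain ⟨φ, m, -, -, h2, h3⟩ := n1_sim h
  obtain ⟨a, rfl⟩ := φ.surjective a
  obtain ⟨d, rfl⟩ := φ.surjective d
  obtain ⟨s, t, rfl⟩ := mem_span_pair.1 (hu d ((h3 d).1 hd) (mt (h2 d).2 hd') ((h3 a).1 ha))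
  rw [map_add, map_smul φ t]
  exact add_mem (span_mono (by simp) ((h2 _).2 (smul_mem _ s (mem_span_singleton_self u))))
    (smul_mem _ t (n1_right _ _))

theorem Cj.ful {u v : V} (h : Cj H u v) (hs : P.Sing v) (hu : Ful H u) : Ful H v := fun w _ hw => by
  obtain ⟨φ, m, hm, h1, h2, h3⟩ := n1_sim h
  obtain ⟨w, rfl⟩ := φ.surjective w
  have k : Prp H u w := fun a ha => by simpa [h1, hm] using hw _ ((h3 a).2 ha)
  obtain ⟨s, e⟩ := mem_span_singleton.1 ((h2 u).2 (mem_span_singleton_self u))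
  exact (h2 w).2 (hu w (B_swap_zero (k u ((h3 u).1 (e ▸ Av.smul_self hs s)))) k)

theorem Cj.ncard {u v : V} (h : Cj H u v) : (Av H v).ncard = (Av H u).ncard := by
  obtain ⟨φ, m, -, -, -, h3⟩ := n1_sim h
  rw [← Set.ncard_image_of_injective (Av H u) φ.injective]
  congr 1
  ext a
  obtain ⟨a, rfl⟩ := φ.surjective a
  rw [h3, φ.injective.mem_set_image]

/-- mutually orthogonal flags -/
theorem n1_perp {u w : V} (h1 : Prp H u w) (h2 : Prp H w u) (hn : w ∉ span F (Av H u)) {a b : V}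
    (ha : a ∈ Av H u) (hb : b ∈ Av H w) : P.B a b = 0 := by
  by_contra h
  obtain ⟨c, ok, hg⟩ := id hb
  have k := Av.fix ha hg (ok.eich_smul_of_perp₂ (h1 u (n1_self (Av.sing ha))) (B_swap_zero (h2 b hb)))
  rw [ok.eich_smul_of_perp (h1 a ha)] at k
  have := subset_span (R := F) (Av.sub ha k)
  rw [sub_sub_cancel, uFP_eps, one_mul] at this
  exact hn ((Submodule.smul_mem_iff _ h).1 this)

/-- the facts used in the point transitive case -/
structure N1I (H : Subgroup P.Iso) : Prop where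
  nd : P.ND
  h6 : 6 ≤ finrank F V
  h0 : NoTv H
  tr : PtTr H
  nz : ∀ {u : V}, P.Sing u → u ≠ 0 → NZ H u
  kl0 : ∀ {u w y z : V}, TyI H u w → y ∈ span F {u, w} → y ≠ 0 → z ∈ span F {u, w} → z ∉ F ∙ y → TyI H y z
  kl2 : ∀ {u w d : V}, TyI H u w → d ∈ Av H u → P.B d w = 0 → ∀ κ : F, ∃ ν : F, κ • d + ν • w ∈ Av H u
  cl : ∀ {u : V}, P.Sing u → u ≠ 0 → CTi H u ∨ CN1 H u ∨ CN2 H u ∨ CFull H u
  const : ∀ {l : Submodule F V}, P.TotSing l → finrank F l = 2 → ∀ α : ℕ, q ^ 2 < α →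
    (∀ x ∈ l, x ≠ 0 → (Av H x ∩ l).ncard = α) → False
  big : ∀ {l : Submodule F V}, P.TotSing l → finrank F l = 2 →
    (∀ x ∈ l, x ≠ 0 → q ^ 3 < (Av H x ∩ l).ncard) → False
  hit : ∀ {l : Submodule F V}, P.TotSing l → finrank F l = 2 → ∀ {u : V}, u ∈ l → u ≠ 0 →
    q ^ 3 < (Av H u ∩ l).ncard → ∀ x ∈ l, x ≠ 0 → ∃ a ∈ Av H x ∩ l, a ∉ F ∙ x

namespace N1I

variable (I : N1I H)
include I

theorem sym {u w : V} (hu : P.Sing u) (u0 : u ≠ 0) (hw : P.Sing w) (hn : w ∉ F ∙ u) (hp : Prp H u w) :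
    Hit H w u ∨ Prp H w u := by
  by_contra h
  push Not at h
  exact (I.kl0 ⟨hw, n1_ne hn, I.h0 w, hu, hp u (n1_self hu), h.1, h.2⟩ (n1_right _ _) u0 (n1_left _ _) hn).nPrp hp

theorem ti_sym {u w : V} (hC : CTi H w) (hu : P.Sing u) (u0 : u ≠ 0) (hw : P.Sing w) (hn : w ∉ F ∙ u)
    (hp : Prp H u w) : Prp H w u := by
  rcases I.sym hu u0 hw hn hp with ⟨a, ha, h⟩ | h
  · exact fun b hb => by simpa [ha] using hC b hb _ h
  · exact h

theorem ti_smul {u d b : V} (u0 : u ≠ 0) (hC : CTi H u) (hd : d ∈ Av H u) (hb : b ∈ Av H u)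
    (hn : b ∉ span F {u, d}) (κ : F) : κ • d ∈ Av H u := by
  have hu := Av.sing hd
  obtain ⟨w, h1, h2, h3⟩ := n1_exists_iso I.nd hn (u_sing_iff.2 (hC b hb b hb)) fun a ha =>
    B_swap_zero (n1_B_pair (hC _ (n1_self hu) _ hb) (hC _ hd _ hb) ha)
  have h4 : P.B b w = 1 := by rw [u_swap, h3, map_one]
  obtain ⟨ν, h⟩ := I.kl2 ⟨hu, u0, I.h0 u, h1, h2 u (n1_left _ _), fun ⟨a, ha, h⟩ => by
    simpa [ha, h3] using hC _ h _ hb, fun h => by simpa [h4] using h b hb⟩ hd (B_swap_zero (h2 d (n1_right _ _))) κ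
  have := hC _ h _ hb
  simp only [map_add, LinearMap.add_apply, B_smul_left, hC _ hd _ hb, h3, mul_zero, mul_one, zero_add] at this
  simpa [this] using h

theorem ti_big (hC : ∀ u, P.Sing u → u ≠ 0 → CTi H u) (hL : ∀ u, P.Sing u → u ≠ 0 → ¬ InL H u) : False := by
  have key : ∀ {l : Submodule F V}, finrank F l = 2 → ∀ x ∈ l, x ≠ 0 → ∀ a ∈ Av H x, a ∈ l → a ∉ F ∙ x →
      q ^ 3 < (Av H x ∩ l).ncard := by
    intro l h2 x hx x0 a ha hal hn
    have hs := Av.sing ha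
    obtain ⟨b, hb, hb'⟩ : ∃ b ∈ Av H x, b ∉ span F {x, a} := by
      by_contra h
      push Not at h
      refine hL x hs x0 fun d hd hd' z hz => ?_
      rw [n1_line (n1_rank2 x0 hn) (n1_left _ _) x0 (h d hd) hd']
      exact h z hz
    rw [Set.inter_eq_right.2 fun z hz => ?_]
    · rw [← Nat.card_coe_set_eq, SetLike.coe_sort_coe, card_submodule, h2, u_card hF, ← pow_mul]
      exact Nat.pow_lt_pow_right (two_le_q hF) (by norm_num)
    · rw [← n1_line h2 hx x0 hal hn] at hz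
      obtain ⟨s, t, rfl⟩ := mem_span_pair.1 hz
      exact Av.add (Av.smul_self hs s) (I.ti_smul x0 (hC x hs x0) ha hb hb' t)
  obtain ⟨u, u0, hu⟩ := u_exists_sing P (by have := I.h6; omega)
  obtain ⟨d, hd, hd'⟩ := I.nz hu u0
  have hl := n1_ts hu (u_sing_iff.2 (hC u hu u0 d hd d hd)) (Av.perp hd)
  have h2 := n1_rank2 u0 hd'
  refine I.big hl h2 fun x hx x0 => ?_
  obtain ⟨a, ha, ha'⟩ := I.hit hl h2 (n1_left _ _) u0 (key h2 u (n1_left _ _) u0 d hd (n1_right _ _) hd') x hx x0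
  exact key h2 x hx x0 a ha.1 ha.2 ha'

theorem ti_line (hC : ∀ u, P.Sing u → u ≠ 0 → CTi H u) (hL : ∀ u, P.Sing u → u ≠ 0 → InL H u) : False := by
  obtain ⟨u, u0, hu⟩ := u_exists_sing P (by have := I.h6; omega)
  obtain ⟨d, hd, hd'⟩ := I.nz hu u0
  have hl := n1_ts hu (u_sing_iff.2 (hC u hu u0 d hd d hd)) (Av.perp hd)
  have h2 := n1_rank2 u0 hd'
  have hA := hL u hu u0 d hd hd'
  have hZ : span F (Av H u) = span F {u, d} :=
    le_antisymm (span_le.2 hA) (span_mono (Set.pair_subset (n1_self hu) hd))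
  have k1 : ∀ x, P.Sing x → (∀ a ∈ span F {u, d}, P.B x a = 0) → x ∉ span F {u, d} → ∀ w ∈ span F {u, d},
      w ≠ 0 → Prp H w x := by
    intro x hx h1 h3 w hw w0
    have xu : x ∉ F ∙ u := fun h => h3 (span_mono (by simp) h)
    have p1 : Prp H u x := fun a ha => B_swap_zero (h1 a (hA ha))
    have p2 := I.ti_sym (hC x hx (n1_ne xu)) hu u0 hx xu p1
    refine I.ti_sym (hC w (hl.sing w hw) w0) hx (n1_ne xu) (hl.sing w hw)
      (n1_nmem w0 fun h => h3 (span_le.2 (by simpa using hw) h)) fun b hb => B_swap_zero ?_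
    exact n1_B_span (fun a ha => n1_perp p1 p2 (hZ ▸ h3) ha hb) (hZ ▸ hw)
  obtain ⟨x0, a1, a2, a3⟩ := n1_exists_sing P (A := span F {u, d}) (W := P.perp (span F {u, d} : Submodule F V))
    (by have := finrank_perp I.nd (span F {u, d}); have := I.h6; omega)
  have k2 : ∀ w ∈ span F {u, d}, w ≠ 0 → Av H w ⊆ span F {u, d} := by
    intro w hw w0 a ha
    by_contra hn
    by_cases h : ∀ z ∈ span F {u, d}, P.B a z = 0
    · obtain ⟨x, b1, b2, b3⟩ := n1_exists_iso I.nd hn (u_sing_iff.2 (hC w (hl.sing w hw) w0 a ha a ha)) h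
      have := k1 x b1 b2 (fun e => by simp [B_swap_zero (h x e)] at b3) w hw w0 a ha
      simp [B_swap_zero this] at b3
    · push Not at h
      obtain ⟨z, hz, h⟩ := h
      have e1 := k1 x0 a3 a1 a2 w hw w0 a ha
      have e2 := k1 (x0 + z) (a3.add (hl.sing z hz) (a1 z hz)) (fun y hy => by simp [a1 y hy, hl.perp z hz y hy])
        (fun e => a2 (by simpa using sub_mem e hz)) w hw w0 a ha
      simp [e1, h] at e2
  refine I.const hl h2 (Av H u).ncard ?_ fun x hx x0 => ?_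
  · have : ((F ∙ u : Submodule F V) : Set V).ncard < (Av H u).ncard := by
      refine Set.ncard_lt_ncard ⟨fun z hz => ?_, fun h => hd' (h hd)⟩
      obtain ⟨s, rfl⟩ := mem_span_singleton.1 hz
      exact Av.smul_self hu s
    rwa [← Nat.card_coe_set_eq, SetLike.coe_sort_coe, card_span_singleton u0, u_card hF] at this
  · rw [Set.inter_eq_left.2 (k2 x hx x0), (I.tr u x hu u0 (hl.sing x hx) x0).ncard]

theorem not_ti {u : V} (hu : P.Sing u) (u0 : u ≠ 0) : ¬ CTi H u := fun h => by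
  have hC : ∀ v, P.Sing v → v ≠ 0 → CTi H v := fun v a b => (I.tr u v hu u0 a b).cTi h
  by_cases hL : InL H u
  · exact I.ti_line hC fun v a b => (I.tr u v hu u0 a b).inL hL
  · exact I.ti_big hC fun v a b h => hL ((I.tr v u a b hu u0).inL h)

end N1I

end Cfsg.Agent.UR
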