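import Cfsg.Agent.UR.N1a

/-! Rank three actions of unitary groups: the point transitive case, the remaining types. -/

set_option autoImplicit false
set_option linter.unusedSectionVars false

namespace Cfsg.Agent.UR

open Module MulAction Submodule Cfsg.Agent.Forms Cfsg.Agent.Polar Cfsg.Agent.Polar.PQ

variable {F : Type*} [Field F] [Fintype F] {q : ℕ} {hF : Fintype.card F = q ^ 2}
variable {V : Type*} [AddCommGroup V] [Module F V] [Finite V] {P : PQ (uFP hF) V} {H : Subgroup P.Iso}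

theorem n1_rank3 (u a b : V) : finrank F (span F {u, a, b}) ≤ 3 := by
  classical
  have := (finrank_span_finset_le_card (R := F) ({u, a, b} : Finset V)).trans Finset.card_le_three
  rwa [Set.finrank, Finset.coe_insert, Finset.coe_pair] at this

/-- `Av H u` spans a nondegenerate space of dimension one or two modulo `u` -/
structure CN (H : Subgroup P.Iso) (u : V) : Prop where
  three : finrank F (span F (Av H u)) ≤ 3
  rad : ∀ w ∈ span F (Av H u), Prp H u w → w ∈ F ∙ u
  ns : ∃ a ∈ span F (Av H u), ¬ P.Sing a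

theorem CN1.cn {u : V} (h : CN1 H u) : CN H u := by
  obtain ⟨a, ha, hs, h⟩ := h
  refine ⟨(Submodule.finrank_mono (span_le.2 (h.trans (span_mono (by simp))))).trans (n1_rank3 u a a),
    fun w hw hp => ?_, a, subset_span ha, hs⟩
  obtain ⟨s, t, rfl⟩ := mem_span_pair.1 (span_le.2 h hw)
  have := B_swap_zero (hp a ha)
  simp only [map_add, LinearMap.add_apply, B_smul_left, B_swap_zero (Av.perp ha), mul_zero, zero_add,
    mul_eq_zero, ← u_sing_iff, hs, or_false] at this
  simp [this, smul_mem _ s (mem_span_singleton_self u)]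

theorem CN2.cn {u : V} (h : CN2 H u) : CN H u := by
  obtain ⟨a, ha, b, hb, hs, hs', hab, h⟩ := h
  have hba := B_swap_ne hab
  obtain ⟨θ, hθ⟩ := exists_trace_one hF
  refine ⟨(Submodule.finrank_mono (span_le.2 h)).trans (n1_rank3 u a b), fun w hw hp => ?_,
    a + (θ / P.B b a) • b, add_mem (subset_span ha) (smul_mem _ _ (subset_span hb)), ?_⟩
  · obtain ⟨s, z, hz, rfl⟩ := mem_span_insert.1 (span_le.2 h hw)
    obtain ⟨t, r, rfl⟩ := mem_span_pair.1 hz
    have e1 := B_swap_zero (hp a ha)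
    have e2 := B_swap_zero (hp b hb)
    simp only [map_add, LinearMap.add_apply, B_smul_left, B_swap_zero (Av.perp ha), B_swap_zero (Av.perp hb),
      mul_zero, zero_add, add_zero, mul_eq_zero, hs.B_self, hs'.B_self, hab, hba, or_false] at e1 e2
    simp [e1, e2, smul_mem _ s (mem_span_singleton_self u)]
  · rw [u_sing_iff]
    simp only [map_add, LinearMap.add_apply, B_smul_left, B_smul_right, hs.B_self, hs'.B_self, map_div₀,
      ← u_swap, div_mul_cancel₀ _ hab, div_mul_cancel₀ _ hba, mul_zero, zero_add, add_zero]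
    rw [hθ]; exact one_ne_zero

theorem CN.exists_rel (hP : P.ND) (h6 : 6 ≤ finrank F V) {u : V} (u0 : u ≠ 0) (h : CN H u) :
    ∃ w, P.Sing w ∧ w ∉ F ∙ u ∧ Prp H u w := by
  obtain ⟨w, a1, a2, a3⟩ := n1_exists_sing P (A := F ∙ u) (W := P.perp (span F (Av H u) : Submodule F V)) (by
    have := finrank_perp hP (span F (Av H u)); have := h.three; rw [finrank_span_singleton u0]; omega)
  exact ⟨w, a3, a2, fun a ha => B_swap_zero (a1 a (subset_span ha))⟩

namespace N1I

variable (I : N1I H)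
include I

theorem cn_sym {u w : V} (c1 : CN H u) (c2 : CN H w) (hu : P.Sing u) (u0 : u ≠ 0) (hw : P.Sing w)
    (hn : w ∉ F ∙ u) (hp : Prp H u w) : Prp H w u := by
  rcases I.sym hu u0 hw hn hp with ⟨t, ht, h⟩ | h
  swap
  · exact h
  intro b hb
  by_contra hbu
  have uw := hp u (n1_self hu)
  have k1 : u ∈ span F (Av H w) := (Submodule.smul_mem_iff _ ht).1 (subset_span h)
  have k2 : span F {u, w} = span F (Av H w) ⊓ P.perp {u} := by
    refine Submodule.eq_of_le_of_finrank_le (span_le.2 (Set.pair_subset ⟨k1, mem_perp_singleton.2 hu.B_self⟩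
      ⟨subset_span (n1_self hw), mem_perp_singleton.2 (B_swap_zero uw)⟩)) ?_
    have := Submodule.finrank_lt_finrank_of_lt (show span F (Av H w) ⊓ P.perp {u} < span F (Av H w) from
      lt_of_le_of_ne inf_le_left fun e => hbu (mem_perp_singleton.1 (inf_eq_left.1 e (subset_span hb))))
    have := c2.three
    rw [n1_rank2 u0 hn]; omega
  obtain ⟨a, ha, hs⟩ := c1.ns
  refine hs ((n1_ts hu hw (B_swap_zero uw)).sing a (k2 ▸ span_le.2 (fun x hx => ?_) ha))
  obtain ⟨c, ok, hg⟩ := id hx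
  have k := Av.fix hb hg (ok.eich_smul_of_perp₂ (B_swap_zero uw) (B_swap_zero (hp x hx)))
  rw [u_eich_smul ok] at k
  have := sub_mem (add_mem (subset_span (R := F) k) (smul_mem _ (P.B b x + c * P.B b u) k1)) (subset_span hb)
  rw [sub_add_cancel, add_sub_cancel_left] at this
  exact ⟨(Submodule.smul_mem_iff _ hbu).1 this, mem_perp_singleton.2 (Av.perp hx)⟩

theorem cn_false (hC : ∀ u, P.Sing u → u ≠ 0 → CN H u) : False := by
  have sy : ∀ {u w : V}, P.Sing u → u ≠ 0 → P.Sing w → w ∉ F ∙ u → Prp H u w → Prp H w u :=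
    fun a b c d e => I.cn_sym (hC _ a b) (hC _ c (n1_ne d)) a b c d e
  obtain ⟨u, u0, hu⟩ := u_exists_sing P (by have := I.h6; omega)
  obtain ⟨w, hw, hn, hp⟩ := (hC u hu u0).exists_rel I.nd I.h6 u0
  have hl := n1_ts hu hw (B_swap_zero (hp u (n1_self hu)))
  have h2 := n1_rank2 u0 hn
  have k0 : ∀ {x y z : V}, Prp H x y → Prp H x z → ∀ v ∈ span F {y, z}, Prp H x v := fun a b v hv c hc =>
    B_swap_zero (n1_B_pair (B_swap_zero (a c hc)) (B_swap_zero (b c hc)) hv)
  have k1 : ∀ {x : V}, P.Sing x → x ≠ 0 → ∀ {y}, y ∉ F ∙ x → Prp H x y → y ∉ span F (Av H x) :=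
    fun a b y c d e => c ((hC _ a b).rad y e d)
  have su : ∀ {x : V}, P.Sing x → Prp H x x := fun _ a ha => Av.perp ha
  have k2 : ∀ y ∈ span F {u, w}, y ≠ 0 → ∀ z ∈ span F {u, w}, Prp H y z := by
    intro y hy y0 z hz
    by_cases h : y ∈ F ∙ u
    · obtain ⟨s, rfl⟩ := mem_span_singleton.1 h
      have s0 : s ≠ 0 := by rintro rfl; simp at y0
      intro a ha
      simpa [s0] using k0 (su hu) hp z hz _ ((Av.smul_left s0).1 ha)
    · refine k0 (sy hu u0 (hl.sing y hy) h (k0 (su hu) hp y hy)) (su (hl.sing y hy)) z ?_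
      rwa [n1_line h2 (n1_left _ _) u0 hy h]
  have k3 : ∀ y ∈ span F {u, w}, y ≠ 0 → ∀ z ∈ span F {u, w}, z ∉ F ∙ y → ∀ a ∈ span F (Av H y),
      ∀ b ∈ span F (Av H z), P.B a b = 0 := fun y hy y0 z hz h a ha b hb =>
    n1_B_span (fun a ha => B_swap_zero (n1_B_span (fun b hb => B_swap_zero (n1_perp (k2 y hy y0 z hz)
      (k2 z hz (n1_ne h) y hy) (k1 (hl.sing y hy) y0 h (k2 y hy y0 z hz)) ha hb)) hb)) ha
  obtain ⟨θ, hθ⟩ := exists_frobq_ne hF
  have θ0 : θ ≠ 0 := by rintro rfl; simp at hθ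
  have θ1 : θ ≠ 1 := by rintro rfl; simp at hθ
  have li : ∀ {a b : F}, a • u + b • w = 0 → a = 0 ∧ b = 0 := fun {a b} h => by
    have hb : b = 0 := by
      by_contra hb
      exact hn ((Submodule.smul_mem_iff _ hb).1 (mem_span_singleton.2 ⟨-a, by
        rw [neg_smul, neg_eq_iff_add_eq_zero, h]⟩))
    exact ⟨by simpa [hb, u0] using h, hb⟩
  have nm : ∀ {a b c d : F}, a * d ≠ b * c → a • u + b • w ∉ F ∙ (c • u + d • w) := fun {a b c d} h e => by
    obtain ⟨s, e⟩ := mem_span_singleton.1 e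
    obtain ⟨e1, e2⟩ := li (a := s * c - a) (b := s * d - b) (by linear_combination (norm := module) e)
    exact h (by linear_combination (-d) * e1 + c * e2)
  have ml : ∀ a b : F, a • u + b • w ∈ span F {u, w} := fun a b => mem_span_pair.2 ⟨a, b, rfl⟩
  have n3 : (1 : F) • u + (1 : F) • w ≠ 0 := fun h => one_ne_zero (li h).1
  have n4 : (1 : F) • u + θ • w ≠ 0 := fun h => one_ne_zero (li h).1
  obtain ⟨a, ha, sa⟩ := (hC _ (hl.sing _ (ml 1 1)) n3).ns
  obtain ⟨b, hb, sb⟩ := (hC _ (hl.sing _ (ml 1 θ)) n4).ns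
  rw [u_sing_iff] at sa sb
  have ab := k3 _ (ml 1 1) n3 _ (ml 1 θ) (nm (by simpa using θ1.symm)) a ha b hb
  obtain ⟨μ, hμ⟩ := exists_norm_eq hF (-(P.B a a / P.B b b)) (by simp [u_fix_B_self])
  have hz : P.Sing (a + μ • b) := u_sing_iff.2 (by
    simp only [map_add, LinearMap.add_apply, B_smul_left, B_smul_right, ab, B_swap_zero ab]
    field_simp at hμ
    linear_combination hμ)
  have za : P.B (a + μ • b) a ≠ 0 := by simpa [B_swap_zero ab] using sa
  have z0 : a + μ • b ≠ 0 := fun h => by simp [h] at za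
  have la : ∀ y ∈ span F {u, w}, P.B y a = 0 := fun y hy =>
    B_swap_zero (n1_B_span (k2 _ (ml 1 1) n3 y hy) ha)
  have zn : ∀ y ∈ span F {u, w}, a + μ • b ∉ F ∙ y := fun y hy h =>
    za (la _ (span_le.2 (by simpa using hy) h))
  have k4 : ∀ y ∈ span F {u, w}, y ≠ 0 → (1 : F) • u + (1 : F) • w ∉ F ∙ y → (1 : F) • u + θ • w ∉ F ∙ y →
      Prp H (a + μ • b) y := fun y hy y0 h3 h4 =>
    sy (hl.sing y hy) y0 hz (zn y hy) fun c hc => by
      simp [k3 y hy y0 _ (ml 1 1) h3 c (subset_span hc) a ha, k3 y hy y0 _ (ml 1 θ) h4 c (subset_span hc) b hb]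
  have p1 := k4 u (n1_left _ _) u0 (by simpa using nm (a := 1) (b := 1) (c := 1) (d := 0) (by simp))
    (by simpa using nm (a := 1) (b := θ) (c := 1) (d := 0) (by simpa using θ0.symm))
  have p2 := k4 w (n1_right _ _) (n1_ne hn) (by simpa using nm (a := 1) (b := 1) (c := 0) (d := 1) (by simp))
    (by simpa using nm (a := 1) (b := θ) (c := 0) (d := 1) (by simp))
  have p3 := sy hz z0 (hl.sing _ (ml 1 1)) (n1_nmem n3 (zn _ (ml 1 1))) (k0 p1 p2 _ (ml 1 1))
  exact za (B_swap_zero (n1_B_span p3 ha))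

theorem full_line {u d : V} (u0 : u ≠ 0) (hC : CFull H u) (hd : d ∈ Av H u) (hn : d ∉ F ∙ u) (t : F) :
    t • d ∈ Av H u ↔ frobq hF t = t := by
  obtain ⟨-, -, hs, hf⟩ := hC
  have hu := Av.sing hd
  have np : ∀ w, P.B w u = 0 → w ∉ F ∙ u → ∃ b ∈ Av H u, P.B w b ≠ 0 := fun w h1 h2 => by
    by_contra h
    push Not at h
    exact h2 (hf w h1 fun a ha => B_swap_zero (h a ha))
  have fx := fun {a b : V} => Av.fixed (a := a) (b := b) u0 (I.h0 u)
  obtain ⟨b, hb, hb'⟩ := np d (Av.perp hd) hn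
  have hτ := fx hd hb
  refine ⟨fun h => ?_, fun h => ?_⟩
  · simpa [hτ, hb'] using fx h hb
  obtain ⟨x, a1, a2, a3⟩ := n1_exists_sing P (A := span F {u, d}) (W := P.perp (span F {u, d} : Submodule F V))
    (by have := finrank_perp I.nd (span F {u, d}); have := I.h6; have := n1_rank2 u0 hn; omega)
  have xu := a1 u (n1_left _ _)
  have xd := a1 d (n1_right _ _)
  have ds := hs d hd
  obtain ⟨y, y1, y2, y3, y4, y5⟩ : ∃ y, P.Sing y ∧ P.B y u = 0 ∧ P.B y d = 0 ∧ P.B y b = 0 ∧ y ∉ F ∙ u :=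
    ⟨x + (-(P.B x b / P.B d b)) • d, a3.add (ds.smul _) (by simp [xd]), by simp [xu, Av.perp hd],
      by simp [xd, ds.B_self], by simp [hb'], fun e => a2 (by
        simpa using sub_mem (span_mono (by simp) e : _ ∈ span F {u, d}) (smul_mem _ (-(P.B x b / P.B d b))
          (n1_right u d)))⟩
  obtain ⟨c, hc, hc'⟩ := np y y2 y5
  obtain ⟨θ, hθ⟩ := exists_frobq_ne hF
  have key : ∀ α β : F, α • d + β • y ∈ Av H u → frobq hF α = α ∧ frobq hF (β * P.B y c) = β * P.B y c := by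
    intro α β h
    have e1 : frobq hF α = α := by simpa [hτ, hb', y4] using fx h hb
    have e2 := fx h hc
    simp only [map_add, LinearMap.add_apply, B_smul_left, map_mul, e1, fx hd hc, add_right_inj] at e2
    exact ⟨e1, by rw [map_mul, e2]⟩
  have key' : ∀ α ν : F, frobq hF α = α → α • d + ν • ((θ * P.B y c) • d + y) ∈ Av H u → ν = 0 := by
    intro α ν hα h
    obtain ⟨e1, e2⟩ := key (α + ν * P.B y c * θ) ν (by convert h using 1; module)
    rw [map_add, map_mul, e2, hα, add_right_inj] at e1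
    simpa [hθ, hc'] using e1
  obtain ⟨ν, k⟩ := I.kl2 (w := (θ * P.B y c) • d + y) ⟨hu, u0, I.h0 u, (ds.smul _).add y1 (by simp [B_swap_zero y3]),
    by simp [Av.perp hd, y2], fun ⟨a, ha, h⟩ => ha (key' 0 a (map_zero _) (by simpa using h)), fun h => by
      have := B_swap_zero (h b hb)
      have θ0 : θ ≠ 0 := by rintro rfl; simp at hθ
      simp [y4, hb', hc', θ0] at this⟩ hd (by simp [ds.B_self, B_swap_zero y3]) t
  simpa [key' t ν h k] using k

theorem full_card {u d : V} (u0 : u ≠ 0) (hC : CFull H u) (hd : d ∈ Av H u) (hn : d ∉ F ∙ u) :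
    (Av H u ∩ span F {u, d}).ncard = q ^ 3 := by
  have hu := Av.sing hd
  have : Av H u ∩ span F {u, d} =
      (fun x : F × F => x.1 • u + x.2 • d) '' (Set.univ ×ˢ {a | frobq hF a = a}) := by
    ext z
    constructor
    · rintro ⟨h1, h2⟩
      obtain ⟨s, t, rfl⟩ := mem_span_pair.1 h2
      exact ⟨(s, t), ⟨trivial, (I.full_line u0 hC hd hn t).1 (by simpa using Av.sub h1 (Av.smul_self hu s))⟩, rfl⟩
    · rintro ⟨⟨s, t⟩, ⟨-, h⟩, rfl⟩
      exact ⟨Av.add (Av.smul_self hu s) ((I.full_line u0 hC hd hn t).2 h), mem_span_pair.2 ⟨s, t, rfl⟩⟩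
  rw [this, Set.ncard_image_of_injective, Set.ncard_prod, Set.ncard_univ, u_card hF, u_ncard_fix hF, ← pow_succ]
  rintro ⟨s, t⟩ ⟨s', t'⟩ e
  have e' : (t - t') • d = (s' - s) • u := by linear_combination (norm := module) e
  have ht : t = t' := by
    by_contra h
    exact hn ((Submodule.smul_mem_iff _ (sub_ne_zero.2 h)).1 (mem_span_singleton.2 ⟨_, e'.symm⟩))
  subst ht
  have : s' = s := by simpa [u0, sub_eq_zero] using e'.symm
  rw [this]

theorem full_false (hC : ∀ u, P.Sing u → u ≠ 0 → CFull H u) : False := by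
  obtain ⟨u, u0, hu⟩ := u_exists_sing P (by have := I.h6; omega)
  obtain ⟨d, hd, hd'⟩ := I.nz hu u0
  have hl := n1_ts hu ((hC u hu u0).2.2.1 d hd) (Av.perp hd)
  have h2 := n1_rank2 u0 hd'
  refine I.const hl h2 (q ^ 3) (Nat.pow_lt_pow_right (two_le_q hF) (by norm_num)) fun x hx x0 => ?_
  obtain ⟨z, hz, hz'⟩ := n1_other h2 x0
  have hs := hl.sing x hx
  obtain ⟨t, ht, h⟩ : Hit H x z := by
    by_contra h
    have e := n1_line h2 hx x0 hz hz'
    exact (I.kl0 ⟨hs, x0, I.h0 x, hl.sing z hz, hl.perp z hz x hx, h, fun k =>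
      hz' ((hC x hs x0).2.2.2 z (hl.perp z hz x hx) k)⟩ (e ▸ n1_left u d) u0 (e ▸ n1_right u d) hd').nHit
      ⟨1, one_ne_zero, by simpa using hd⟩
  have h' : t • z ∉ F ∙ x := mt (Submodule.smul_mem_iff _ ht).1 hz'
  rw [← n1_line h2 hx x0 (smul_mem _ t hz) h']
  exact I.full_card x0 (hC x hs x0) h h'

theorem false : False := by
  obtain ⟨u, u0, hu⟩ := u_exists_sing P (by have := I.h6; omega)
  by_cases h : Ful H u
  · refine I.full_false fun v a b => ?_
    have k : ¬ CN H v := fun c => by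
      obtain ⟨w, -, c2, c3⟩ := c.exists_rel I.nd I.h6 b
      exact c2 ((I.tr u v hu u0 a b).ful a h w (B_swap_zero (c3 v (n1_self a))) c3)
    rcases I.cl a b with c | c | c | c
    exacts [(I.not_ti a b c).elim, (k c.cn).elim, (k c.cn).elim, c]
  · refine I.cn_false fun v a b => ?_
    rcases I.cl a b with c | c | c | c
    exacts [(I.not_ti a b c).elim, c.cn, c.cn, (h ((I.tr v u a b hu u0).ful hu c.2.2.2)).elim]

end N1I

/-- a nontrivial element of `H ⊓ U u` makes all `Av H v` larger than the point -/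
theorem n1_nz (hP : P.ND) (h0 : NoTv H) (hT : PtTr H) (h : ¬ NoQ H) {v : V} (hv : P.Sing v) (v0 : v ≠ 0) :
    NZ H v := by
  simp only [NoQ, not_forall] at h
  obtain ⟨u, hu, u0, g, hg, h1, h2⟩ := h
  obtain ⟨f, hf⟩ := hP.exists_hyp hu u0
  obtain ⟨w, hw, c, ok, rfl⟩ := hf.mem_U_iff.1 h1
  refine (hT u v hu u0 hv v0).nz ⟨w, ⟨c, ok, hg⟩, fun e => ?_⟩
  obtain ⟨s, rfl⟩ := mem_span_singleton.1 e
  have : s = 0 := by simpa [hf.pair] using (mem_perp_pair.1 hw).2
  subst this
  rw [zero_smul] at ok hg h2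
  by_cases c0 : c = 0
  · exact h2 (c0 ▸ eich_zero u)
  · exact h0 u ⟨hu, u0, c, (sing_iff_of_QEq ok.val).1 sing_zero, c0, hg⟩

end Cfsg.Agent.UR
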