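import Cfsg.Agent.UR.N1b
import Cfsg.Agent.UR.KL
import Cfsg.Agent.UR.BL

/-! Rank three actions of unitary groups: the point transitive case. -/

set_option autoImplicit false
set_option linter.unusedSectionVars false

namespace Cfsg.Agent.UR

open Module MulAction Submodule Cfsg.Agent.Forms Cfsg.Agent.Polar Cfsg.Agent.Polar.PQ

variable {F : Type*} [Field F] [Fintype F] {q : ℕ} {hF : Fintype.card F = q ^ 2}
variable {V : Type*} [AddCommGroup V] [Module F V] [Finite V] {P : PQ (uFP hF) V} {H : Subgroup P.Iso} {n : ℕ}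

theorem n1_of (hP : P.ND) (hn : finrank F V = n) (h6 : 6 ≤ n) (hq : 3 ≤ q) (h0 : NoTv H) (hT : PtTr H)
    (hcl : ∀ u, P.Sing u → u ≠ 0 → CTi H u ∨ CN1 H u ∨ CN2 H u ∨ CFull H u) : NoQ H := by
  by_contra h
  exact N1I.false ⟨hP, hn ▸ h6, h0, hT, n1_nz hP h0 hT h, fun a => kl0 hP hT.trC a, fun a => kl2 hP hT.trC a, fun {u} => hcl u,
    fun {l} => bl_const hP hq h0 l, fun {l} => bl_big hP h0 l, fun {l} a b _ => bl_hit hP h0 l a b⟩

end Cfsg.Agent.UR
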