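import Cfsg.Agent.UR.Lift
import Cfsg.Agent.SR.Dick

/-! Rank three actions of unitary groups: two non-orthogonal centres of lifted transvections. -/

set_option autoImplicit false

namespace Cfsg.Agent.UR

open Module MulAction Cfsg.Agent.Forms Cfsg.Agent.Polar Cfsg.Agent.Polar.PQ Polynomial

theorem n2b0_order {F : Type*} [Field F] [Finite F] {V : Type*} [AddCommGroup V] [Module F V]
    (A : Module.End F V) {t : F} (ht : t * t ≠ 4) (h : (A * A - t • A + 1) * (A - 1) = 0) {N : ℕ}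
    (hN : N ≠ 0) (hA : A ^ N = 1) : ∃ r : ℕ, (r : F) ≠ 0 ∧ A ^ r = 1 := by
  obtain ⟨p, hp⟩ := CharP.exists F
  have hpp : Fact p.Prime := ⟨CharP.char_is_prime F p⟩
  obtain ⟨a, r, hr, rfl⟩ := Nat.exists_eq_pow_mul_and_not_dvd hN p hpp.out.ne_one
  refine ⟨r, fun h0 => hr ((CharP.cast_eq_zero_iff F p r).1 h0), ?_⟩
  have h2 : t ≠ 2 := by rintro rfl; exact ht (by norm_num)
  have hs : Squarefree ((X * X - C t * X + 1) * (X - 1) : F[X]) := by
    refine Separable.squarefree (Separable.mul ?_ (by simpa using separable_X_sub_C (x := (1 : F))) ?_)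
    · refine ⟨C (t * t - 4)⁻¹ * (-4), C (t * t - 4)⁻¹ * (2 * X - C t), ?_⟩
      have : C (t * t - 4)⁻¹ * (C t * C t - 4) = (1 : F[X]) := by
        rw [← C_mul, show (4 : F[X]) = C 4 from rfl, ← C_sub, ← C_mul,
          inv_mul_cancel₀ (sub_ne_zero.2 ht), C_1]
      simp only [derivative_add, derivative_sub, derivative_mul, derivative_X, derivative_C,
        derivative_one]
      linear_combination this
    · refine ⟨C (2 - t)⁻¹, -(C (2 - t)⁻¹ * (X + 1 - C t)), ?_⟩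
      have : C (2 - t)⁻¹ * (2 - C t) = (1 : F[X]) := by
        rw [show (2 : F[X]) = C 2 from rfl, ← C_sub, ← C_mul,
          inv_mul_cancel₀ (sub_ne_zero.2 h2.symm), C_1]
      linear_combination this
  have h3 : minpoly F A ∣ (X * X - C t * X + 1) * (X - 1) := minpoly.dvd F A (by
    simpa [Algebra.smul_def] using h)
  have h4 : minpoly F A ∣ (X ^ r - 1) ^ p ^ a := minpoly.dvd F A (by
    rw [sub_pow_char_pow, one_pow, ← pow_mul, mul_comm r, map_sub, map_pow, aeval_X, hA, map_one,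
      sub_self])
  obtain ⟨g, hg⟩ := ((hs.squarefree_of_dvd h3).dvd_pow_iff_dvd (pow_pos hpp.out.pos a).ne').1 h4
  have h5 := congrArg (aeval A) hg
  rwa [map_mul, minpoly.aeval, zero_mul, map_sub, map_pow, aeval_X, map_one, sub_eq_zero] at h5

variable {F : Type*} [Field F] [Fintype F] {q : ℕ} {hF : Fintype.card F = q ^ 2}
variable {V : Type*} [AddCommGroup V] [Module F V] {P : PQ (uFP hF) V} {H : Subgroup P.Iso}
variable {e f : V}

theorem n2b0_tv_order [Finite V] {x y : V} (hx : P.Sing x) (hy : P.Sing y) {c d : F}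
    (hc : c ∈ (uFP hF).Λ) (hd : d ∈ (uFP hF).Λ) (h0 : c * d * (P.B x y * P.B y x) ≠ 0)
    (h4 : c * d * (P.B x y * P.B y x) ≠ -4) :
    ∃ r : ℕ, (r : F) ≠ 0 ∧ (P.eich x 0 c * P.eich y 0 d) ^ r = 1 := by
  set G := P.eich x 0 c * P.eich y 0 d with hG
  let φ : P.Iso →* Module.End F V := (Units.coeHom _).comp
    ((LinearMap.GeneralLinearGroup.generalLinearEquiv F V).symm.toMonoidHom.comp P.Iso.subtype)
  have hφ : ∀ g v, φ g v = g • v := fun _ _ => rfl
  have key : ∀ v, G • v = v - (d * P.B v y) • y - (c * (P.B v x - d * P.B v y * P.B y x)) • x :=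
    fun v => by
      rw [hG, mul_smul, tv_smul hy hd, tv_smul hx hc]
      simp only [map_sub, LinearMap.sub_apply, B_smul_left]
  obtain ⟨r, hr, h1⟩ := n2b0_order (φ G) (t := 2 + c * d * (P.B x y * P.B y x)) (fun h => by
      refine mul_ne_zero h0 (sub_ne_zero.2 h4) ?_
      linear_combination h) (LinearMap.ext fun v => by
      simp only [Module.End.mul_apply, LinearMap.add_apply, LinearMap.sub_apply,
        LinearMap.smul_apply, Module.End.one_apply, hφ, LinearMap.zero_apply, key, map_sub,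
        B_smul_left, hx.B_self, hy.B_self]
      module) (orderOf_pos G).ne' (by rw [← map_pow, pow_orderOf_eq_one, map_one])
  refine ⟨r, hr, iso_ext fun v => ?_⟩
  rw [← hφ, map_pow, h1, one_smul, Module.End.one_apply]

theorem n2b0_eich_pow {w : V} {d : F} (h : P.EOk e w d) (k : ℕ) : ∃ d', P.EOk e ((k : F) • w) d' ∧
    P.eich e w d ^ k = P.eich e ((k : F) • w) d' ∧ (w = 0 → d' = k * d) := by
  induction k with
  | zero => exact ⟨0, by simpa using EOk.zero h.sing, by simp [eich_zero], fun _ => by simp⟩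
  | succ k ih =>
    obtain ⟨d', h1, h2, h3⟩ := ih
    refine ⟨_, by simpa [add_smul] using h1.add h, by
      rw [pow_succ, h2, h1.eich_mul h]; simp [add_smul], fun h0 => ?_⟩
    rw [h3 h0, h0]; simp; ring

theorem n2b0_U_pow (h : P.Hyp e f) {z : P.Iso} (hz : z ∈ P.U e) {r : ℕ} (hr : (r : F) ≠ 0)
    (h1 : z ^ r = 1) : z = 1 := by
  obtain ⟨w, hw, d, hd, rfl⟩ := h.mem_U_iff.1 hz
  obtain ⟨d', k1, k2, k3⟩ := n2b0_eich_pow hd r
  rw [k2, ← eich_zero e] at h1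
  obtain ⟨k4, k5⟩ := h.eich_inj k1 (by simp [(mem_perp_pair.1 hw).2]) (EOk.zero h.left) (by simp) h1
  obtain rfl : w = 0 := (smul_eq_zero.1 k4).resolve_left hr
  obtain rfl : d = 0 := (mul_eq_zero.1 ((k3 rfl).symm.trans k5)).resolve_left hr
  exact eich_zero e

/-- normal form of a lift -/
structure Nf (H : Subgroup P.Iso) (e : V) (S : Set V) (x : V) (c : F) (z : P.Iso) : Prop where
  sx : P.Sing x
  mem : x ∈ S
  lam : c ∈ (uFP hF).Λ
  u : z ∈ P.U e
  fix : ∀ y ∈ S, z • y = y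
  lift : z * P.eich x 0 c ∈ H

section
variable {S : Set V} {x y : V} {c d : F} {z z' : P.Iso}

theorem Nf.comm (h1 : Nf H e S x c z) (h2 : Nf H e S y d z') : Commute z (P.eich y 0 d) :=
  transvec_commute h2.sx h2.lam (h1.fix y h2.mem)

theorem Nf.inv (h : Nf H e S x c z) : Nf H e S x (-c) z⁻¹ :=
  ⟨h.sx, h.mem, neg_mem h.lam, inv_mem h.u, fun y hy => by rw [inv_smul_eq_iff, h.fix y hy], by
    rw [← transvec_inv h.sx h.lam, ← mul_inv_rev, ← (h.comm h).eq]; exact inv_mem h.lift⟩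

theorem Nf.mul (h1 : Nf H e S x c z) (h2 : Nf H e S x d z') : Nf H e S x (c + d) (z * z') :=
  ⟨h1.sx, h1.mem, add_mem h1.lam h2.lam, mul_mem h1.u h2.u, fun y hy => by
    rw [mul_smul, h2.fix y hy, h1.fix y hy], by
    rw [← transvec_mul h1.sx h1.lam h2.lam, (h2.comm h1).mul_mul_mul_comm]
    exact mul_mem h1.lift h2.lift⟩

theorem Nf.sign (h : Nf H e S x c z) {ε : F} (hε : ε * ε = 1) : ∃ z', Nf H e S x (ε * c) z' := by
  rcases mul_self_eq_one_iff.1 hε with rfl | rfl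
  · exact ⟨z, by rwa [one_mul]⟩
  · exact ⟨z⁻¹, by rw [neg_one_mul]; exact h.inv⟩

theorem Nf.rel [Finite V] (h : P.Hyp e f) (hQ : NoQ H) (h1 : Nf H e S x c z) (h2 : Nf H e S y d z')
    (h0 : c * d * (P.B x y * P.B y x) ≠ 0) (h4 : c * d * (P.B x y * P.B y x) ≠ -4) :
    z * z' = 1 := by
  obtain ⟨r, hr, hG⟩ := n2b0_tv_order h1.sx h2.sx h1.lam h2.lam h0 h4
  have k1 := pow_mem (mul_mem h1.lift h2.lift) r
  rw [← (h2.comm h1).mul_mul_mul_comm, Commute.mul_pow (((h1.comm h1).mul_right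
    (h1.comm h2)).mul_left ((h2.comm h1).mul_right (h2.comm h2))), hG, mul_one] at k1
  have hu := mul_mem h1.u h2.u
  exact n2b0_U_pow h hu hr (hQ e h.left h.left_ne_zero _ k1 (pow_mem hu r))

end

theorem Lf.nf (h : P.Hyp e f) {w b φ : V} {c s : F} (h1 : Lf H e f w c b) (hb : b = φ + s • w)
    (hφ : P.B φ w = 0) : ∃ a d : F, P.EOk e φ d ∧ P.eich e φ d * P.eich (a • e + w) 0 c ∈ H := by
  obtain ⟨d, hd, hH⟩ := h1.lift
  have hw := (mem_perp_pair.1 h1.w_mem).1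
  obtain ⟨o, k⟩ := u_transvec_add h.left h1.sw hw (frobq hF (-s / c)) h1.lam
  rw [frobq_frobq, div_mul_cancel₀ _ h1.c0, neg_neg] at o k
  have hl := (uFP hF).lam_smul (frobq hF (-s / c)) _ h1.lam
  rw [frobq_frobq] at hl
  have o' : P.EOk e φ (d - frobq hF (-s / c) * (-s / c) * c) := by
    refine ⟨h.left, by simpa [hb, hw] using hd.perp, QEq.of_sub_mem (c := d) ?_ (by simpa using hl)⟩
    have := u_QEq_iff.1 hd.val
    rw [u_QEq_iff, this, hb]
    simp [hφ, B_swap_zero hφ, h1.sw.B_self]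
  refine ⟨frobq hF (-s / c), _, o', ?_⟩
  rw [k, ← mul_assoc, o'.eich_mul o, ← hb, B_smul_left, B_swap_zero hφ, mul_zero, add_zero,
    sub_add_cancel]
  exact hH

section
variable {w1 w2 w3 b1 b2 b3 : V} {c : F}

open Cfsg.Agent.Stein Cfsg.Agent.Chev in
theorem n2b0_neg (h2 : (2 : F) ≠ 0) (l1 : Lf H e f w1 c b1) (l2 : Lf H e f w2 c b2)
    (he : P.Sing e) (h12 : P.B w1 w2 ≠ 0) : ∃ g u, Cy H e f g u ∧ g • w1 = -w1 := by
  have key : ∀ A ∈ Submonoid.closure {sl2X F (-(c * P.B w2 w1)), sl2Y F (-(c * P.B w1 w2))},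
      ∃ g u, Cy H e f g u ∧ g • w1 = A 0 0 • w1 + A 1 0 • w2 ∧ g • w2 = A 0 1 • w1 + A 1 1 • w2 := by
    intro A hA
    induction hA using Submonoid.closure_induction with
    | mem A hA =>
      rcases hA with rfl | rfl
      · exact ⟨_, _, l1.cy, by simp [X_val, l1.tv, l1.sw.B_self], by
          simp [X_val, l1.tv, sub_eq_neg_add]⟩
      · exact ⟨_, _, l2.cy, by simp [Y_val, l2.tv, sub_eq_add_neg], by
          simp [Y_val, l2.tv, l2.sw.B_self]⟩
    | one => exact ⟨1, 0, Cy.one he, by simp, by simp⟩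
    | mul A B _ _ iA iB =>
      obtain ⟨i, u, hi, a1, a2⟩ := iA
      obtain ⟨j, v, hj, b1, b2⟩ := iB
      have e' : ∀ r s, (A * B) r s = A r 0 * B 0 s + A r 1 * B 1 s := fun r s => by
        simp [Matrix.mul_apply, Fin.sum_univ_two]
      refine ⟨i * j, _, hi.mul hj, ?_, ?_⟩
      · rw [mul_smul, b1, smul_add, act_smul, act_smul, a1, a2, e', e']; module
      · rw [mul_smul, b2, smul_add, act_smul, act_smul, a1, a2, e', e']; module
  obtain ⟨g, u, hg, a1, -⟩ := key (-1) (by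
    rw [← Subgroup.closure_toSubmonoid_of_finite]
    exact SR.neg_mem_closure h2 (neg_ne_zero.2 (mul_ne_zero l1.c0 (B_swap_ne h12)))
      (neg_ne_zero.2 (mul_ne_zero l1.c0 h12)))
  exact ⟨g, u, hg, by simpa using a1⟩

theorem n2b_perp (h : P.Hyp e f) (hQ : NoQ H) (l1 : Lf H e f w1 c b1) (l2 : Lf H e f w2 c b2)
    (h12 : P.B w1 w2 ≠ 0) : P.B b1 w1 = 0 := by
  by_cases h2 : (2 : F) = 0
  · exact (l1.two h hQ h2).1
  obtain ⟨g, u, hg, a1⟩ := n2b0_neg h2 l1 l2 h.left h12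
  have k1 := hg.comm h hQ l1.cy (by
    rw [← mul_inv_eq_iff_eq_mul, conj_tv l1.sw l1.lam, a1, ← neg_one_smul F w1,
      transvec_smul l1.sw l1.lam]; simp)
  have k2 := congrArg (P.B · w1) k1
  have k3 := B_smul_smul g b1 w1
  rw [a1, map_neg] at k3
  simp only [l1.tv, map_add, map_sub, LinearMap.add_apply, LinearMap.sub_apply, B_smul_left,
    l1.sw.B_self] at k2
  exact (mul_eq_zero.1 (show 2 * P.B b1 w1 = 0 by linear_combination -k2 - k3)).resolve_left h2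

theorem n2b0_nf (h : P.Hyp e f) {φ : V} {a d : F} (l : Lf H e f w1 c b1) (o : P.EOk e φ d)
    (hH : P.eich e φ d * P.eich (a • e + w1) 0 c ∈ H) (h1 : P.B φ w1 = 0) :
    Nf H e {x | P.B x e = 0 ∧ P.B x φ = 0} (a • e + w1) c (P.eich e φ d) := by
  have hw := (mem_perp_pair.1 l.w_mem).1
  exact ⟨(h.left.smul a).add l.sw (by simp [B_swap_zero hw]), ⟨by simp [h.left.B_self, hw], by
    simp [B_swap_zero o.perp, B_swap_zero h1]⟩, l.lam, eich_mem_U _ _ _,
    fun y hy => o.eich_smul_of_perp₂ hy.1 hy.2, hH⟩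

theorem Nf.mono {S S' : Set V} {x : V} {z : P.Iso} (h : Nf H e S x c z) (hx : x ∈ S')
    (hS : S' ⊆ S) : Nf H e S' x c z :=
  ⟨h.sx, hx, h.lam, h.u, fun y hy => h.fix y (hS hy), h.lift⟩

theorem n2b0_B (h : P.Hyp e f) (h1 : w1 ∈ P.perp {e, f}) (h2 : w2 ∈ P.perp {e, f}) (a a' : F) :
    P.B (a • e + w1) (a' • e + w2) = P.B w1 w2 := by
  simp [h.left.B_self, (mem_perp_pair.1 h1).1, B_swap_zero (mem_perp_pair.1 h2).1]

theorem n2b_pair [Finite V] (hP : P.ND) (h : P.Hyp e f) (hQ : NoQ H) (h1 : Lf H e f w1 c b1)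
    (h2 : Lf H e f w2 c b2) (h12 : P.B w1 w2 ≠ 0) : ∃ (β : V) (ε s1 s2 : F), b1 = β + s1 • w1 ∧
      b2 = ε • β + s2 • w2 ∧ β ≠ 0 ∧ P.B β w1 = 0 ∧ P.B β w2 = 0 ∧ ε * ε = 1 ∧
      ((2 : F) = 0 ∧ ε = 1 ∨ (3 : F) = 0 ∧ ε = -(c * c * (P.B w1 w2 * P.B w2 w1))) := by
  have : FiniteDimensional F V := Module.Finite.of_finite
  have h21 := B_swap_ne h12
  obtain ⟨φ, s, e1, p1, p2⟩ : ∃ φ s, b1 = φ + s • w1 ∧ P.B φ w1 = 0 ∧ P.B φ w2 = 0 :=
    ⟨b1 - (P.B b1 w2 / P.B w1 w2) • w1, _, (sub_add_cancel _ _).symm,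
      by simp [n2b_perp h hQ h1 h2 h12, h1.sw.B_self], by simp [h12]⟩
  obtain ⟨ψ, t, e2, r1, r2⟩ : ∃ φ s, b2 = φ + s • w2 ∧ P.B φ w1 = 0 ∧ P.B φ w2 = 0 :=
    ⟨b2 - (P.B b2 w1 / P.B w2 w1) • w2, _, (sub_add_cancel _ _).symm, by simp [h21],
      by simp [n2b_perp h hQ h2 h1 h21, h2.sw.B_self]⟩
  have φ0 : φ ≠ 0 := by
    rintro rfl
    exact h1.not_mem hP h hQ (Submodule.mem_span_singleton.2 ⟨s, by simp [e1]⟩)
  have ψ0 : ψ ≠ 0 := by
    rintro rfl
    exact h2.not_mem hP h hQ (Submodule.mem_span_singleton.2 ⟨t, by simp [e2]⟩)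
  have φf : P.B φ f = 0 := by
    simpa [e1, (mem_perp_pair.1 h1.w_mem).2] using (mem_perp_pair.1 h1.b_mem).2
  have ψf : P.B ψ f = 0 := by
    simpa [e2, (mem_perp_pair.1 h2.w_mem).2] using (mem_perp_pair.1 h2.b_mem).2
  obtain ⟨a1, d1, o1, m1⟩ := h1.nf h e1 p1
  obtain ⟨a2, d2, o2, m2⟩ := h2.nf h e2 r2
  have n1 := (n2b0_nf h h1 o1 m1 p1).mono (S' := {a1 • e + w1, a2 • e + w2}) (by simp) (by
    rintro _ (rfl | rfl) <;> simp [h.left.B_self, (mem_perp_pair.1 h1.w_mem).1,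
      (mem_perp_pair.1 h2.w_mem).1, B_swap_zero o1.perp, B_swap_zero p1, B_swap_zero p2])
  have n2 := (n2b0_nf h h2 o2 m2 r2).mono (S' := {a1 • e + w1, a2 • e + w2}) (by simp) (by
    rintro _ (rfl | rfl) <;> simp [h.left.B_self, (mem_perp_pair.1 h1.w_mem).1,
      (mem_perp_pair.1 h2.w_mem).1, B_swap_zero o2.perp, B_swap_zero r1, B_swap_zero r2])
  obtain ⟨κ, hκ⟩ : ∃ κ, κ = c * c * (P.B w1 w2 * P.B w2 w1) := ⟨_, rfl⟩
  have κ0 : κ ≠ 0 := hκ ▸ mul_ne_zero (mul_ne_zero h1.c0 h1.c0) (mul_ne_zero h12 h21)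
  have B1 := n2b0_B h h1.w_mem h2.w_mem a1 a2
  have B2 := n2b0_B h h2.w_mem h1.w_mem a2 a1
  have inj : ∀ {u : V} {d : F}, P.EOk e u d → P.B u f = 0 → P.eich e φ d1 * P.eich e u d = 1 →
      φ + u = 0 := fun o hu h0 => by
    rw [o1.eich_mul o, ← eich_zero e] at h0
    exact (h.eich_inj (o1.add o) (by simp [φf, hu]) (EOk.zero h.left) (by simp) h0).1
  have R1 : κ ≠ -4 → φ + ψ = 0 := fun h4 =>
    inj o2 ψf (n1.rel h hQ n2 (by rwa [B1, B2, ← hκ]) (by rwa [B1, B2, ← hκ]))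
  have R2 : κ ≠ 4 → φ + -ψ = 0 := fun h4 => inj o2.neg (by simp [ψf]) (by
    rw [← o2.eich_inv]
    exact n1.rel h hQ n2.inv (by rwa [B1, B2, mul_neg, neg_mul, ← hκ, neg_ne_zero])
      (by rwa [B1, B2, mul_neg, neg_mul, ← hκ, neg_inj.ne]))
  have R3 : (2 : F) ≠ 0 → κ ≠ -2 → φ + (ψ + ψ) = 0 := fun h0 h4 =>
    inj (o2.add o2) (by simp [ψf]) (by
      rw [← o2.eich_mul o2]
      refine n1.rel h hQ (n2.mul n2) (fun k => mul_ne_zero h0 κ0 ?_)
        fun k => mul_ne_zero h0 (sub_ne_zero.2 h4) ?_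
      · rw [B1, B2] at k; linear_combination k + 2 * hκ
      · rw [B1, B2] at k; linear_combination k + 2 * hκ)
  by_cases t2 : (2 : F) = 0
  · refine ⟨φ, 1, s, t, e1, ?_, φ0, p1, p2, one_mul _, Or.inl ⟨t2, rfl⟩⟩
    rw [one_smul, add_neg_eq_zero.1 (R2 fun k => κ0 (by linear_combination k + 2 * t2)), e2]
  have R12 : κ = -4 ∨ κ = 4 := by
    by_contra k
    push Not at k
    exact smul_ne_zero t2 ψ0 (by linear_combination (norm := module) R1 k.1 - R2 k.2)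
  by_cases t3 : (3 : F) = 0
  · rcases R12 with k | k
    · refine ⟨φ, 1, s, t, e1, ?_, φ0, p1, p2, one_mul _, Or.inr ⟨t3, by
        linear_combination -hκ + k - t3⟩⟩
      rw [one_smul, add_neg_eq_zero.1 (R2 fun k' => t2 (by linear_combination k - k' - 2 * t3)), e2]
    · refine ⟨φ, -1, s, t, e1, ?_, φ0, p1, p2, by ring, Or.inr ⟨t3, by
        linear_combination -hκ + k + t3⟩⟩
      rw [neg_one_smul, neg_eq_of_add_eq_zero_right
        (R1 fun k' => t2 (by linear_combination k' - k - 2 * t3)), e2]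
  · exfalso
    have t8 : (2 * 2 * 2 : F) ≠ 0 := mul_ne_zero (mul_ne_zero t2 t2) t2
    rcases R12 with k | k
    · exact smul_ne_zero t3 ψ0 (by
        linear_combination (norm := module) R3 t2 (fun k' => t2 (by linear_combination k - k')) -
          R2 fun k' => t8 (by linear_combination k - k'))
    · exact ψ0 (by
        linear_combination (norm := module) R3 t2 (fun k' => mul_ne_zero t2 t3
          (by linear_combination k' - k)) - R1 fun k' => t8 (by linear_combination k' - k))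

theorem n2b_clique [Finite V] (hP : P.ND) (h : P.Hyp e f) (hQ : NoQ H) (h1 : Lf H e f w1 c b1)
    (h2 : Lf H e f w2 c b2) (h3 : Lf H e f w3 c b3) (h12 : P.B w1 w2 ≠ 0) (h13 : P.B w1 w3 ≠ 0)
    (h23 : P.B w2 w3 = 0) : w3 ∈ F ∙ w2 := by
  have : FiniteDimensional F V := Module.Finite.of_finite
  by_contra hn
  obtain ⟨β, ε, s1, s2, e1, e2, -, p1, p2, hε, k⟩ := n2b_pair hP h hQ h1 h2 h12
  obtain ⟨β', ε', s1', s3, e1', e3, -, -, p3', hε', k'⟩ := n2b_pair hP h hQ h1 h3 h13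
  have p3 : P.B β w3 = 0 := by
    simpa [e2, h23, left_ne_zero_of_mul_eq_one hε] using h2.comm h hQ h3 h23 hn
  obtain rfl : β = β' := by
    have k1 := congrArg (P.B · w3) (e1.symm.trans e1')
    simp only [map_add, LinearMap.add_apply, B_smul_left, p3, p3', zero_add] at k1
    rw [mul_right_cancel₀ h13 k1] at e1
    exact add_right_cancel (e1.symm.trans e1')
  obtain ⟨a1, d1, o1, m1⟩ := h1.nf h e1 p1
  obtain ⟨a2, d2, o2, m2⟩ := h2.nf h e2 (by simp [p2])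
  obtain ⟨a3, d3, o3, m3⟩ := h3.nf h e3 (by simp [p3])
  have n1 := n2b0_nf h h1 o1 m1 p1
  have mem : ∀ (a : F) {w : V}, w ∈ P.perp {e, f} → P.B β w = 0 →
      a • e + w ∈ {x | P.B x e = 0 ∧ P.B x β = 0} := fun a w hw hβ => by
    simp [h.left.B_self, (mem_perp_pair.1 hw).1, B_swap_zero o1.perp, B_swap_zero hβ]
  obtain ⟨z2, n2⟩ := ((n2b0_nf h h2 o2 m2 (by simp [p2])).mono (mem a2 h2.w_mem p2)
    fun x hx => ⟨hx.1, by simp [hx.2]⟩).sign (ε := -ε) (by rwa [neg_mul_neg])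
  obtain ⟨z3, n3⟩ := ((n2b0_nf h h3 o3 m3 (by simp [p3])).mono (mem a3 h3.w_mem p3)
    fun x hx => ⟨hx.1, by simp [hx.2]⟩).sign (ε := -ε') (by rwa [neg_mul_neg])
  have good : ∀ {ε N : F}, ε * ε = 1 → N ≠ 0 →
      ((2 : F) = 0 ∧ ε = 1 ∨ (3 : F) = 0 ∧ ε = -(c * c * N)) →
      c * (-ε * c) * N ≠ 0 ∧ c * (-ε * c) * N ≠ -4 := fun {ε N} hε hN k => by
    have k0 : c * (-ε * c) * N ≠ 0 := mul_ne_zero (mul_ne_zero h1.c0 (mul_ne_zero
      (neg_ne_zero.2 (left_ne_zero_of_mul_eq_one hε)) h1.c0)) hN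
    refine ⟨k0, fun k4 => ?_⟩
    rcases k with ⟨t, -⟩ | ⟨t, k⟩
    · exact k0 (by linear_combination k4 - 2 * t)
    · exact one_ne_zero (α := F) (by linear_combination -k4 + hε - ε * k + 2 * t)
  have g2 := good hε (mul_ne_zero h12 (B_swap_ne h12)) k
  have g3 := good hε' (mul_ne_zero h13 (B_swap_ne h13)) k'
  rw [← n2b0_B h h1.w_mem h2.w_mem a1 a2, ← n2b0_B h h2.w_mem h1.w_mem a2 a1] at g2
  rw [← n2b0_B h h1.w_mem h3.w_mem a1 a3, ← n2b0_B h h3.w_mem h1.w_mem a3 a1] at g3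
  obtain rfl : z2 = z3 :=
    mul_left_cancel ((n1.rel h hQ n2 g2.1 g2.2).trans (n1.rel h hQ n3 g3.1 g3.2).symm)
  have k1 := mul_mem (inv_mem n2.lift) n3.lift
  rw [mul_inv_rev, mul_assoc, inv_mul_cancel_left, transvec_inv n2.sx n2.lam] at k1
  have hf : ∀ (a : F) {w : V}, w ∈ P.perp {e, f} → P.B (a • e + w) f = a := fun a w hw => by
    simp [h.pair, (mem_perp_pair.1 hw).2]
  refine lift_E hP hQ n2.sx n3.sx (by rw [n2b0_B h h3.w_mem h2.w_mem, B_swap_zero h23])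
    (fun h0 => h12 (by rw [← n2b0_B h h1.w_mem h2.w_mem a1 a2, h0, map_zero])) (fun h0 => hn ?_)
    (s := 0) n3.lam (mul_ne_zero (neg_ne_zero.2 (left_ne_zero_of_mul_eq_one hε')) h1.c0)
    (neg_mem n2.lam) (by rwa [zero_smul])
  obtain ⟨t, ht⟩ := Submodule.mem_span_singleton.1 h0
  have k2 := congrArg (P.B · f) ht
  simp only [B_smul_left, hf _ h2.w_mem, hf _ h3.w_mem] at k2
  rw [smul_add, smul_smul, k2, add_right_inj] at ht
  exact Submodule.mem_span_singleton.2 ⟨t, ht⟩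

end

end Cfsg.Agent.UR
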