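import Cfsg.Agent.UR.N2bT
import Cfsg.Agent.UR.N2s
import Cfsg.Agent.UR.N2f

/-! Rank three actions of unitary groups: the residue contains a transvection. -/

set_option autoImplicit false
set_option linter.unusedSectionVars false

namespace Cfsg.Agent.UR

open Module MulAction Submodule Cfsg.Agent.Forms Cfsg.Agent.Polar Cfsg.Agent.Polar.PQ

variable {F : Type*} [Field F] [Fintype F] {q : ℕ} {hF : Fintype.card F = q ^ 2}
  {V : Type*} [AddCommGroup V] [Module F V] [Finite V] {P : PQ (uFP hF) V} {n : ℕ}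
  {X : Type*} [Finite X] [MulAction P.EG X] {x : X}

theorem n2_U_triv {e : V} (he : ¬ (P.Sing e ∧ e ≠ 0)) {y : P.Iso} (hy : y ∈ P.U e) : y = 1 := iso_ext fun z => by
  obtain ⟨h1, h2⟩ := mem_U.1 hy
  by_cases e0 : e = 0
  · obtain ⟨a, h⟩ := h2 z (by simp [e0])
    simpa [e0] using h
  have hs : P.B e e ≠ 0 := fun h => he ⟨u_sing_iff.2 h, e0⟩
  have k : P.B (z - (P.B z e / P.B e e) • e) e = 0 := by simp [hs]
  obtain ⟨a, h⟩ := h2 _ k
  have := B_smul_smul y (z - (P.B z e / P.B e e) • e) e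
  rw [h, h1, map_add, LinearMap.add_apply, k, B_smul_left, zero_add, mul_eq_zero, or_iff_left hs] at this
  rw [this, zero_smul, add_zero, smul_sub, act_smul, h1] at h
  simpa using h

theorem n2_of (hP : P.ND) (hn : finrank F V = n) (h6 : 6 ≤ n) (hq : 3 ≤ q) (R : Rk3 P x) (hQ : NoQ (Hx P x))
    (hT : PtTr (Hx P x)) (I : ∀ e f c, P.Hyp e f → N2I (Hx P x) e f c) (hc : ∃ u w, Cen (Hx P x) u w) : False := by
  obtain ⟨e, w, hc⟩ := hc
  by_cases he : P.Sing e ∧ e ≠ 0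
  · obtain ⟨f, h⟩ := hP.exists_hyp he.1 he.2
    obtain ⟨c, b, l⟩ := lf_of_cen h hc
    by_cases hp : ∀ w1 ∈ Tc (Hx P x) e f c, ∀ w2 ∈ Tc (Hx P x) e f c, P.B w1 w2 = 0
    · have := n2as hP hn h6 hQ hT h l hp
      exact n2_fin hP hn h6 hq R hQ hT h l.lam l.c0 this.1 this.2
    · push Not at hp
      obtain ⟨w1, h1, w2, h2, h12⟩ := hp
      have := (I e f c h).main hP hn h6 hQ h h1 h2 h12
      exact n2_fin hP hn h6 hq R hQ hT h l.lam l.c0 this.1 this.2
  · obtain ⟨h1, -, h3, c, h4, h5, y, hy, h7⟩ := hc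
    rw [n2_U_triv he hy, mul_one] at h7
    exact hQ.noTv hP w ⟨h1, n1_ne h3, c, h4, h5, h7⟩

end Cfsg.Agent.UR
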