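import Cfsg.Agent.UR.BL

/-! The unitary polar space of dimension six has no spread of planes. -/

set_option autoImplicit false
set_option linter.unusedSectionVars false

namespace Cfsg.Agent.UR

open Module MulAction Submodule Cfsg.Agent.Forms Cfsg.Agent.Polar Cfsg.Agent.Polar.PQ

variable {F : Type*} [Field F] [Fintype F] {q : ℕ} {hF : Fintype.card F = q ^ 2}
variable {V : Type*} [AddCommGroup V] [Module F V] [Finite V] {P : PQ (uFP hF) V}

theorem n2s_perp (hP : P.ND) (h6 : finrank F V = 6) {π : Submodule F V} (hπ : P.TotSing π)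
    (h3 : finrank F π = 3) : P.perp π = π :=
  have : FiniteDimensional F V := Module.Finite.of_finite
  hπ.perp_eq hP (by omega)

/-- the line of a plane orthogonal to a vector outside -/
theorem n2s_line (hP : P.ND) (h6 : finrank F V = 6) {π : Submodule F V} (hπ : P.TotSing π)
    (h3 : finrank F π = 3) {y : V} (hy : y ∉ π) : ∃ ℓ : Submodule F V, P.TotSing ℓ ∧ finrank F ℓ = 2 ∧
      (∀ a, a ∈ ℓ ↔ a ∈ π ∧ P.B a y = 0) ∧ P.perp ℓ = π ⊔ F ∙ y := by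
  have : FiniteDimensional F V := Module.Finite.of_finite
  have h1 := finrank_perp hP (π ⊔ F ∙ y)
  rw [finrank_sup_span_singleton hy] at h1
  have h2 : ∀ a, a ∈ P.perp ((π ⊔ F ∙ y : Submodule F V) : Set V) ↔ a ∈ π ∧ P.B a y = 0 := fun a =>
    ⟨fun h => ⟨(n2s_perp hP h6 hπ h3).le fun z hz => h z (mem_sup_left hz),
      h y (mem_sup_right (mem_span_singleton_self y))⟩, fun h z hz => by
      obtain ⟨u, hu, w, hw, rfl⟩ := mem_sup.1 hz
      obtain ⟨t, rfl⟩ := mem_span_singleton.1 hw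
      rw [map_add, hπ.perp a h.1 u hu, B_smul_right, h.2, mul_zero, add_zero]⟩
  exact ⟨_, ⟨fun x hx => hπ.sing x ((h2 x).1 hx).1,
    fun x hx z hz => hπ.perp x ((h2 x).1 hx).1 z ((h2 z).1 hz).1⟩, by omega, h2, perp_perp hP _⟩

theorem n2s_ar {q s : ℕ} (hq : 2 ≤ q) (a b : ℕ) (h1 : Iq q 6 = a * s) (ha : a + 1 = (q ^ 2) ^ 3)
    (h2 : b = (q ^ 2 + 1) * (q ^ 2 - 1) * a) (h3 : b = Iq q 3 * (s - 1 - 1)) : False := by
  simp only [Iq, show Even 6 by decide, show ¬ Even 3 by decide, if_true, if_false] at h1 h3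
  have k1 : 1 < q ^ 6 := Nat.one_lt_pow (by omega) hq
  have k2 : 1 < q ^ 2 := Nat.one_lt_pow (by omega) hq
  have k5 : 1 < q ^ 5 := Nat.one_lt_pow (by omega) hq
  obtain rfl : a = q ^ 6 - 1 := by rw [← pow_mul, show 2 * 3 = 6 from rfl] at ha; omega
  obtain rfl : s = q ^ 5 + 1 := (Nat.eq_of_mul_eq_mul_left (by omega) h1).symm
  rw [h2, Nat.add_sub_cancel] at h3
  zify [k1.le, k2.le, k5.le] at h3
  have k3 : ((q : ℤ) ^ 3 + 1) * (q ^ 2 - 1) * (q ^ 2 * (q - 1)) = 0 := by linear_combination h3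
  have k4 : (2 : ℤ) ≤ q := by exact_mod_cast hq
  have : (0 : ℤ) < (q ^ 3 + 1) * (q ^ 2 - 1) * (q ^ 2 * (q - 1)) :=
    mul_pos (mul_pos (by positivity) (by nlinarith)) (mul_pos (by positivity) (by omega))
  omega

theorem n2s_spread (hP : P.ND) (h6 : finrank F V = 6) (S : Set (Submodule F V))
    (h1 : ∀ π ∈ S, P.TotSing π ∧ finrank F π = 3) (hc : ∀ x, P.Sing x → x ≠ 0 → ∃ π ∈ S, x ∈ π)
    (hd : ∀ π ∈ S, ∀ ρ ∈ S, ∀ x ∈ π, x ∈ ρ → x ≠ 0 → π = ρ) : False := by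
  have : FiniteDimensional F V := Module.Finite.of_finite
  have : Finite (Submodule F V) := Finite.of_injective _ SetLike.coe_injective
  choose! f f1 f2 using hc
  have f3 : ∀ π ∈ S, ∀ x ∈ π, x ≠ 0 → f x = π := fun π hπ x hx x0 =>
    hd _ (f1 x ((h1 π hπ).1.sing x hx) x0) π hπ x (f2 x ((h1 π hπ).1.sing x hx) x0) hx x0
  obtain ⟨e, -, e0, he⟩ := u_iso (P := P) ⊤ (by rw [finrank_top]; omega)
  obtain ⟨e', he'⟩ := hP.exists_hyp he e0
  have m0 := f1 e he e0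
  have m1 := f1 e' he'.right he'.right_ne_zero
  have ne : f e ≠ f e' := fun h => one_ne_zero (he'.pair.symm.trans
    ((h1 _ m0).1.perp _ (f2 e he e0) _ (h ▸ f2 e' he'.right he'.right_ne_zero)))
  generalize f e = π0 at m0 ne
  generalize f e' = π1 at m1 ne
  obtain ⟨t0, d0⟩ := h1 _ m0
  obtain ⟨t1, d1⟩ := h1 _ m1
  have dj : ∀ π ∈ S, ∀ ρ ∈ S, π ≠ ρ → ∀ x ∈ π, x ∈ ρ → x = 0 := fun π a ρ b c x d e =>
    by_contra fun h => c (hd π a ρ b x d e h)
  have hdj : Disjoint π0 π1 := disjoint_def.2 (dj _ m0 _ m1 ne)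
  have hC : IsCompl π0 π1 := ⟨hdj, codisjoint_iff.2 (eq_top_of_disjoint _ _ (by omega) hdj)⟩
  let p := π0.projection π1 hC
  have p0 : ∀ z, p z ∈ π0 := projection_apply_mem hC
  have p1 : ∀ z, z - p z ∈ π1 := sub_projection_mem hC
  let A : Set V := {z | z ∉ π0 ∧ z ∉ π1 ∧ P.B (p z) z = 0}
  have sA : ∀ z ∈ A, P.Sing z ∧ z ≠ 0 := fun z hz => ⟨by
    have k1 := t1.perp _ (p1 z) _ (p1 z)
    simp only [map_sub, LinearMap.sub_apply, hz.2.2, B_swap_zero hz.2.2, t0.perp _ (p0 z) _ (p0 z)] at k1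
    exact u_sing_iff.2 (by simpa using k1), fun h => hz.1 (h ▸ zero_mem _)⟩
  refine n2s_ar (s := S.ncard) (two_le_q hF) (P.sing0 π0).ncard A.ncard ?_ ?_ ?_ ?_
  · rw [← ncard_sing0 hP h6 (by omega)]
    refine ncard_eq_mul_of_fiber (Set.toFinite _) (Set.toFinite _) f (fun a ha => f1 a ha.2.2 ha.2.1)
      fun π hπ => Nat.add_right_cancel (m := 1) ?_
    rw [t0.ncard_sing0, d0, ← (h1 π hπ).2, ← (h1 π hπ).1.ncard_sing0]
    congr 2
    ext x
    exact ⟨fun h => ⟨h.2 ▸ f2 x h.1.2.2 h.1.2.1, h.1.2⟩, fun h => ⟨⟨trivial, h.2⟩, f3 π hπ x h.1 h.2.1⟩⟩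
  · rw [t0.ncard_sing0, d0, u_card hF]
  · refine ncard_eq_mul_of_fiber (t := P.sing0 π0) (Set.toFinite _) (Set.toFinite _) p
      (fun a ha => ⟨p0 a, fun h => ha.2.1 (by simpa [h] using p1 a), t0.sing _ (p0 a)⟩) fun x hx => ?_
    obtain ⟨ℓ, l1, l2, l3, -⟩ := n2s_line hP h6 t1 d1 fun h => hx.2.1 (dj _ m0 _ m1 ne x hx.1 h)
    rw [← bl_ncard_sing0 ℓ l1 l2, ← Set.ncard_image_of_injective (P.sing0 ℓ) (add_right_injective x)]
    congr 1
    ext z
    constructor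
    · rintro ⟨hz, rfl⟩
      exact ⟨z - p z, ⟨(l3 _).2 ⟨p1 z, by simp [B_swap_zero hz.2.2, t0.perp _ (p0 z) _ (p0 z)]⟩,
        fun h => hz.1 (sub_eq_zero.1 h ▸ p0 z), t1.sing _ (p1 z)⟩, by simp⟩
    · rintro ⟨y, ⟨y1, y0, -⟩, rfl⟩
      obtain ⟨y2, y3⟩ := (l3 y).1 y1
      have k : p (x + y) = x := by
        rw [map_add, show p x = x from projection_apply_left hC ⟨x, hx.1⟩,
          show p y = 0 from projection_apply_right hC ⟨y, y2⟩, add_zero]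
      refine ⟨⟨fun h => y0 (dj _ m0 _ m1 ne y (by simpa using sub_mem h hx.1) y2),
        fun h => hx.2.1 (dj _ m0 _ m1 ne x hx.1 (by simpa using sub_mem h y2)), ?_⟩, k⟩
      simp [k, B_swap_zero y3, u_sing_iff.1 hx.2.2]
  · rw [← Set.ncard_sdiff_singleton_of_mem m0,
      ← Set.ncard_sdiff_singleton_of_mem (s := S \ {π0}) (a := π1) ⟨m1, ne.symm⟩]
    refine ncard_eq_mul_of_fiber (Set.toFinite _) (Set.toFinite _) f (fun a ha => ?_) fun π hπ => ?_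
    · have k := f2 a (sA a ha).1 (sA a ha).2
      exact ⟨⟨f1 a (sA a ha).1 (sA a ha).2, fun h => ha.1 (h ▸ k)⟩, fun h => ha.2.1 (h ▸ k)⟩
    obtain ⟨⟨m, n0⟩, n1⟩ := hπ
    obtain ⟨t, d⟩ := h1 π m
    obtain ⟨c, hc, c0⟩ := u_exists_lam hF
    let P' : PQ (uFP hF) π := ofHerm hF (c • ((P.B ∘ₗ p).domRestrict₁₂ π π)) fun x y => by
      change c * P.B (p y) x = frobq hF (c * P.B (p x) y)
      have k1 := t1.perp _ (p1 y) _ (p1 x)
      simp only [map_sub, LinearMap.sub_apply, t.perp _ y.2 _ x.2, t0.perp _ (p0 y) _ (p0 x)] at k1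
      rw [map_mul, u_lam_tau hc, ← u_swap]
      linear_combination (-c) * k1
    have hB : ∀ x y : π, P'.B x y = c * P.B (p x) y := fun _ _ => rfl
    have hP' : P'.ND := fun x hx => by
      have k : p x ∈ π := (n2s_perp hP h6 t d).le fun z hz => by simpa [hB, c0] using hx ⟨z, hz⟩
      exact Subtype.ext (dj _ m _ m1 n1 _ x.2 (by simpa [dj _ m _ m0 n0 _ k (p0 x)] using p1 x))
    rw [← ncard_sing0 hP' d (by omega), ← Set.ncard_image_of_injective _ Subtype.val_injective]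
    congr 1
    ext z
    constructor
    · rintro ⟨hz, rfl⟩
      exact ⟨⟨z, f2 z (sA z hz).1 (sA z hz).2⟩, ⟨trivial, fun h => (sA z hz).2 (congrArg Subtype.val h),
        u_sing_iff.2 (by rw [hB, hz.2.2, mul_zero])⟩, rfl⟩
    · rintro ⟨y, ⟨-, y0, hy⟩, rfl⟩
      have y1 : y.1 ≠ 0 := fun h => y0 (Subtype.ext h)
      exact ⟨⟨fun h => y1 (dj _ m _ m0 n0 _ y.2 h), fun h => y1 (dj _ m _ m1 n1 _ y.2 h),
        by simpa [hB, c0] using u_sing_iff.1 hy⟩, f3 π m _ y.2 y1⟩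

end Cfsg.Agent.UR
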