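import Mathlib

/-! Rank three actions of unitary groups: the arithmetic of the last case. -/

set_option autoImplicit false

namespace Cfsg.Agent.UR

theorem n3ar_dvd {m x : ℤ} (h : ((m : ZMod m.natAbs) = 0 → (x : ZMod m.natAbs) = 0)) : m ∣ x :=
  Int.natAbs_dvd.1 ((ZMod.intCast_zmod_eq_zero_iff_dvd _ _).1
    (h ((ZMod.intCast_zmod_eq_zero_iff_dvd _ _).2 (Int.natAbs_dvd.2 dvd_rfl))))

theorem n3ar_zero {m x : ℤ} (h : m ∣ x) (h1 : -m < x) (h2 : x < m) : x = 0 :=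
  Int.eq_zero_of_abs_lt_dvd h (abs_lt.2 ⟨h1, h2⟩)

section
variable {q y ε k l m c t s T : ℤ}

/-- the congruence `1 + k + l ≡ 0` modulo `y ^ 3` -/
theorem n3ar_core (he : ε * ε = 1) (hk : k * m * (q + 1) = (q ^ 2 * y - ε) * (q * y + ε))
    (hl : l * c * ((q + 1) ^ 2 * (q - 1)) = (q ^ 2 * y - ε) * (q * y + ε) * ((y - ε) * (y + ε * q)))
    (hv : y ^ 3 * t = 1 + k + l) : ∃ s T : ℤ,
    c * (q ^ 2 - 1) * (m * (q + 1) - 1) + m * q + ε * y * ((q - 1) * (c * q * (q ^ 2 - 1) - m * (q ^ 2 + 1))) =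
      y ^ 2 * s ∧ s + (c * q ^ 3 * (q ^ 2 - 1) + m * (-q ^ 4 + q ^ 3 - 2 * q ^ 2 + q - 1)) = y * T := by
  refine ⟨_, m * c * ((q + 1) ^ 2 * (q - 1)) * t - ε * m * q * (q - 1) * (q ^ 2 + 1) - y * m * q ^ 3, ?_,
    sub_add_cancel _ _⟩
  rcases Int.eq_one_or_neg_one_of_mul_eq_one he with rfl | rfl <;>
  linear_combination (-(m * c * ((q + 1) ^ 2 * (q - 1)))) * hv - c * (q ^ 2 - 1) * hk - m * hl

theorem n3ar_E (hq : 3 ≤ q) (h1 : 1 ≤ m) (h2 : m ≤ q ^ 2) (h3 : 1 ≤ c) (h4 : c ≤ q ^ 2) :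
    0 < c * (q ^ 2 - 1) * (m * (q + 1) - 1) + m * q ∧
    c * (q ^ 2 - 1) * (m * (q + 1) - 1) + m * q ≤ (q + 1) * q ^ 6 ∧
    (q - 1) * (c * q * (q ^ 2 - 1) - m * (q ^ 2 + 1)) ≤ q ^ 6 - q ^ 5 - q ^ 4 + q ^ 3 ∧
    -(q ^ 5 - q ^ 4 + q ^ 3 - q ^ 2) ≤ (q - 1) * (c * q * (q ^ 2 - 1) - m * (q ^ 2 + 1)) := by
  have a1 : 0 < q ^ 2 - 1 := by nlinarith
  have a2 : 0 < m * (q + 1) - 1 := by nlinarith
  have a3 : 0 < q - 1 := by omega
  have a4 : 0 < q := by omega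
  refine ⟨by positivity, ?_, ?_, ?_⟩
  · have b1 : c * (q ^ 2 - 1) * (m * (q + 1) - 1) ≤ q ^ 2 * (q ^ 2 - 1) * (q ^ 2 * (q + 1)) := by
      gcongr; nlinarith
    have b2 : m * q ≤ q ^ 2 * q := by gcongr
    nlinarith [pow_pos a4 3, pow_pos a4 4, pow_pos a4 5, mul_pos (pow_pos a4 3) a3]
  · have b1 : (q - 1) * (c * q * (q ^ 2 - 1)) ≤ (q - 1) * (q ^ 2 * q * (q ^ 2 - 1)) := by gcongr
    have b2 : 0 ≤ (q - 1) * (m * (q ^ 2 + 1)) := by positivity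
    nlinarith
  · have b1 : (q - 1) * (m * (q ^ 2 + 1)) ≤ (q - 1) * (q ^ 2 * (q ^ 2 + 1)) := by gcongr
    have b2 : 0 ≤ (q - 1) * (c * q * (q ^ 2 - 1)) := by positivity
    nlinarith

theorem n3ar_big (hq : 3 ≤ q) (he : ε * ε = 1) (hy : q ^ 6 ≤ y) (hd : q ∣ y) (h0 : ¬ q ∣ m) (h1 : 1 ≤ m)
    (h2 : m ≤ q ^ 2) (h3 : 1 ≤ c) (h4 : c ≤ q ^ 2)
    (e1 : c * (q ^ 2 - 1) * (m * (q + 1) - 1) + m * q +
      ε * y * ((q - 1) * (c * q * (q ^ 2 - 1) - m * (q ^ 2 + 1))) = y ^ 2 * s)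
    (e2 : s + (c * q ^ 3 * (q ^ 2 - 1) + m * (-q ^ 4 + q ^ 3 - 2 * q ^ 2 + q - 1)) = y * T) : False := by
  obtain ⟨b1, b2, b3, b4⟩ := n3ar_E hq h1 h2 h3 h4
  generalize c * (q ^ 2 - 1) * (m * (q + 1) - 1) + m * q = E at *
  generalize (q - 1) * (c * q * (q ^ 2 - 1) - m * (q ^ 2 + 1)) = u at *
  have a4 : 0 < q := by omega
  have y0 : 0 < y := (pow_pos a4 6).trans_le hy
  have a5 : q ^ 5 + q ^ 5 + q ^ 5 ≤ q ^ 6 := by nlinarith [pow_pos a4 5]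
  have a6 : q ^ 3 ≤ q ^ 4 := pow_le_pow_right₀ (by omega) (by omega)
  have a7 : q + 1 < q ^ 5 := by nlinarith [pow_le_pow_right₀ (show 1 ≤ q by omega) (show 2 ≤ 5 by omega)]
  have a8 : |ε * u| + (q + 1) < y := by
    have : |ε * u| = |u| := by rcases Int.eq_one_or_neg_one_of_mul_eq_one he with rfl | rfl <;> simp
    rw [this, ← lt_sub_iff_add_lt, abs_lt]
    constructor <;> nlinarith [pow_pos a4 2]
  obtain ⟨a9, a10⟩ := abs_lt.1 (lt_sub_iff_add_lt.2 a8)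
  have b5 : E ≤ (q + 1) * y := b2.trans (by gcongr)
  have : y ^ 2 * s = 0 := n3ar_zero (dvd_mul_right _ _) (by nlinarith) (by nlinarith)
  obtain rfl : s = 0 := by simpa [y0.ne'] using this
  obtain ⟨z, rfl⟩ := hd
  exact h0 ⟨c * q ^ 2 * (q ^ 2 - 1) + m * (-q ^ 3 + q ^ 2 - 2 * q + 1) - z * T, by linear_combination -e2⟩

theorem n3ar_seven (hq : 3 ≤ q) (h1 : 1 ≤ m) (h2 : m ≤ q ^ 2) (h3 : 1 ≤ c) (h4 : c ≤ q ^ 2)
    (e1 : c * (q ^ 2 - 1) * (m * (q + 1) - 1) + m * q +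
      -1 * q ^ 5 * ((q - 1) * (c * q * (q ^ 2 - 1) - m * (q ^ 2 + 1))) = (q ^ 5) ^ 2 * s)
    (e2 : s + (c * q ^ 3 * (q ^ 2 - 1) + m * (-q ^ 4 + q ^ 3 - 2 * q ^ 2 + q - 1)) = q ^ 5 * T) : False := by
  obtain ⟨b1, b2, b3, b4⟩ := n3ar_E hq h1 h2 h3 h4
  have a4 : 0 < q := by omega
  have a5 : 0 < q ^ 5 := pow_pos a4 5
  have a6 : q ^ 3 + q < q ^ 4 := by
    nlinarith [pow_pos a4 3, pow_le_pow_right₀ (show 1 ≤ q by omega) (show 1 ≤ 3 by omega)]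
  have s1 : s < 1 := by
    refine lt_of_mul_lt_mul_left (a := (q ^ 5) ^ 2) ?_ (by positivity)
    nlinarith [mul_le_mul_of_nonneg_left b4 a5.le, mul_lt_mul_of_pos_left a6 a5]
  have s2 : 1 - q < s := by
    refine lt_of_mul_lt_mul_left (a := (q ^ 5) ^ 2) ?_ (by positivity)
    nlinarith [mul_le_mul_of_nonneg_left b3 a5.le, mul_lt_mul_of_pos_left a6 a5, pow_pos a4 6]
  have d1 : q ^ 2 ∣ m - s * (q + 1) - q ^ 2 :=
    ⟨(q + 1) * (c * q * (q ^ 2 - 1) - q ^ 3 * T) - m * (q ^ 3 + q + 1) - 1, by linear_combination (-(q + 1)) * e2⟩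
  obtain rfl : m = q ^ 2 + s * (q + 1) := by
    have := n3ar_zero d1 (by nlinarith) (by nlinarith)
    linarith
  have e3 : c * q * (q ^ 2 - 1) - s * (q ^ 3 + q + 1) - q ^ 4 + q ^ 3 - 2 * q ^ 2 + q - 1 = q ^ 3 * T :=
    mul_left_cancel₀ (pow_pos a4 2).ne' (by linear_combination e2)
  obtain rfl : s = -1 := by
    have := n3ar_zero (m := q) (x := s + 1) ⟨c * (q ^ 2 - 1) - s * (q ^ 2 + 1) - q ^ 3 + q ^ 2 - 2 * q + 1 - q ^ 2 * T,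
      by linear_combination -e3⟩ (by omega) (by omega)
    omega
  have e4 : c = 2 - 2 * q + q ^ 2 * (c + 2 - q - T) := mul_left_cancel₀ a4.ne' (by linear_combination -e3)
  generalize c + 2 - q - T = j at e4
  subst e4
  have d2 : q ∣ 4 := n3ar_dvd fun h => by
    have := congrArg (Int.cast : ℤ → ZMod q.natAbs) e1
    push_cast at this ⊢
    rw [h] at this
    linear_combination this
  obtain rfl : q = 4 := by
    have := Int.le_of_dvd (by omega) d2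
    interval_cases q <;> omega
  omega

theorem n3ar_six (hq : 3 ≤ q) (h1 : 1 ≤ m) (h2 : m ^ 2 < c * q ^ 2) (h4 : c ≤ q ^ 3)
    (e1 : c * (q ^ 2 - 1) * (m * (q + 1) - 1) + m * q +
      1 * q ^ 4 * ((q - 1) * (c * q * (q ^ 2 - 1) - m * (q ^ 2 + 1))) = (q ^ 4) ^ 2 * s)
    (e2 : s + (c * q ^ 3 * (q ^ 2 - 1) + m * (-q ^ 4 + q ^ 3 - 2 * q ^ 2 + q - 1)) = q ^ 4 * T) : False := by
  have a4 : 0 < q := by omega
  have c0 : 0 < c := pos_of_mul_pos_left (lt_of_le_of_lt (sq_nonneg m) h2) (pow_pos a4 2).le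
  obtain ⟨σ, hσ⟩ : q * (q - 1) ∣ s - m := by
    refine IsCoprime.mul_dvd ⟨1, -1, by ring⟩ ⟨q ^ 3 * T - c * q ^ 2 * (q ^ 2 - 1) - m * (-q ^ 3 + q ^ 2 - 2 * q + 1),
      by linear_combination e2⟩ (n3ar_dvd fun h => ?_)
    have := congrArg (Int.cast : ℤ → ZMod (q - 1).natAbs) e1
    push_cast at this h ⊢
    rw [sub_eq_zero.1 h] at this
    linear_combination -this
  obtain rfl : s = m + q * (q - 1) * σ := by linear_combination hσ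
  have e3 : c * (q + 1) * (m * (q + 1) - 1 + q ^ 5 * (q - 1)) -
      m * (q ^ 7 + 2 * q ^ 6 + q ^ 5 + 2 * q ^ 4 + q ^ 3 + q ^ 2 + q) = q ^ 9 * σ :=
    mul_left_cancel₀ (show q - 1 ≠ 0 by omega) (by linear_combination e1)
  have e5 : (q - 1) * σ + c * q ^ 2 * (q ^ 2 - 1) + m * (-q ^ 3 + q ^ 2 - 2 * q + 1) = q ^ 3 * T :=
    mul_left_cancel₀ a4.ne' (by linear_combination e2)
  have d1 : q ^ 2 * (q + 1) ∣ m - σ * (q ^ 2 + q + 1) := by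
    refine IsCoprime.mul_dvd ⟨1, 1 - q, by ring⟩ ⟨-3 * σ + 4 * m - (1 + 2 * q) * (c * (q ^ 2 - 1) + m * (1 - q) - q * T),
      by linear_combination (1 + 2 * q) * e5⟩ (n3ar_dvd fun h => ?_)
    have := congrArg (Int.cast : ℤ → ZMod (q + 1).natAbs) e3
    push_cast at this h ⊢
    rw [eq_neg_of_add_eq_zero_left h] at this ⊢
    linear_combination -this
  obtain ⟨r, rfl⟩ : ∃ r, q = r + 3 := ⟨q - 3, by ring⟩
  have r0 : 0 ≤ r := by omega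
  have s1 : σ < r + 3 := by
    refine lt_of_mul_lt_mul_left (a := (r + 3) ^ 9) ?_ (by positivity)
    have b1 : m * (c * (r + 3 + 1) ^ 2) ≤ m * ((r + 3) ^ 3 * (r + 3 + 1) ^ 2) := by gcongr
    have b2 : c * ((r + 3 + 1) * (r + 3) ^ 5 * (r + 2)) ≤ (r + 3) ^ 3 * ((r + 3 + 1) * (r + 3) ^ 5 * (r + 2)) := by gcongr
    have b3 : 0 ≤ m * ((r + 3) ^ 7 + 2 * (r + 3) ^ 6 + (r + 3) ^ 2 + (r + 3)) := by positivity
    have b4 : 0 < c * (r + 3 + 1) := by positivity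
    have b5 : 0 < (r + 3) ^ 8 := by positivity
    rw [← e3]
    nlinarith
  have s2 : m - σ * ((r + 3) ^ 2 + (r + 3) + 1) ≤ 4 * m - c := by
    refine le_of_mul_le_mul_left (a := (r + 3) ^ 9) ?_ (by positivity)
    have b1 : 0 ≤ c * ((r + 3) ^ 5 * ((r + 3) ^ 2 * (r + 2) + (r + 2) * (r + 4) - (r + 3))) := by
      have : 0 ≤ (r + 3) ^ 2 * (r + 2) + (r + 2) * (r + 4) - (r + 3) := by ring_nf; positivity
      positivity
    have b2 : 0 ≤ m * (4 * (r + 3) ^ 9 - (r + 3) ^ 9 - ((r + 3) ^ 2 + (r + 3) + 1) * ((r + 3) ^ 7 + 2 * (r + 3) ^ 6 +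
        (r + 3) ^ 5 + 2 * (r + 3) ^ 4 + (r + 3) ^ 3 + (r + 3) ^ 2 + (r + 3))) := mul_nonneg (by omega) (by ring_nf; positivity)
    have b3 : 0 ≤ ((r + 3) ^ 2 + (r + 3) + 1) * (c * (r + 3 + 1) * (m * (r + 3 + 1) - 1)) := by
      have : 0 ≤ m * (r + 3 + 1) - 1 := by nlinarith
      positivity
    linear_combination b1 + b2 + b3 + ((r + 3) ^ 2 + (r + 3) + 1) * e3
  have s3 : 4 * m - c < 4 * (r + 3) ^ 2 := by
    refine lt_of_mul_lt_mul_left (a := (r + 3) ^ 2) ?_ (by positivity)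
    nlinarith [sq_nonneg (m - 2 * (r + 3) ^ 2)]
  have s4 : σ * ((r + 3) ^ 2 + (r + 3) + 1) ≤ (r + 2) * ((r + 3) ^ 2 + (r + 3) + 1) := by gcongr; omega
  obtain rfl : m = σ * ((r + 3) ^ 2 + (r + 3) + 1) := by
    have := n3ar_zero d1 (by nlinarith) (by nlinarith)
    linarith
  generalize r + 3 = q at *
  have σ0 : 0 < σ := pos_of_mul_pos_left (by omega : 0 < σ * (q ^ 2 + q + 1)) (by positivity)
  have e6 : c = q * (c * q - T - σ * (q ^ 2 + 2)) :=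
    mul_left_cancel₀ (pow_pos a4 2).ne' (by linear_combination -e5)
  generalize c * q - T - σ * (q ^ 2 + 2) = c' at e6
  subst e6
  have e7 : c' * (σ * (q ^ 2 + q + 1) * (q + 1) - 1 + q ^ 5 * (q - 1)) =
      σ * (2 * q ^ 7 + q ^ 6 + 3 * q ^ 5 + 2 * q ^ 4 + 2 * q ^ 3 + 2 * q ^ 2 + q + 1) :=
    mul_left_cancel₀ (show q * (q + 1) ≠ 0 by positivity) (by linear_combination e3)
  rcases (show 1 ≤ σ from σ0).eq_or_lt with rfl | σ2
  · have d2 : q ∣ 1 := ⟨c' * (q ^ 2 + 2 * q + 2 + q ^ 4 * (q - 1)) -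
      (2 * q ^ 6 + q ^ 5 + 3 * q ^ 4 + 2 * q ^ 3 + 2 * q ^ 2 + 2 * q + 1), by linear_combination -e7⟩
    have := Int.le_of_dvd one_pos d2
    omega
  have c1 : 0 < c' := pos_of_mul_pos_right c0 a4.le
  obtain ⟨r, rfl⟩ : ∃ r, q = r + 3 := ⟨q - 3, by ring⟩
  have r0 : 0 ≤ r := by omega
  have b1 := mul_lt_mul_of_pos_left h2 (show 0 < (r + 3) ^ 2 * (r + 2) by positivity)
  have b2 : 0 ≤ c' * (σ * ((r + 3) ^ 2 + (r + 3) + 1) * (r + 3 + 1) - 1) := mul_nonneg c1.le (by nlinarith)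
  have b3 : 0 ≤ σ * (σ - 2) * (((r + 3) ^ 2 + (r + 3) + 1) ^ 2 * ((r + 3) ^ 2 * (r + 2))) := by
    have : 0 ≤ σ - 2 := by omega
    positivity
  have b4 : 0 ≤ σ * (2 * (((r + 3) ^ 2 + (r + 3) + 1) ^ 2 * ((r + 3) ^ 2 * (r + 2))) - (2 * (r + 3) ^ 7 + (r + 3) ^ 6 +
      3 * (r + 3) ^ 5 + 2 * (r + 3) ^ 4 + 2 * (r + 3) ^ 3 + 2 * (r + 3) ^ 2 + (r + 3) + 1)) :=
    mul_nonneg σ0.le (by ring_nf; positivity)
  have : (0 : ℤ) < 0 := by linear_combination b1 + b2 + b3 + b4 + e7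
  omega

theorem n3ar_m (hq : 3 ≤ q) (he : ε * ε = 1) (hk : k * m * (q + 1) = (q ^ 2 * y - ε) * (q * y + ε)) : ¬ q ∣ m := by
  rintro ⟨z, rfl⟩
  have : q ∣ 1 := ⟨q ^ 2 * y ^ 2 + ε * y * (q - 1) - k * z * (q + 1), by linear_combination hk - he⟩
  have := Int.le_of_dvd one_pos this
  omega

theorem n3ar_ineq (hq : 3 ≤ q) (hc : 0 ≤ c) {I J : ℤ} (hI : 0 < I) (hk : k * m * (q + 1) = I)
    (hl : l * c * ((q + 1) ^ 2 * (q - 1)) = I * J) (h : l * (q ^ 2 - q) ≤ k ^ 2) : q * m ^ 2 * J ≤ c * I := by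
  refine le_of_mul_le_mul_left ?_ hI
  have := mul_le_mul_of_nonneg_left h (show 0 ≤ m ^ 2 * (q + 1) ^ 2 * c by positivity)
  linear_combination this - q * m ^ 2 * hl + c * (k * m * (q + 1) + I) * hk

theorem n3ar_int (hq : 3 ≤ q) (he : ε * ε = 1) (k0 : 0 ≤ k) (m0 : 0 ≤ m) (c0 : 0 ≤ c)
    (hk : k * m * (q + 1) = (q ^ 2 * y - ε) * (q * y + ε))
    (hl : l * c * ((q + 1) ^ 2 * (q - 1)) = (q ^ 2 * y - ε) * (q * y + ε) * ((y - ε) * (y + ε * q)))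
    (hv : y ^ 3 * t = 1 + k + l) (h : l * (q ^ 2 - q) ≤ k ^ 2)
    (hy : (y = q ^ 4 ∧ ε = 1 ∧ (q + 1) * q ^ 12 ≤ 1 + k + l) ∨ (y ^ 4 ≤ q ^ 2 * (1 + k + l) ∧
      (y = q ^ 5 ∧ ε = -1 ∨ q ^ 6 ≤ y ∧ q ∣ y))) : False := by
  have a4 : 0 < q := by omega
  have e1 : -1 ≤ ε ∧ ε ≤ 1 := by rcases Int.eq_one_or_neg_one_of_mul_eq_one he with rfl | rfl <;> omega
  have a5 : q ^ 4 ≤ q ^ 5 := pow_le_pow_right₀ (by omega) (by omega)
  have a6 : q ^ 5 ≤ q ^ 6 := pow_le_pow_right₀ (by omega) (by omega)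
  have a7 : 3 * q ≤ q ^ 4 := by nlinarith [pow_le_pow_right₀ (show 1 ≤ q by omega) (show 2 ≤ 4 by omega)]
  have y4 : q ^ 4 ≤ y := by rcases hy with h | ⟨-, h | h⟩ <;> omega
  have i1 : 0 < q ^ 2 * y - ε := by nlinarith
  have i2 : 0 < q * y + ε := by nlinarith
  have i3 : 0 < y - ε := by omega
  have i4 : 0 < y + ε * q := by nlinarith
  have hI := mul_pos i1 i2
  have m1 : 1 ≤ m := by
    rcases m0.eq_or_lt with rfl | h
    · simp [← hk] at hI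
    · omega
  have c1 : 1 ≤ c := by
    rcases c0.eq_or_lt with rfl | h
    · simp [i1.ne', i2.ne', i3.ne', i4.ne'] at hl
    · omega
  have b1 := n3ar_ineq hq c0 hI hk hl h
  have b2 : k ≤ (q ^ 2 * y - ε) * (q * y + ε) := by
    rw [← hk, mul_assoc]; exact le_mul_of_one_le_right k0 (by nlinarith)
  obtain ⟨s, T, e2, e3⟩ := n3ar_core he hk hl hv
  have y0 : 0 < y := by omega
  rcases hy with ⟨rfl, rfl, hL⟩ | ⟨hL, hy⟩
  · refine n3ar_six hq m1 (lt_of_mul_lt_mul_left (a := q * ((q ^ 4 - 1) * (q ^ 4 + 1 * q))) ?_ (by positivity))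
      (not_lt.1 fun hc => ?_) e2 e3
    · have : 0 < c * (q ^ 8 - q ^ 7 - q ^ 6 + q ^ 5 - q ^ 4 + 1) := by
        obtain ⟨r, rfl⟩ : ∃ r, q = r + 3 := ⟨q - 3, by ring⟩
        have r0 : 0 ≤ r := by omega
        exact mul_pos c1 (by ring_nf; positivity)
      linear_combination b1 + this
    · obtain ⟨r, rfl⟩ : ∃ r, q = r + 3 := ⟨q - 3, by ring⟩
      have r0 : 0 ≤ r := by omega
      have b3 : (r + 3) ^ 13 ≤ l := by
        have : 0 ≤ (r + 3) ^ 12 - (r + 3) ^ 11 - (r + 3) ^ 6 + (r + 3) ^ 5 := by ring_nf; positivity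
        linear_combination this + hL + b2
      have b4 : (r + 3) ^ 13 * (r + 3) ^ 3 * ((r + 3 + 1) ^ 2 * (r + 3 - 1)) ≤ l * c * ((r + 3 + 1) ^ 2 * (r + 3 - 1)) := by
        have : 0 ≤ r + 3 - 1 := by omega
        gcongr
        exact (pow_pos a4 _).le.trans b3
      have : 0 < (r + 3) ^ 13 * (r + 3) ^ 3 * ((r + 3 + 1) ^ 2 * (r + 3 - 1)) - ((r + 3) ^ 2 * (r + 3) ^ 4 - 1) *
        ((r + 3) * (r + 3) ^ 4 + 1) * (((r + 3) ^ 4 - 1) * ((r + 3) ^ 4 + 1 * (r + 3))) := by ring_nf; positivity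
      linarith
  have y5 : q ^ 5 ≤ y := by omega
  have j1 : (q ^ 2 * y - ε) * (q * y + ε) ≤ q ^ 3 * y ^ 2 + q ^ 2 * y := by
    have : ε * (q * (q - 1) * y) ≤ 1 * (q * (q - 1) * y) := by
      have : 0 ≤ q - 1 := by omega
      gcongr; omega
    have : 0 ≤ q * y := by positivity
    nlinarith
  have j2 : (y - ε) * (y + ε * q) ≤ y ^ 2 + q * y := by
    have : ε * ((q - 1) * y) ≤ 1 * ((q - 1) * y) := by
      have : 0 ≤ q - 1 := by omega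
      gcongr; omega
    nlinarith
  have j3 : y ^ 2 - q * y ≤ (y - ε) * (y + ε * q) := by
    have : -1 * ((q - 1) * y) ≤ ε * ((q - 1) * y) := by
      have : 0 ≤ q - 1 := by omega
      gcongr; omega
    nlinarith
  have c2 : c ≤ q ^ 2 := not_lt.1 fun hc => by
    have b3 : y ^ 4 - 3 * y ^ 3 ≤ q ^ 2 * l := by
      have t1 : q ^ 2 * k ≤ q ^ 2 * (q ^ 3 * y ^ 2 + q ^ 2 * y) := by gcongr; omega
      have t2 : q ^ 5 * y ^ 2 ≤ y * y ^ 2 := by gcongr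
      have t5 : y ≤ y ^ 2 := le_self_pow₀ (by omega) (by omega)
      have t3 : q ^ 4 * y ≤ y ^ 2 * y := by gcongr; omega
      have t4 : q ^ 2 ≤ y ^ 3 := ((pow_le_pow_right₀ (by omega) (by omega)).trans y4).trans
        (le_self_pow₀ (by omega) (by omega))
      linear_combination hL + t1 + t2 + t3 + t4
    have b5 : 0 < y ^ 4 - 3 * y ^ 3 := by
      linear_combination mul_pos (pow_pos y0 3) (show 0 < y - 3 by omega)
    have l0 : 0 < l := pos_of_mul_pos_right (b5.trans_le b3) (by positivity)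
    have q1 : 0 ≤ q - 1 := by omega
    have b4 : (y ^ 4 - 3 * y ^ 3) * ((q + 1) ^ 2 * (q - 1)) ≤ l * c * ((q + 1) ^ 2 * (q - 1)) := by
      gcongr; exact b3.trans (mul_comm l c ▸ mul_le_mul_of_nonneg_right hc.le l0.le)
    have b6 : (q ^ 2 * y - ε) * (q * y + ε) * ((y - ε) * (y + ε * q)) ≤ (q ^ 3 * y ^ 2 + q ^ 2 * y) * (y ^ 2 + q * y) := by
      gcongr
    have b7 : q ^ 5 * ((q ^ 2 - q - 1) * y ^ 3) ≤ y * ((q ^ 2 - q - 1) * y ^ 3) := by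
      have : 0 ≤ q ^ 2 - q - 1 := by linear_combination mul_nonneg a4.le (show 0 ≤ q - 3 by omega) + 2 * hq
      gcongr
    have b8 : q ^ 3 * y ^ 2 ≤ y * y ^ 2 := by
      gcongr; exact (pow_le_pow_right₀ (by omega) (by omega)).trans y4
    have b9 : 0 < (q ^ 5 * (q ^ 2 - q - 1) - 3 * ((q + 1) ^ 2 * (q - 1)) - q ^ 4 - q ^ 2 - 1) * y ^ 3 := by
      obtain ⟨r, rfl⟩ : ∃ r, q = r + 3 := ⟨q - 3, by ring⟩
      have r0 : 0 ≤ r := by omega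
      exact mul_pos (by ring_nf; positivity) (by positivity)
    exact lt_irrefl (0 : ℤ) (by linear_combination b4 + hl + b6 + b7 + b8 + b9)
  have m2 : m ≤ q ^ 2 := not_lt.1 fun hm => by
    have b3 : q * (q ^ 2 + 1) ^ 2 * (y ^ 2 - q * y) ≤ q * m ^ 2 * ((y - ε) * (y + ε * q)) := by
      have : 0 ≤ y ^ 2 - q * y := by linear_combination mul_nonneg y0.le (show 0 ≤ y - q by omega)
      gcongr; omega
    have b4 : c * ((q ^ 2 * y - ε) * (q * y + ε)) ≤ q ^ 2 * (q ^ 3 * y ^ 2 + q ^ 2 * y) := by gcongr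
    have b5 : q ^ 5 * (q * (2 * q ^ 2 + 1) * y) ≤ y * (q * (2 * q ^ 2 + 1) * y) := by gcongr
    have b9 : 0 < (q ^ 5 * (q * (2 * q ^ 2 + 1)) - q ^ 2 * (q ^ 2 + 1) ^ 2 - q ^ 4) * y := by
      obtain ⟨r, rfl⟩ : ∃ r, q = r + 3 := ⟨q - 3, by ring⟩
      have r0 : 0 ≤ r := by omega
      exact mul_pos (by ring_nf; positivity) y0
    exact lt_irrefl (0 : ℤ) (by linear_combination b3 + b1 + b4 + b5 + b9)
  rcases hy with ⟨rfl, rfl⟩ | ⟨h1, h2⟩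
  · exact n3ar_seven hq m1 m2 c1 c2 e2 e3
  · exact n3ar_big hq he h1 h2 (n3ar_m hq he hk) m1 m2 c1 c2 e2 e3

end

end Cfsg.Agent.UR
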