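import Cfsg.Agent.UR.OvA

/-! The centres of transvections do not form a partial ovoid. -/

set_option autoImplicit false

namespace Cfsg.Agent.UR

open Module MulAction Cfsg.Agent.Forms Cfsg.Agent.Polar Cfsg.Agent.Polar.PQ

variable {F : Type*} [Field F] [Fintype F] {q : ℕ} {hF : Fintype.card F = q ^ 2}
  {V : Type*} [AddCommGroup V] [Module F V] [Finite V] {P : PQ (uFP hF) V} {H : Subgroup P.Iso} {n : ℕ}

theorem ov_sec (h4 : 4 ≤ finrank F V) (hT : TrC H)
    (hO : ∀ a b, InS H a → InS H b → P.B a b = 0 → b ∈ F ∙ a) {x0 x1 : V} (s0 : InS H x0) (s1 : InS H x1)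
    (α β : F) (hs : P.B (α • x0 + β • x1) (α • x0 + β • x1) = 0) (h0 : α • x0 + β • x1 ≠ 0) :
    InS H (α • x0 + β • x1) := by
  by_cases n1 : P.B x0 x1 = 0
  · obtain ⟨l, rfl⟩ := Submodule.mem_span_singleton.1 (hO _ _ s0 s1 n1)
    rw [smul_smul, ← add_smul] at h0 ⊢
    exact s0.smul (left_ne_zero_of_smul h0)
  by_cases hβ : β = 0
  · rw [hβ, zero_smul, add_zero] at h0 ⊢
    exact s0.smul (left_ne_zero_of_smul h0)
  by_contra hn
  have b0 := s0.1.B_self
  have b1 := s1.1.B_self
  have h : P.Hyp x0 (frobq hF (P.B x0 x1)⁻¹ • x1) := ⟨s0.1, s1.1.smul _, by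
    rw [B_smul_right, frobq_frobq, inv_mul_cancel₀ n1]⟩
  have : FiniteDimensional F V := Module.Finite.of_finite
  obtain ⟨z, z0, zs⟩ := u_exists_sing (P.res (P.perp {x0, frobq hF (P.B x0 x1)⁻¹ • x1}))
    (by have := h.finrank_perp; omega)
  have zp := mem_perp_pair.1 z.2
  obtain ⟨g, hg, κ, hκ, e⟩ := hT z _ zs (fun e => z0 (Subtype.ext e)) (u_sing_iff.2 hs) h0 (fun hz => by
    obtain ⟨l, hl⟩ := Submodule.mem_span_singleton.1 (hO _ _ hz s0 zp.1)
    have := h.pair
    nth_rw 1 [← hl] at this
    simp only [B_smul_left, zp.2, mul_zero, zero_ne_one] at this) hn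
  have s2 := s0.act hg
  have h2 : P.B (g • x0) (α • x0 + β • x1) = 0 := by
    have := P.B_smul_smul g x0 z
    rw [e, B_swap_zero zp.1, B_smul_right] at this
    simpa [hκ] using this
  generalize g • x0 = x2 at s2 h2
  have yp := mem_perp_pair.1 (h.hproj_mem x2)
  have e2 := P.hyp_decomp x0 (frobq hF (P.B x0 x1)⁻¹ • x1) x2
  rw [uFP_eps, one_mul, smul_smul, add_right_comm] at e2
  have hβ' : P.B x2 x0 * frobq hF (P.B x0 x1)⁻¹ ≠ 0 := mul_ne_zero (fun e => by
    obtain ⟨l, hl⟩ := Submodule.mem_span_singleton.1 (hO _ _ s2 s0 e)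
    have : P.B x0 (α • x0 + β • x1) = 0 := by nth_rw 1 [← hl]; rw [B_smul_left, h2, mul_zero]
    simp [b0, hβ, n1] at this) (by simp [n1])
  have y1 : P.B (P.hproj x0 (frobq hF (P.B x0 x1)⁻¹ • x1) x2) x1 = 0 := by simpa [n1] using yp.2
  generalize P.hproj x0 (frobq hF (P.B x0 x1)⁻¹ • x1) x2 = y at *
  generalize P.B x2 x0 * frobq hF (P.B x0 x1)⁻¹ = β' at *
  generalize P.B x2 (frobq hF (P.B x0 x1)⁻¹ • x1) = α' at *
  have h3 : α' = β' / β * α := by
    rw [e2] at h2
    simp [b0, b1, yp.1, y1] at h2 hs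
    have hβ2 : frobq hF β ≠ 0 := (map_ne_zero _).2 hβ
    field_simp
    refine mul_right_cancel₀ (mul_ne_zero hβ2 n1) ?_
    linear_combination β * h2 - β' * hs
  have e3 : x2 = (β' / β) • (α • x0 + β • x1) + y := by
    rw [e2, h3, smul_add, smul_smul, smul_smul, div_mul_cancel₀ _ hβ]
  have yy : P.B y y = 0 := by
    have := s2.1.B_self
    have h5 : P.B y (α • x0 + β • x1) = 0 := by simp [yp.1, y1]
    rw [e3] at this
    generalize α • x0 + β • x1 = a at *
    simpa [hs, h5, B_swap_zero h5] using this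
  rw [ova_core hO s0 s1 s2 e2 yp.1 y1 yy n1 hβ', add_zero] at e3
  have := s2.smul (inv_ne_zero (div_ne_zero hβ' hβ))
  rw [e3, smul_smul, inv_mul_cancel₀ (div_ne_zero hβ' hβ), one_smul] at this
  exact hn this

theorem ovoid_false (hP : P.ND) (hn : finrank F V = n) (h6 : 6 ≤ n) (_hq : 3 ≤ q) (hI : Irr H) (hT : TrC H)
    (h0 : ¬ NoTv H) (hO : ∀ a b, InS H a → InS H b → P.B a b = 0 → b ∈ F ∙ a) : False := by
  obtain ⟨e, he⟩ := not_forall.1 h0
  rw [not_not] at he
  have sec := fun {x0 x1 : V} => ov_sec (by omega) hT hO (x0 := x0) (x1 := x1)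
  have top : ∀ W : Submodule F V, (∀ x, InS H x → x ∈ W) → W = ⊤ := fun W hW => by
    rcases hI (Submodule.span F {x | InS H x}) (fun g hg x hx => by
      induction hx using Submodule.span_induction with
      | mem x hx => exact Submodule.subset_span (InS.act hx hg)
      | zero => rw [smul_zero]; exact zero_mem _
      | add x y _ _ a b => rw [smul_add]; exact add_mem a b
      | smul a x _ b => rw [act_smul]; exact Submodule.smul_mem _ _ b) with h | h
    · exact (he.2.1 (Submodule.span_eq_bot.1 h e he)).elim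
    · exact top_le_iff.1 (h ▸ Submodule.span_le.2 hW)
  obtain ⟨f, hf, h⟩ : ∃ f, InS H f ∧ P.Hyp e f := by
    by_contra hc
    refine he.2.1 (hP.right fun x => mem_perp_singleton.1
      ((Submodule.eq_top_iff'.1 (top (P.perp {e}) fun f hf => ?_)) x))
    by_contra hb
    have hb' : P.B e f ≠ 0 := B_swap_ne fun e => hb (mem_perp_singleton.2 e)
    exact hc ⟨_, hf.smul (a := frobq hF (P.B e f)⁻¹) (by simp [hb']), he.1, hf.1.smul _, by
      rw [B_smul_right, frobq_frobq, inv_mul_cancel₀ hb']⟩
  have ee := he.1.B_self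
  have ff := hf.1.B_self
  have ef := h.pair
  have fe : P.B f e = 1 := h.pair'
  let A : V → Prop := fun a => P.B a e = 0 ∧ P.B a f = 0 ∧ ∃ c : F, InS H (f + a + c • e)
  have diff : ∀ a b, A a → A b → P.B (a - b) (a - b) = 0 → a = b := by
    rintro a b ⟨a1, a2, c, hc⟩ ⟨b1, b2, d, hd⟩ hab
    have h1 : P.B (f + a + c • e) e = 1 := by simp [fe, a1, ee]
    have h2 : P.B (f + b + d • e) e = 1 := by simp [fe, b1, ee]
    have h3 : P.B e (f + a + c • e) = 1 := by rw [u_swap, h1, map_one]
    have h4 : P.B e (f + b + d • e) = 1 := by rw [u_swap, h2, map_one]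
    have h5 : f + a + c • e - (f + b + d • e) = a - b + (c - d) • e := by module
    have h7 : P.B (a - b) e = 0 := by simp [a1, b1]
    have h8 : P.B (a - b + (c - d) • e) (a - b + (c - d) • e) = 0 := by
      generalize a - b = w at *
      simp [hab, h7, B_swap_zero h7, ee]
    have sa := hc.1.B_self
    have sb := hd.1.B_self
    rw [← h5] at h8
    have hz := sec hc he 1 (-P.B (f + a + c • e) (f + b + d • e)) (by
      generalize f + a + c • e = x at *
      generalize f + b + d • e = z at *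
      simp [sa, sb] at h8
      simp [sa, h1, h3, ee, ← u_swap]
      linear_combination h8) (fun e0 => by
        have := congrArg (P.B · e) e0
        simp [fe, a1, ee] at this)
    obtain ⟨l, hl⟩ := Submodule.mem_span_singleton.1 (hO _ _ hz hd (by
      generalize f + b + d • e = z at *
      simp [h4]))
    have l1 := congrArg (P.B · e) hl
    simp only [B_smul_left, map_add, LinearMap.add_apply, ee, mul_zero, add_zero, fe, a1, b1,
      mul_one] at l1
    rw [l1, one_smul, one_smul] at hl
    generalize P.B (f + a + c • e) (f + b + d • e) = κ at hl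
    have l2 := congrArg (P.B · f) hl
    simp [ff, a2, b2, ef] at l2
    rw [← l2] at hl
    linear_combination (norm := module) hl
  have scal0 : ∀ a, A a → ∀ s : F, frobq hF s ≠ s → A (s • a) := by
    rintro a ⟨a1, a2, c, hc⟩ s hs
    have hs' : s - frobq hF s ≠ 0 := sub_ne_zero.2 hs.symm
    obtain ⟨l, l1, l2⟩ : ∃ l : F, frobq hF l = -l ∧ (s - frobq hF s) * l =
        -(s * (1 - frobq hF s) * c + frobq hF s * (1 - s) * frobq hF c) :=
      ⟨-(s * (1 - frobq hF s) * c + frobq hF s * (1 - s) * frobq hF c) / (s - frobq hF s), by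
        simp only [map_div₀, map_neg, map_add, map_mul, map_sub, map_one, frobq_frobq]
        have := sub_ne_zero.2 hs
        field_simp
        ring, by field_simp⟩
    have h1 : P.B (f + a + c • e) e = 1 := by simp [fe, a1, ee]
    have h3 : P.B e (f + a + c • e) = 1 := by rw [u_swap, h1, map_one]
    have h4 : P.B (f + a + c • e) f = c := by simp [ff, a2, ef]
    have h5 : P.B f (f + a + c • e) = frobq hF c := by rw [u_swap, h4]
    have sa := hc.1.B_self
    have e1 : s • ((1 : F) • (f + a + c • e) + l • e) + (1 - s) • f = f + s • a + (s * (c + l)) • e := by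
      module
    refine ⟨by simp [a1], by simp [a2], s * (c + l), e1 ▸ ?_⟩
    generalize f + a + c • e = x at *
    have hz := sec hc he 1 l (by simp [sa, h1, h3, ee, l1]) (fun e0 => by
      have := congrArg (P.B · e) e0
      simp [h1, ee] at this)
    refine sec hz hf s (1 - s) ?_ fun e0 => ?_
    · simp [sa, h1, h3, h4, h5, ee, ff, ef, fe, l1]
      linear_combination l2
    · have := congrArg (P.B · e) e0
      simp [h1, ee, fe] at this
  have scal : ∀ a, A a → ∀ s : F, A (s • a) := fun a ha s => by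
    by_cases hs : frobq hF s = s
    · by_cases s0 : s = 0
      · exact ⟨by simp [s0], by simp [s0], 0, by simpa [s0] using hf⟩
      obtain ⟨θ, hθ⟩ := exists_frobq_ne hF
      have θ0 : θ ≠ 0 := by rintro rfl; simp at hθ
      rw [← div_mul_cancel₀ s θ0, mul_smul]
      refine scal0 _ (scal0 a ha θ hθ) _ fun e => hθ ?_
      rw [map_div₀, hs, div_eq_div_iff ((map_ne_zero _).2 θ0) θ0] at e
      exact (mul_left_cancel₀ s0 e).symm
    · exact scal0 a ha s hs
  obtain ⟨a, ha⟩ : ∃ a, ∀ b, A b → b ∈ F ∙ a := by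
    by_cases h1 : ∃ a, A a ∧ a ≠ 0
    · obtain ⟨a, ha, a0⟩ := h1
      refine ⟨a, fun b hb => ?_⟩
      by_contra hc
      have li : LinearIndependent F ![a, b] := linearIndependent_pair_of_ne a0 fun t e =>
        hc (e ▸ Submodule.smul_mem _ _ (Submodule.mem_span_singleton_self a))
      obtain ⟨z, z0, zs⟩ := u_exists_sing (P.res (Submodule.span F (Set.range ![a, b])))
        (by rw [finrank_span_eq_card li]; simp)
      obtain ⟨s, t, e1⟩ := Submodule.mem_span_pair.1 (show z.1 ∈ Submodule.span F {a, b} by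
        simpa [Matrix.range_cons, Matrix.range_empty, Set.pair_comm] using z.2)
      have := diff _ _ (scal a ha s) (scal b hb (-t)) (by
        rw [neg_smul, sub_neg_eq_add, e1]; exact u_sing_iff.1 zs)
      exact z0 (Subtype.ext (by rw [← e1, this]; simp))
    · exact ⟨0, fun b hb => by
        rw [show b = 0 from by_contra fun e => h1 ⟨b, hb, e⟩]; exact zero_mem _⟩
  have h3 := top (Submodule.span F (Set.range ![e, f, a])) fun x hx => by
    have me : e ∈ Submodule.span F (Set.range ![e, f, a]) := Submodule.subset_span ⟨0, rfl⟩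
    have mf : f ∈ Submodule.span F (Set.range ![e, f, a]) := Submodule.subset_span ⟨1, rfl⟩
    have ma : a ∈ Submodule.span F (Set.range ![e, f, a]) := Submodule.subset_span ⟨2, rfl⟩
    by_cases hb : P.B x e = 0
    · exact (Submodule.span_singleton_le_iff_mem _ _).2 me (hO _ _ he hx (B_swap_zero hb))
    have hx' := hx.smul (inv_ne_zero hb)
    rw [← Submodule.smul_mem_iff _ (inv_ne_zero hb)]
    have h1 : P.B ((P.B x e)⁻¹ • x) e = 1 := by simp [hb]
    generalize (P.B x e)⁻¹ • x = z at *
    have e2 := P.hyp_decomp e f z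
    rw [h1, uFP_eps, one_mul, one_smul] at e2
    have yp := mem_perp_pair.1 (h.hproj_mem z)
    have := (Submodule.span_singleton_le_iff_mem _ _).2 ma (ha _ ⟨yp.1, yp.2, P.B z f, by
      rwa [add_comm, add_comm f, ← add_assoc, ← e2]⟩)
    rw [e2]
    exact add_mem (add_mem (Submodule.smul_mem _ _ me) this) mf
  have h4 := finrank_range_le_card (R := F) ![e, f, a]
  rw [Set.finrank, h3, finrank_top] at h4
  simp at h4
  omega

end Cfsg.Agent.UR
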