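import Cfsg.Agent.UR.Base
import Cfsg.Agent.SR.Dick

/-! Partial ovoids of centres of transvections: three centres never span a degenerate plane. -/

set_option autoImplicit false

namespace Cfsg.Agent.UR

open Module MulAction Cfsg.Agent.Forms Cfsg.Agent.Polar Cfsg.Agent.Polar.PQ

theorem ova_perm {G Ω : Type*} [Group G] [Finite G] [Finite Ω] [MulAction G Ω] (s : Ω → G)
    (ha : ∀ g x, g * s x * g⁻¹ = s (g • x)) (hb : ∀ x, s x * s x = 1)
    (hc : ∀ x z, s x • z = z ↔ z = x) {x0 x1 : Ω} (h01 : x1 ≠ x0)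
    (h2 : ∀ g : G, g • x0 = x0 → g * g = 1)
    (h3 : ∀ g w : G, g • x0 = x0 → g ≠ 1 → w • x1 = x1 → w • g • x1 = g • x1 → w = 1) (x2 : Ω) :
    s x1 * s x0 * s x2 = s x2 * s x0 * s x1 := by
  have inv : ∀ x, (s x)⁻¹ = s x := fun x => inv_eq_of_mul_eq_one_right (hb x)
  have inj : ∀ x z, s x = s z → x = z := fun x z e => (hc z x).1 (e ▸ (hc x x).2 rfl)
  have ne : ∀ u v z, s u * s v ≠ s z := fun u v z e => by
    by_cases huv : u = v
    · rw [huv, hb] at e
      exact h01 (((hc z x1).1 (e ▸ one_smul _ _)).trans ((hc z x0).1 (e ▸ one_smul _ _)).symm)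
    · have h := hb z
      rw [← e, ← mul_assoc, mul_eq_one_iff_eq_inv, inv,
        show s u * s v * s u = s u * s v * (s u)⁻¹ by rw [inv], ha] at h
      exact huv ((hc u v).1 (inj _ _ h)).symm
  have stab : ∀ g : G, g • x0 = x0 → g = 1 ∨ g = s x0 := fun g hg => by
    by_contra hn
    push Not at hn
    have gi : g⁻¹ = g := inv_eq_of_mul_eq_one_right (h2 g hg)
    have e1 : ∀ k : ℕ, g * (g * s x1) ^ k * g⁻¹ = ((g * s x1) ^ k)⁻¹ := fun k => by
      rw [← conj_pow, ← inv_pow, mul_inv_rev, inv, ← mul_assoc, h2 g hg, one_mul]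
    have e2 : ∀ k : ℕ, s x1 * (g * s x1) ^ k * (s x1)⁻¹ = ((g * s x1) ^ k)⁻¹ := fun k => by
      rw [← conj_pow, ← inv_pow, mul_inv_rev, gi, ← mul_assoc, mul_inv_cancel_right, inv]
    have ho := pow_orderOf_eq_one (g * s x1)
    rcases Nat.even_or_odd' (orderOf (g * s x1)) with ⟨k, hk | hk⟩
    · have hk0 : 0 < k := by have := orderOf_pos (g * s x1); omega
      have hw : ((g * s x1) ^ k)⁻¹ = (g * s x1) ^ k :=
        inv_eq_of_mul_eq_one_right (by rw [← pow_add, ← two_mul, ← hk, ho])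
      have h4 : (g * s x1) ^ k • x1 = x1 := inj _ _ (by
        rw [← ha, mul_inv_eq_iff_eq_mul, ← mul_inv_eq_iff_eq_mul.1 ((e2 k).trans hw)])
      refine pow_ne_one_of_lt_orderOf hk0.ne' (by omega) (h3 g _ hg hn.1 h4 ?_)
      rw [← mul_smul, ← mul_inv_eq_iff_eq_mul.1 ((e1 k).trans hw), mul_smul, h4]
    · have h4 : g = s (((g * s x1) ^ k)⁻¹ • x1) := by
        rw [← ha, inv_inv, mul_assoc, mul_inv_eq_iff_eq_mul.1 (e2 k)]
        rw [hk, pow_succ, two_mul, pow_add, mul_assoc, mul_eq_one_iff_eq_inv'] at ho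
        generalize (g * s x1) ^ k = w at ho
        rw [eq_inv_mul_iff_mul_eq, ← ho]
        simp only [mul_assoc, hb, mul_one]
      exact hn.2 (h4.trans (congrArg s ((hc _ x0).1 (h4 ▸ hg)).symm))
  have hcard : Nat.card G ≤ Nat.card (Ω ⊕ Ω) := by
    have h4 : Nat.card (stabilizer G x0) ≤ 2 := by
      rw [show 2 = Nat.card Bool by simp]
      refine Nat.card_le_card_of_surjective (fun b : Bool => if b then 1 else ⟨s x0, (hc _ _).2 rfl⟩) ?_
      rintro ⟨g, hg⟩
      rcases stab g hg with rfl | rfl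
      exacts [⟨true, rfl⟩, ⟨false, rfl⟩]
    have h5 : Nat.card (orbit G x0) ≤ Nat.card Ω := Nat.card_le_card_of_injective _ Subtype.val_injective
    rw [Nat.card_sum, ← Nat.card_congr (orbitProdStabilizerEquivGroup G x0), Nat.card_prod]
    nlinarith
  have hinj : Function.Injective (Sum.elim s fun x => s x0 * s x) := by
    rintro (a | a) (b | b) e
    exacts [congrArg _ (inj _ _ e), (ne _ _ _ e.symm).elim, (ne _ _ _ e).elim,
      congrArg _ (inj _ _ (mul_left_cancel e))]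
  obtain ⟨z | z, e⟩ := (hinj.bijective_of_nat_card_le hcard).2 (s x0 * (s x1 * s x0 * s x2))
  · refine (ne (s x0 • x1) x2 z ?_).elim
    rw [← ha, inv, show s z = _ from e]
    simp only [mul_assoc]
  · have e' : s z = s x1 * s x0 * s x2 := mul_left_cancel e
    rw [← e', ← inv z, e']
    simp only [mul_inv_rev, inv, mul_assoc]

variable {F : Type*} [Field F] [Fintype F] {q : ℕ} {hF : Fintype.card F = q ^ 2}
  {V : Type*} [AddCommGroup V] [Module F V] [Finite V] {P : PQ (uFP hF) V} {H : Subgroup P.Iso}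

omit [Finite V] in
theorem ova_indep {x0 x1 y : V} (s0 : P.B x0 x0 = 0) (s1 : P.B x1 x1 = 0) (h : P.B x0 x1 ≠ 0)
    (y0 : P.B y x0 = 0) (y1 : P.B y x1 = 0) (hy : y ≠ 0) {a b c : F}
    (e : a • x0 + b • x1 + c • y = 0) : a = 0 ∧ b = 0 ∧ c = 0 := by
  have h1 := congrArg (P.B · x1) e
  have h0 := congrArg (P.B · x0) e
  simp [s0, s1, y0, y1, h, B_swap_ne h] at h0 h1
  simpa [h0, h1, hy] using e

theorem ova_two (h2 : (2 : F) = 0) (hO : ∀ a b, InS H a → InS H b → P.B a b = 0 → b ∈ F ∙ a)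
    {x0 x1 x2 y : V} {α β : F} (s0 : P.Sing x0) (s1 : P.Sing x1) (s2 : P.Sing x2)
    (t0 : P.eich x0 0 1 ∈ H) (t1 : P.eich x1 0 1 ∈ H) (t2 : P.eich x2 0 1 ∈ H)
    (e2 : x2 = α • x0 + β • x1 + y) (y0 : P.B y x0 = 0) (y1 : P.B y x1 = 0) (yy : P.B y y = 0)
    (hy : y ≠ 0) (n1 : P.B x0 x1 ≠ 0) (n2 : P.B x0 x2 ≠ 0)
    (f1 : frobq hF (P.B x0 x1) = P.B x0 x1) (f2 : frobq hF (P.B x0 x2) = P.B x0 x2) : False := by
  have one : (1 : F) ∈ (uFP hF).Λ := by rw [mem_uFP_lam, map_one]; linear_combination h2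
  have b0 := s0.B_self
  have b1 := s1.B_self
  have b2 := s2.B_self
  have g1 : P.B x1 x0 = P.B x0 x1 := by rw [u_swap, f1]
  have g2 : P.B x2 x0 = P.B x0 x2 := by rw [u_swap, f2]
  have y2 : P.B y x2 = 0 := by simp [e2, y0, y1, yy]
  have hβ : P.B x0 x2 = β * P.B x0 x1 := by rw [← g2, e2]; simp [b0, y0, g1]
  have fβ : frobq hF β = β := mul_right_cancel₀ n1 (by rw [← hβ, ← f2, hβ, map_mul, f1])
  have g3 : P.B x2 x1 = α * P.B x0 x1 := by rw [e2]; simp [b1, y1]
  have f3 : frobq hF (P.B x2 x1) = P.B x2 x1 := by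
    have : P.B x2 x2 = frobq hF α * P.B x2 x0 + frobq hF β * P.B x2 x1 := by
      nth_rw 2 [e2]; simp [B_swap_zero y2]
    rw [b2, g2, hβ, fβ, g3] at this
    rw [g3, map_mul, f1]
    refine mul_left_cancel₀ (fun e : β = 0 => n2 (by rw [hβ, e, zero_mul])) ?_
    linear_combination -this - β * α * P.B x0 x1 * h2
  have g4 : P.B x1 x2 = P.B x2 x1 := by rw [u_swap, f3]
  have ind : ∀ {a b c : F}, a • x0 + b • x1 + c • x2 = 0 → a = 0 ∧ b = 0 ∧ c = 0 := fun {a b c} e => by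
    obtain ⟨i0, i1, i2⟩ := ova_indep b0 b1 n1 y0 y1 hy (a := a + c * α) (b := b + c * β) (c := c)
      (by rw [← e, e2]; module)
    simpa [i2] using And.intro i0 i1
  let Q : F → F → F → F := fun a b c => a ^ 2 + b ^ 2 + c ^ 2 + a * b * P.B x0 x1 + a * c * P.B x0 x2 +
    b * c * P.B x2 x1
  let C : Set V := {x | P.eich x 0 1 ∈ H ∧ ∃ a b c : F, frobq hF a = a ∧ frobq hF b = b ∧ frobq hF c = c ∧
    x = a • x0 + b • x1 + c • x2 ∧ Q a b c = 1}
  have bil : ∀ a b c a' b' c' : F, frobq hF a' = a' → frobq hF b' = b' → frobq hF c' = c' →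
      P.B (a • x0 + b • x1 + c • x2) (a' • x0 + b' • x1 + c' • x2) = (a * b' + b * a') * P.B x0 x1 +
        (a * c' + c * a') * P.B x0 x2 + (b * c' + c * b') * P.B x2 x1 := fun a b c a' b' c' h1 h2 h3 => by
    simp [b0, b1, b2, g1, g2, g4, h1, h2, h3]; ring
  have Cs : ∀ x ∈ C, P.Sing x := by
    rintro x ⟨-, a, b, c, h1, h3, h4, rfl, -⟩
    rw [u_sing_iff, bil _ _ _ _ _ _ h1 h3 h4]
    linear_combination (a * b * P.B x0 x1 + a * c * P.B x0 x2 + b * c * P.B x2 x1) * h2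
  have CS : ∀ x ∈ C, InS H x := fun x hx => ⟨Cs x hx, by
    obtain ⟨-, a, b, c, -, -, -, rfl, h⟩ := hx
    intro e
    obtain ⟨rfl, rfl, rfl⟩ := ind e
    simp [Q] at h, 1, one, one_ne_zero, hx.1⟩
  have Cy : ∀ x ∈ C, P.B y x = 0 := by
    rintro x ⟨-, a, b, c, -, -, -, rfl, -⟩
    simp [y0, y1, y2]
  have Cd : ∀ x ∈ C, ∀ z ∈ C, P.B x z = 0 → z = x := fun x hx z hz h => by
    obtain ⟨l, hl⟩ := Submodule.mem_span_singleton.1 (hO x z (CS x hx) (CS z hz) h)
    obtain ⟨-, a, b, c, -, -, -, rfl, h1⟩ := hx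
    obtain ⟨-, a', b', c', -, -, -, rfl, h3⟩ := hz
    obtain ⟨i0, i1, i2⟩ := ind (a := l * a - a') (b := l * b - b') (c := l * c - c')
      (by rw [← sub_eq_zero.2 hl]; module)
    rw [sub_eq_zero] at i0 i1 i2
    subst i0 i1 i2
    have : (l - 1) ^ 2 = 0 := by
      simp only [Q] at h1 h3
      linear_combination h3 - l ^ 2 * h1 + (1 - l) * h2
    rw [← hl, sub_eq_zero.1 (pow_eq_zero_iff two_ne_zero |>.1 this), one_smul]
  have Cc : ∀ x ∈ C, ∀ z ∈ C, P.eich x 0 1 • z ∈ C := fun x hx z hz => by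
    refine ⟨conj_tv (Cs z hz) one _ ▸ mul_mem (mul_mem hx.1 hz.1) (inv_mem hx.1), ?_⟩
    rw [tv_smul (Cs x hx) one, one_mul]
    obtain ⟨-, a, b, c, h1, h3, h4, rfl, h5⟩ := hx
    obtain ⟨-, a', b', c', h1', h3', h4', rfl, h5'⟩ := hz
    rw [bil _ _ _ _ _ _ h1 h3 h4]
    set κ := (a' * b + b' * a) * P.B x0 x1 + (a' * c + c' * a) * P.B x0 x2 + (b' * c + c' * b) * P.B x2 x1
      with hκ
    have fκ : frobq hF κ = κ := by simp only [hκ, map_add, map_mul, h1, h3, h4, h1', h3', h4', f1, f2, f3]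
    refine ⟨a' - κ * a, b' - κ * b, c' - κ * c, by simp [h1, h1', fκ], by simp [h3, h3', fκ],
      by simp [h4, h4', fκ], by module, ?_⟩
    simp only [Q] at h5 h5' ⊢
    linear_combination h5' + κ ^ 2 * h5 + κ * hκ - κ * (a * a' + b * b' + c * c') * h2
  have sq : ∀ x ∈ C, P.eich x 0 1 * P.eich x 0 1 = 1 := fun x hx => by
    rw [transvec_mul (Cs x hx) one one, one_add_one_eq_two, h2, eich_zero]
  let K : Subgroup P.Iso :=
    { carrier := {g | g • y = y ∧ ∀ x, g • x ∈ C ↔ x ∈ C}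
      one_mem' := ⟨one_smul _ _, fun x => by rw [one_smul]⟩
      mul_mem' := fun {g k} hg hk => ⟨by rw [mul_smul, hk.1, hg.1], fun x => by
        rw [mul_smul, hg.2, hk.2]⟩
      inv_mem' := fun {g} hg => ⟨inv_smul_eq_iff.2 hg.1.symm, fun x => by
        rw [← hg.2, smul_inv_smul]⟩ }
  let _ : MulAction K C :=
    { smul := fun g x => ⟨g.1 • x.1, (g.2.2 _).2 x.2⟩
      one_smul := fun x => Subtype.ext (one_smul P.Iso x.1)
      mul_smul := fun g k x => Subtype.ext (mul_smul g.1 k.1 x.1) }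
  let φ := (toPermHom K C).rangeRestrict
  have φs : ∀ (g : K) (x : C), ((φ g • x : C) : V) = g.1 • x.1 := fun _ _ => rfl
  let t : C → K := fun x => ⟨P.eich x.1 0 1, by rw [tv_smul (Cs _ x.2) one, Cy _ x.2]; simp, fun z =>
    ⟨fun h => by simpa only [← mul_smul, sq _ x.2, one_smul] using Cc _ x.2 _ h, Cc _ x.2 z⟩⟩
  have m0 : x0 ∈ C := ⟨t0, 1, 0, 0, by simp, by simp, by simp, by simp, by simp [Q]⟩
  have m1 : x1 ∈ C := ⟨t1, 0, 1, 0, by simp, by simp, by simp, by simp, by simp [Q]⟩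
  have m2 : x2 ∈ C := ⟨t2, 0, 0, 1, by simp, by simp, by simp, by simp, by simp [Q]⟩
  have fix : ∀ g : K, g.1 • x0 = x0 → g.1 • x1 = x1 → φ g = 1 := fun g h0 h1 =>
    Subtype.ext (Equiv.ext fun x => Subtype.ext (show g.1 • x.1 = x.1 by
      obtain ⟨-, a, b, c, -, -, -, e, -⟩ := x.2
      simp only [e, e2, smul_add g.1, act_smul, h0, h1, g.2.1]))
  have shape : ∀ g : K, g.1 • x0 = x0 → ∃ l κ : F, g.1 • x1 = x1 + l • x0 + κ • y := fun g h0 => by
    obtain ⟨-, a, b, c, -, -, -, e, -⟩ := (g.2.2 _).2 m1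
    have h := P.B_smul_smul g.1 x1 x0
    rw [h0, e, e2] at h
    simp [b0, y0] at h
    refine ⟨a + c * α, c, ?_⟩
    rw [e, e2, show b = 1 - c * β from mul_right_cancel₀ (B_swap_ne n1) (by linear_combination h)]
    module
  have key := ova_perm (G := (toPermHom K C).range) (fun x => φ (t x)) (x0 := ⟨x0, m0⟩) (x1 := ⟨x1, m1⟩)
    (fun g x => by
      obtain ⟨g, rfl⟩ := (toPermHom K C).rangeRestrict_surjective g
      rw [← map_inv, ← map_mul, ← map_mul]
      exact congrArg φ (Subtype.ext (conj_tv (Cs _ x.2) one g.1)))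
    (fun x => by rw [← map_mul, ← map_one φ]; exact congrArg φ (Subtype.ext (sq _ x.2)))
    (fun x z => by
      rw [Subtype.ext_iff, φs, show (t x).1 = P.eich x.1 0 1 from rfl, tv_smul (Cs _ x.2) one, one_mul,
        sub_eq_self, smul_eq_zero_iff_left (CS _ x.2).2.1]
      exact ⟨fun h => Subtype.ext (Cd _ z.2 _ x.2 h).symm, fun h => h ▸ (Cs _ z.2).B_self⟩)
    (fun e => n1 (by rw [show x1 = x0 from congrArg Subtype.val e, b0]))
    (fun g hg => by
      obtain ⟨g, rfl⟩ := (toPermHom K C).rangeRestrict_surjective g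
      have h0 : g.1 • x0 = x0 := congrArg Subtype.val hg
      obtain ⟨l, κ, e⟩ := shape g h0
      rw [← map_mul]
      refine fix _ (by simp only [Subgroup.coe_mul, mul_smul, h0]) ?_
      simp only [Subgroup.coe_mul, mul_smul, e, smul_add g.1, act_smul, h0, g.2.1]
      linear_combination (norm := module) h2 • (l • x0 + κ • y))
    (fun g w hg hg1 hw hw' => by
      obtain ⟨g, rfl⟩ := (toPermHom K C).rangeRestrict_surjective g
      obtain ⟨w, rfl⟩ := (toPermHom K C).rangeRestrict_surjective w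
      have h0 : g.1 • x0 = x0 := congrArg Subtype.val hg
      have h1 : w.1 • x1 = x1 := congrArg Subtype.val hw
      have h3 : w.1 • g.1 • x1 = g.1 • x1 := congrArg Subtype.val hw'
      obtain ⟨l, κ, e⟩ := shape g h0
      have hl : l ≠ 0 := by
        rintro rfl
        exact hg1 (fix g h0 (Cd _ m1 _ ((g.2.2 _).2 m1) (by simp [e, b1, B_swap_zero y1])))
      simp only [e, smul_add w.1, act_smul, h1, w.2.1, add_left_inj, add_right_inj] at h3
      exact fix w (smul_right_injective V hl h3) h1) ⟨x2, m2⟩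
  have e := congrArg (fun g : (toPermHom K C).range => ((g • (⟨x1, m1⟩ : C) : C) : V)) key
  simp only [← map_mul, φs, Subgroup.coe_mul, mul_smul, t] at e
  rw [tv_smul s1 one x1, b1, mul_zero, zero_smul, sub_zero, tv_smul s0 one x1, tv_smul s2 one (x1 - _),
    tv_smul s1 one] at e
  generalize 1 * P.B (P.eich x0 0 1 • P.eich x2 0 1 • x1) x1 = a1 at e
  rw [tv_smul s0 one] at e
  generalize 1 * P.B (P.eich x2 0 1 • x1) x0 = a0 at e
  rw [tv_smul s2 one] at e
  simp only [one_mul, map_sub, LinearMap.sub_apply, B_smul_left] at e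
  exact mul_ne_zero (B_swap_ne n1) n2 (ind (a := a0 - P.B x1 x0) (b := a1) (c := P.B x1 x0 * P.B x0 x2)
    (by linear_combination (norm := module) (-1 : F) • e)).2.2

omit [Finite V] in
theorem ova_neg (h2 : (2 : F) ≠ 0) {e f y : V} (he : InS H e) (hf : InS H f) (h : P.B e f ≠ 0)
    (y0 : P.B y e = 0) (y1 : P.B y f = 0) : ∃ i ∈ H, i • e = -e ∧ i • f = -f ∧ i • y = y := by
  obtain ⟨s0, -, c, hc, c0, t0⟩ := he
  obtain ⟨s1, -, d, hd, d0, t1⟩ := hf
  have key : ∀ A ∈ Submonoid.closure {Stein.sl2X F (-(c * P.B f e)), Stein.sl2Y F (-(d * P.B e f))},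
      ∃ i ∈ H, i • e = A 0 0 • e + A 1 0 • f ∧ i • f = A 0 1 • e + A 1 1 • f ∧ i • y = y := by
    intro A hA
    induction hA using Submonoid.closure_induction with
    | mem A hA =>
      rcases hA with rfl | rfl
      · exact ⟨_, t0, by simp [tv_smul s0 hc, Chev.X_val, s0.B_self],
          by simp [tv_smul s0 hc, Chev.X_val, sub_eq_neg_add], by simp [tv_smul s0 hc, y0]⟩
      · exact ⟨_, t1, by simp [tv_smul s1 hd, Chev.Y_val, sub_eq_add_neg],
          by simp [tv_smul s1 hd, Chev.Y_val, s1.B_self], by simp [tv_smul s1 hd, y1]⟩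
    | one => exact ⟨1, one_mem _, by simp, by simp, by simp⟩
    | mul A B _ _ iA iB =>
      obtain ⟨i, hi, a1, a2, a3⟩ := iA
      obtain ⟨j, hj, b1, b2, b3⟩ := iB
      have e' : ∀ r s, (A * B) r s = A r 0 * B 0 s + A r 1 * B 1 s := fun r s => by
        simp [Matrix.mul_apply, Fin.sum_univ_two]
      refine ⟨i * j, mul_mem hi hj, ?_, ?_, by rw [mul_smul, b3, a3]⟩
      · rw [mul_smul, b1, smul_add i, act_smul, act_smul, a1, a2, e', e']; module
      · rw [mul_smul, b2, smul_add i, act_smul, act_smul, a1, a2, e', e']; module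
  obtain ⟨i, hi, a1, a2, a3⟩ := key (-1) (by
    rw [← Subgroup.closure_toSubmonoid_of_finite]
    exact SR.neg_mem_closure h2 (neg_ne_zero.2 (mul_ne_zero c0 (B_swap_ne h)))
      (neg_ne_zero.2 (mul_ne_zero d0 h)))
  exact ⟨i, hi, by simpa using a1, by simpa using a2, a3⟩

omit [Finite V] in
theorem ova_norm (h2 : (2 : F) = 0) {x z : V} (hx : InS H x) (hz : P.B z x ≠ 0) : ∃ a : F, a ≠ 0 ∧
    P.eich (a • x) 0 1 ∈ H ∧ frobq hF (P.B z (a • x)) = P.B z (a • x) := by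
  obtain ⟨s, -, c, hc, c0, t⟩ := hx
  have : CharP F 2 := CharTwo.of_one_ne_zero_of_two_eq_zero one_ne_zero h2
  have one : (1 : F) ∈ (uFP hF).Λ := by rw [mem_uFP_lam, map_one]; linear_combination h2
  have fc : frobq hF c = c := by rw [u_lam_tau hc]; linear_combination -c * h2
  obtain ⟨r, hr⟩ := surjective_frobenius F 2 (c * (P.B z x * frobq hF (P.B z x)))
  rw [frobenius_def] at hr
  have fr : frobq hF r = r := frobenius_inj F 2 (by
    rw [frobenius_def, frobenius_def, ← map_pow, hr, map_mul, map_mul, frobq_frobq, fc, mul_comm (P.B z x)])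
  have hz' : frobq hF (P.B z x) ≠ 0 := (map_ne_zero _).2 hz
  have r0 : r ≠ 0 := by rintro rfl; simp [c0, hz] at hr
  refine ⟨r / frobq hF (P.B z x), div_ne_zero r0 hz', ?_, ?_⟩
  · rwa [transvec_smul s one, map_div₀, frobq_frobq, fr, show r / frobq hF (P.B z x) * (r / P.B z x) * 1 = c by
      field_simp; linear_combination hr]
  · rw [B_smul_right, map_div₀, frobq_frobq, fr, div_mul_cancel₀ _ hz, fr]

theorem ova_core (hO : ∀ a b, InS H a → InS H b → P.B a b = 0 → b ∈ F ∙ a) {x0 x1 x2 y : V} {α β : F}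
    (s0 : InS H x0) (s1 : InS H x1) (s2 : InS H x2) (e2 : x2 = α • x0 + β • x1 + y)
    (y0 : P.B y x0 = 0) (y1 : P.B y x1 = 0) (yy : P.B y y = 0) (n1 : P.B x0 x1 ≠ 0) (hβ : β ≠ 0) :
    y = 0 := by
  by_contra hy
  have b0 := s0.1.B_self
  have n2 : P.B x0 x2 ≠ 0 := by simp [e2, b0, B_swap_zero y0, hβ, n1]
  by_cases h2 : (2 : F) = 0
  · obtain ⟨a0, h0, t0, -⟩ := ova_norm h2 s0 (B_swap_ne n1)
    obtain ⟨a1, h1, t1, f1⟩ := ova_norm h2 s1 (z := a0 • x0) (by simp [h0, n1])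
    obtain ⟨a2, h3, t2, f2⟩ := ova_norm h2 s2 (z := a0 • x0) (by simp [h0, n2])
    exact ova_two h2 hO (s0.1.smul a0) (s1.1.smul a1) (s2.1.smul a2) t0 t1 t2 (α := a2 * α / a0)
      (β := a2 * β / a1) (y := a2 • y) (by
        rw [smul_smul, smul_smul, div_mul_cancel₀ _ h0, div_mul_cancel₀ _ h1, e2]; module)
      (by simp [y0]) (by simp [y1]) (by simp [yy]) (smul_ne_zero h3 hy) (by simp [h0, h1, n1])
      (by simp [h0, h3, n2]) f1 f2
  · obtain ⟨i, hi, i0, i1, iy⟩ := ova_neg h2 s0 s1 n1 y0 y1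
    have e3 : i • x2 = -x2 + (2 : F) • y := by
      rw [e2, smul_add i, smul_add i, act_smul, act_smul, i0, i1, iy]; module
    have y2 : P.B x2 y = 0 := by simp [e2, B_swap_zero y0, B_swap_zero y1, yy]
    obtain ⟨l, hl⟩ := Submodule.mem_span_singleton.1 (hO _ _ s2 (s2.act hi)
      (by simp [e3, s2.1.B_self, y2]))
    rw [e3, e2] at hl
    obtain ⟨-, j1, j2⟩ := ova_indep b0 s1.1.B_self n1 y0 y1 hy (a := (l + 1) * α) (b := (l + 1) * β)
      (c := l - 1) (by linear_combination (norm := module) hl)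
    exact h2 (mul_right_cancel₀ hβ (by linear_combination j1 - β * j2))

end Cfsg.Agent.UR
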