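import Cfsg.Agent.UR.Base

/-! Rank three actions of unitary groups: spanning subspaces of the polar space. -/

set_option autoImplicit false
set_option linter.unusedSectionVars false
set_option linter.unusedVariables false

namespace Cfsg.Agent.UR

open Module MulAction Submodule Cfsg.Agent.Forms Cfsg.Agent.Polar Cfsg.Agent.Polar.PQ

variable {F : Type*} [Field F] [Fintype F] {q : ℕ} {hF : Fintype.card F = q ^ 2}
variable {V : Type*} [AddCommGroup V] [Module F V] [Finite V] {P : PQ (uFP hF) V} {H : Subgroup P.Iso} {n : ℕ}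

theorem Irr.span_top (hI : Irr H) {T : Set V} (h1 : ∀ g ∈ H, ∀ x ∈ T, g • x ∈ T) {a : V} (ha : a ∈ T)
    (h0 : a ≠ 0) : span F T = ⊤ := by
  refine (hI _ fun g hg x hx => ?_).resolve_left fun e => h0 ((mem_bot F).1 (e ▸ subset_span ha))
  induction hx using span_induction with
  | mem x hx => exact subset_span (h1 g hg x hx)
  | zero => simp
  | add x y _ _ hx hy => rw [smul_add]; exact add_mem hx hy
  | smul c x _ hx => rw [act_smul]; exact smul_mem _ _ hx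

theorem sub_exists_ne (hP : P.ND) {T : Set V} (h : span F T = ⊤) {v : V} (h0 : v ≠ 0) : ∃ y ∈ T, P.B v y ≠ 0 := by
  by_contra hc
  push Not at hc
  refine h0 (hP v fun y => B_swap_zero ?_)
  exact (span_le (p := P.perp {v})).2 (fun y hy => mem_perp_singleton.2 (B_swap_zero (hc y hy)))
    (h ▸ mem_top : y ∈ span F T) v rfl

theorem not_U_le (hP : P.ND) (hI : Irr H) (hH : ¬ P.EG ≤ H) {v : V} (hv : P.Sing v) (h0 : v ≠ 0) :
    ¬ P.U v ≤ H := fun hU => by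
  obtain ⟨_, ⟨g, hg, rfl⟩, h⟩ := sub_exists_ne hP (hI.span_top (T := {y | ∃ g ∈ H, y = g • v})
    (fun g hg _ ⟨k, hk, e⟩ => ⟨g * k, mul_mem hg hk, by rw [e, mul_smul]⟩) ⟨1, one_mem _, (one_smul _ _).symm⟩ h0) h0
  refine hH ((hyp_of_ne hv (hv.act g) h).EG_le hP hU ?_)
  rw [U_smul (by simpa using h)]
  exact U_le_of_smul hU hg

variable (P) in
/-- subspaces of the polar space -/
structure Sub (T : Set V) : Prop where
  zero : (0 : V) ∈ T
  sing : ∀ x ∈ T, P.Sing x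
  smul : ∀ (c : F), ∀ x ∈ T, c • x ∈ T
  add : ∀ x ∈ T, ∀ y ∈ T, P.B x y = 0 → x + y ∈ T

variable (P) in
/-- two orthogonal hyperbolic pairs -/
structure SubFr (e1 f1 e2 f2 : V) : Prop where
  h1 : P.Hyp e1 f1
  h2 : P.Hyp e2 f2
  ee : P.B e1 e2 = 0
  ef : P.B e1 f2 = 0
  fe : P.B f1 e2 = 0
  ff : P.B f1 f2 = 0

variable {T : Set V} {e1 f1 e2 f2 : V}

theorem Sub.lin (S : Sub P T) {x y : V} (hx : x ∈ T) (hy : y ∈ T) (h : P.B x y = 0) (a b : F) : a • x + b • y ∈ T :=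
  S.add _ (S.smul a x hx) _ (S.smul b y hy) (by simp [h])

theorem Sub.frame (S : Sub P T) (hP : P.ND) (hT : span F T = ⊤) {a b : V} (ha : a ∈ T) (a0 : a ≠ 0) (hb : b ∈ T)
    (hab : P.B a b = 0) (hi : b ∉ F ∙ a) :
    ∃ e1 ∈ T, ∃ f1 ∈ T, ∃ e2 ∈ T, ∃ f2 ∈ T, SubFr P e1 f1 e2 f2 := by
  obtain ⟨y, hy, ay⟩ := sub_exists_ne hP hT a0
  obtain ⟨e2, h2, e0, ae, ey⟩ : ∃ e ∈ T, e ≠ 0 ∧ P.B a e = 0 ∧ P.B e y = 0 := by
    refine ⟨(-(P.B b y / P.B a y)) • a + (1 : F) • b, S.lin ha hb hab _ _, fun e => hi ?_,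
      by simp [hab, (S.sing a ha).B_self], by simp [ay]⟩
    exact mem_span_singleton.2 ⟨P.B b y / P.B a y, by rwa [neg_smul, one_smul, neg_add_eq_zero] at e⟩
  obtain ⟨f, hf, ef⟩ := sub_exists_ne hP hT e0
  have s2 := (S.sing _ h2).B_self
  have m1 := S.lin ha h2 ae 1 (-(P.B a f / P.B e2 f))
  have m2 := S.lin hy h2 (B_swap_zero ey) 1 (-(P.B y f / P.B e2 f))
  have k : P.B ((1 : F) • a + (-(P.B a f / P.B e2 f)) • e2) ((1 : F) • y + (-(P.B y f / P.B e2 f)) • e2) ≠ 0 := by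
    simpa [ae, ey, s2] using ay
  exact ⟨_, m1, _, S.smul _ _ m2, e2, h2, _, S.smul _ _ hf, hyp_of_ne (S.sing _ m1) (S.sing _ m2) k,
    hyp_of_ne (S.sing _ h2) (S.sing _ hf) ef, by simp [ae, s2], by simp [ef], by simp [B_swap_zero ey, s2],
    by simp [ef]⟩

theorem Sub.four (S : Sub P T) (K : SubFr P e1 f1 e2 f2) (m1 : e1 ∈ T) (n1 : f1 ∈ T) (m2 : e2 ∈ T) (n2 : f2 ∈ T)
    {z : V} (hz : z ∈ span F {e1, e2, f1, f2}) (hs : P.Sing z) : z ∈ T := by
  obtain ⟨x1, x2, y1, y2, rfl⟩ : ∃ x1 x2 y1 y2 : F, z = x1 • e1 + x2 • e2 + (y1 • f1 + y2 • f2) := by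
    simp only [mem_span_insert, mem_span_singleton] at hz
    obtain ⟨a, _, ⟨b, _, ⟨c, _, ⟨d, rfl⟩, rfl⟩, rfl⟩, rfl⟩ := hz
    exact ⟨a, b, c, d, by rw [add_assoc]⟩
  obtain ⟨α, hα⟩ := exists_trace_one hF
  have b1 := K.h1.left.B_self
  have b2 := K.h1.right.B_self
  have b3 := K.h2.left.B_self
  have b4 := K.h2.right.B_self
  have c1 := K.h1.pair
  have c2 := K.h2.pair
  have c3 : P.B f1 e1 = 1 := K.h1.pair'
  have c4 : P.B f2 e2 = 1 := K.h2.pair'
  have d1 := B_swap_zero K.ee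
  have d2 := B_swap_zero K.ef
  have d3 := B_swap_zero K.fe
  have d4 := B_swap_zero K.ff
  have hs := hs.B_self
  simp [b1, b2, b3, b4, c1, c2, c3, c4, d1, d2, d3, d4, K.ee, K.ef, K.fe, K.ff] at hs
  have key : ∀ a s : F, frobq hF s = s →
      (a * x1 + s * frobq hF y2) • e1 + (a * x2 - s * frobq hF y1) • e2 +
      ((a * y1 - s * (α * frobq hF α) * frobq hF x2) • f1 + (a * y2 + s * (α * frobq hF α) * frobq hF x1) • f2) ∈ T ∨
      a * frobq hF a ≠ s * s * (α * frobq hF α) := fun a s h => or_iff_not_imp_right.2 fun e => by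
    refine S.add _ (S.lin m1 m2 K.ee _ _) _ (S.lin n1 n2 K.ff _ _) ?_
    simp [c1, c2, K.ef, d3, frobq_frobq, h]
    linear_combination (x1 * frobq hF y1 + x2 * frobq hF y2) * (not_not.1 e)
  have k1 := (key α 1 (map_one _)).resolve_right (by simp)
  have k2 := (key (frobq hF α) (-1) (by simp)).resolve_right (by simp [frobq_frobq, mul_comm])
  have k3 := S.add _ k1 _ k2 (by
    simp [b1, b2, b3, b4, c1, c2, c3, c4, d1, d2, d3, d4, K.ee, K.ef, K.fe, K.ff, frobq_frobq]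
    linear_combination (α * α + α * frobq hF α) * hs)
  convert k3 using 1
  have : frobq hF α = 1 - α := by linear_combination hα
  rw [this]
  module

theorem SubFr.hyp (K : SubFr P e1 f1 e2 f2) {U : Submodule F V} (m1 : e1 ∈ U) (n1 : f1 ∈ U) (m2 : e2 ∈ U)
    (n2 : f2 ∈ U) (z : V) : ∃ e f, P.Hyp e f ∧ e ∈ U ⊓ P.perp {z} ∧ f ∈ U ⊓ P.perp {z} := by
  suffices ∃ e y, P.Sing e ∧ P.B e y ≠ 0 ∧ (e ∈ U ∧ P.B e z = 0) ∧ y ∈ U ∧ P.B y z = 0 by
    obtain ⟨e, y, h1, h2, h3, h4⟩ := this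
    obtain ⟨_, h5, a, b, rfl⟩ := exists_hyp_of_ne h1 h2
    have h6 : e ∈ U ⊓ P.perp {z} := ⟨h3.1, mem_perp_singleton.2 h3.2⟩
    have h7 : y ∈ U ⊓ P.perp {z} := ⟨h4.1, mem_perp_singleton.2 h4.2⟩
    exact ⟨e, _, h5, h6, add_mem (smul_mem _ _ h7) (smul_mem _ _ h6)⟩
  have b1 := K.h1.left.B_self
  have d1 := B_swap_zero K.ee
  by_cases a1 : P.B e1 z = 0
  · by_cases a2 : P.B e2 z = 0
    · by_cases a3 : P.B f1 z = 0
      · exact ⟨e1, f1, K.h1.left, by simp [K.h1.pair], ⟨m1, a1⟩, n1, a3⟩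
      · exact ⟨e2, f2 - (P.B f2 z / P.B f1 z) • f1, K.h2.left, by simp [K.h2.pair, B_swap_zero K.fe], ⟨m2, a2⟩,
          sub_mem n2 (smul_mem _ _ n1), by simp [a3]⟩
    · exact ⟨e1, f1 - (P.B f1 z / P.B e2 z) • e2, K.h1.left, by simp [K.h1.pair, K.ee], ⟨m1, a1⟩,
        sub_mem n1 (smul_mem _ _ m2), by simp [a2]⟩
  · exact ⟨e2 + (-(P.B e2 z / P.B e1 z)) • e1, f2 - (P.B f2 z / P.B e1 z) • e1,
      K.h2.left.add (K.h1.left.smul _) (by simp [d1]), by simp [K.h2.pair, K.ef, b1, d1],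
      ⟨add_mem m2 (smul_mem _ _ m1), by simp [a1]⟩, sub_mem n2 (smul_mem _ _ m1), by simp [a1]⟩

theorem Sub.step1 (S : Sub P T) {U : Submodule F V} (hU : ∀ x ∈ U, P.Sing x → x ∈ T)
    (hh : ∀ z, ∃ e f, P.Hyp e f ∧ e ∈ U ⊓ P.perp {z} ∧ f ∈ U ⊓ P.perp {z}) {z d : V} (hz : z ∈ T) (hd : d ∈ U)
    (hs : P.Sing (z + d)) (h : P.B d (z + d) = 0 ∨ ∃ x ∈ U ⊓ P.perp {z}, P.B x (z + d) ≠ 0) : z + d ∈ T := by
  obtain ⟨w, w1, w2, w3⟩ : ∃ w ∈ U ⊓ P.perp {z}, P.Sing w ∧ P.B w (z + d) = P.B d (z + d) := by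
    rcases h with h | ⟨x, hx, h⟩
    · exact ⟨0, zero_mem _, S.sing _ S.zero, by simp only [h, map_zero, LinearMap.zero_apply]⟩
    · obtain ⟨e, f, k, he, hf⟩ := hh z
      by_contra hc
      refine h (mem_perp_singleton.1 (k.mem_of_sing (S := (P.perp {z + d}).toAddSubgroup) he hf
        (fun y hy sy => mem_perp_singleton.2 ?_) hx))
      by_contra h0
      exact hc ⟨(P.B d (z + d) / P.B y (z + d)) • y, smul_mem _ _ hy, sy.smul _,
        by rw [B_smul_left, div_mul_cancel₀ _ h0]⟩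
  have k1 : z + w ∈ T := S.add _ hz _ (hU w w1.1 w2) (B_swap_zero (mem_perp_singleton.1 w1.2))
  have k2 : P.B (d - w) (z + d) = 0 := by rw [map_sub, LinearMap.sub_apply, w3, sub_self]
  have k3 := B_swap_zero k2
  have k4 := (S.sing _ k1).B_self
  have e : z + w = z + d - (d - w) := by abel
  have k5 : P.B (d - w) (d - w) = 0 := by
    generalize d - w = u at *
    simpa only [e, map_sub, LinearMap.sub_apply, k2, k3, hs.B_self, zero_sub, neg_neg, sub_zero] using k4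
  have k6 := S.add _ k1 _ (hU _ (sub_mem hd w1.1) (u_sing_iff.2 k5)) (by
    generalize d - w = u at *
    rw [e, map_sub, LinearMap.sub_apply, k3, k5, sub_self])
  rwa [e, sub_add_cancel] at k6

theorem Sub.step (S : Sub P T) {U : Submodule F V} (hU : ∀ x ∈ U, P.Sing x → x ∈ T)
    (hh : ∀ z, ∃ e f, P.Hyp e f ∧ e ∈ U ⊓ P.perp {z} ∧ f ∈ U ⊓ P.perp {z}) {z d : V} (hz : z ∈ T) (hd : d ∈ U)
    (hs : P.Sing (z + d)) : z + d ∈ T := by
  by_cases h : P.B d (z + d) = 0 ∨ ∃ x ∈ U ⊓ P.perp {z}, P.B x (z + d) ≠ 0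
  · exact S.step1 hU hh hz hd hs h
  push Not at h
  obtain ⟨e, f, k, he, hf⟩ := hh z
  have e1 : z + d = z + e + (d - e) := by abel
  rw [e1] at hs ⊢
  refine S.step1 hU hh (S.add _ hz _ (hU e he.1 k.left) (B_swap_zero (mem_perp_singleton.1 he.2)))
    (sub_mem hd he.1) hs (Or.inr ⟨d - P.B d (z + e) • f, ⟨sub_mem hd (smul_mem _ _ hf.1), mem_perp_singleton.2 ?_⟩, ?_⟩)
  · have : P.B f e = 1 := k.pair'
    simp [mem_perp_singleton.1 hf.2, this]
  · rw [← e1, map_sub, LinearMap.sub_apply, B_smul_left, h.2 f hf, mul_zero, sub_zero]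
    exact h.1

theorem Sub.all (S : Sub P T) (hP : P.ND) (hT : span F T = ⊤) {a b : V} (ha : a ∈ T) (a0 : a ≠ 0) (hb : b ∈ T)
    (hab : P.B a b = 0) (hi : b ∉ F ∙ a) {v : V} (hv : P.Sing v) : v ∈ T := by
  obtain ⟨e1, m1, f1, n1, e2, m2, f2, n2, K⟩ := S.frame hP hT ha a0 hb hab hi
  have key : ∀ s : Set V, s.Finite → s ⊆ T → ∀ x ∈ span F s ⊔ span F {e1, e2, f1, f2}, P.Sing x → x ∈ T := by
    intro s hs
    induction s, hs using Set.Finite.induction_on with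
    | empty => exact fun _ x hx => S.four K m1 n1 m2 n2 (by simpa using hx)
    | @insert y s _ _ ih =>
      intro h x hx sx
      rw [span_insert, sup_assoc] at hx
      obtain ⟨_, hy, d, hd, rfl⟩ := mem_sup.1 hx
      obtain ⟨t, rfl⟩ := mem_span_singleton.1 hy
      exact S.step (ih fun _ hu => h (Set.mem_insert_of_mem _ hu)) (K.hyp (mem_sup_right (subset_span (by simp)))
        (mem_sup_right (subset_span (by simp))) (mem_sup_right (subset_span (by simp)))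
        (mem_sup_right (subset_span (by simp)))) (S.smul t y (h (Set.mem_insert _ _))) hd sx
  exact key T (Set.toFinite _) le_rfl v (mem_sup_left (hT ▸ mem_top)) hv

theorem sub_all (hP : P.ND) (hn : finrank F V = n) (h6 : 6 ≤ n) (hq : 3 ≤ q) (hI : Irr H)
    (hl : ∀ a b, InS H a → InS H b → P.B a b = 0 → a + b ≠ 0 → InS H (a + b))
    (h2 : ∃ a b, InS H a ∧ InS H b ∧ P.B a b = 0 ∧ b ∉ F ∙ a) : ∀ v, P.Sing v → v ≠ 0 → InS H v := by
  obtain ⟨a, b, ha, hb, hab, hi⟩ := h2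
  have S : Sub P {v | v = 0 ∨ InS H v} := ⟨Or.inl rfl, fun x hx => hx.elim (fun e => e ▸ u_sing_iff.2 (by simp))
    fun h => h.1, fun c x hx => by
      by_cases hc : c = 0
      · exact Or.inl (by simp [hc])
      · exact hx.imp (fun e => by simp [e]) fun h => h.smul hc,
    fun x hx y hy h => by
      rcases hx with rfl | hx
      · rwa [zero_add]
      rcases hy with rfl | hy
      · rw [add_zero]; exact Or.inr hx
      exact or_iff_not_imp_left.2 (hl x y hx hy h)⟩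
  exact fun v hv h0 => (S.all hP (hI.span_top (fun g hg x hx => hx.imp (fun e => by simp [e]) fun h => h.act hg)
    (Or.inr ha) ha.2.1) (Or.inr ha) ha.2.1 (Or.inr hb) hab hi hv).resolve_left h0

end Cfsg.Agent.UR
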