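import Cfsg.Agent.UR.Base

/-! Rank three actions of unitary groups: an upper bound for the degree. -/

set_option autoImplicit false
set_option linter.unusedSectionVars false

namespace Cfsg.Agent.UR

open Module MulAction Submodule Cfsg.Agent.Forms Cfsg.Agent.Polar Cfsg.Agent.Polar.PQ

theorem ub_double {α β : Type*} {s : Set α} {t : Set β} (hs : s.Finite) (ht : t.Finite) (r : α → β → Prop) {m n : ℕ}
    (hm : ∀ a ∈ s, m ≤ {b | b ∈ t ∧ r a b}.ncard) (hn : ∀ b ∈ t, {a | a ∈ s ∧ r a b}.ncard ≤ n) :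
    s.ncard * m ≤ t.ncard * n := by
  classical
  rw [Set.ncard_eq_toFinset_card _ hs, Set.ncard_eq_toFinset_card _ ht]
  refine Finset.card_mul_le_card_mul r (fun a ha => (hm a (by simpa using ha)).trans_eq ?_)
    fun b hb => Eq.trans_le ?_ (hn b (by simpa using hb)) <;> rw [← Set.ncard_coe_finset] <;> congr 1 <;> ext <;> simp

variable {F : Type*} [Field F] [Fintype F] {q : ℕ} {hF : Fintype.card F = q ^ 2}
  {V : Type*} [AddCommGroup V] [Module F V] [Finite V] {P : PQ (uFP hF) V} {H : Subgroup P.Iso} {n : ℕ}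

variable (P) in
/-- the rank two elements of the groups `E_ℓ` -/
def IsR (g : P.Iso) : Prop :=
  ∃ u w c, P.Sing u ∧ u ≠ 0 ∧ P.Sing w ∧ P.B w u = 0 ∧ w ∉ F ∙ u ∧ c ∈ (uFP hF).Λ ∧ g = P.eich u w c

theorem ub_ok {u w : V} {c : F} (hu : P.Sing u) (hw : P.Sing w) (h : P.B w u = 0) (hc : c ∈ (uFP hF).Λ) :
    P.EOk u w c := by simpa using (show P.EOk u w 0 from ⟨hu, h, hw⟩).add_lam hc

theorem IsR.conj {g : P.Iso} (h : IsR P g) (k : P.Iso) : IsR P (k * g * k⁻¹) := by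
  obtain ⟨u, w, c, h1, h2, h3, h4, h5, h6, rfl⟩ := h
  refine ⟨k • u, k • w, c, h1.act k, act_ne_zero k h2, h3.act k, by simpa, fun h => h5 ?_, h6,
    (ub_ok h1 h3 h4 h6).conj_eich k⟩
  obtain ⟨a, ha⟩ := mem_span_singleton.1 h
  exact mem_span_singleton.2 ⟨a, MulAction.injective k (by simpa [act_smul] using ha)⟩

theorem IsT.conj {g : P.Iso} (h : IsT P g) (k : P.Iso) : IsT P (k * g * k⁻¹) := by
  obtain ⟨v, c, h1, h2, h3, h4, rfl⟩ := h
  exact ⟨k • v, c, h1.act k, act_ne_zero k h2, h3, h4, conj_tv h1 h3 k⟩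

theorem IsT.notMem (hP : P.ND) (hQ : NoQ H) {g : P.Iso} (h : IsT P g) : g ∉ H := fun hg => by
  obtain ⟨v, c, h1, h2, h3, h4, rfl⟩ := h
  exact hQ.noTv hP v ⟨h1, h2, c, h3, h4, hg⟩

theorem IsR.notMem (hP : P.ND) (hQ : NoQ H) {g : P.Iso} (h : IsR P g) : g ∉ H := fun hg => by
  obtain ⟨u, w, c, h1, h2, h3, h4, h5, h6, rfl⟩ := h
  obtain ⟨f, hf⟩ := hP.exists_hyp h1 h2
  exact h5 (hf.mem_span_of_eich_eq_one (ub_ok h1 h3 h4 h6) (hQ u h1 h2 _ hg (eich_mem_U _ _ _)))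

theorem ub_split {e x : V} (he : P.Sing e) (hx : P.Sing x) (h : P.B x e = 0) {d : F} (hd : d ∈ (uFP hF).Λ) :
    P.eich e (-d • x) d = P.eich (e + x) 0 d * P.eich x 0 (-d) := by
  have := (transvec_add he hx h hd).2
  rw [this, mul_assoc, transvec_mul hx hd (neg_mem hd), add_neg_cancel, eich_zero, mul_one, uFP_eps, one_mul]

theorem isR_tv {x y : V} (hx : P.Sing x) (hy : P.Sing y) (h : P.B x y = 0) (h0 : x ≠ 0) (h1 : y ∉ F ∙ x) {s s' : F}
    (hs : s ∈ (uFP hF).Λ) (hs' : s' ∈ (uFP hF).Λ) (s0 : s ≠ 0) (s0' : s' ≠ 0) :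
    IsR P (P.eich y 0 s * P.eich x 0 s') := by
  obtain ⟨a, ha⟩ := exists_norm_eq hF (-s' / s) (by simp [u_lam_tau hs, u_lam_tau hs', neg_div_neg_eq, neg_div, div_neg])
  have a0 : a ≠ 0 := by rintro rfl; simp [s0, s0', eq_comm] at ha
  have h2 : P.Sing (y - a • x) := by
    rw [sub_eq_add_neg]; exact hy.add (hx.smul a).neg (by simp [B_swap_zero h])
  have h3 : P.B (a • x) (y - a • x) = 0 := by simp [h, hx.B_self]
  refine ⟨y - a • x, -s • a • x, s, h2, fun e => h1 (sub_eq_zero.1 e ▸ smul_mem _ _ (mem_span_singleton_self x)),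
    (hx.smul a).smul _, by rw [B_smul_left, h3, mul_zero], fun e => notMem_span_symm (F := F) h0 (y := y - a • x) (fun e => h1 ?_) ?_,
    hs, by rw [ub_split h2 (hx.smul a) h3 hs, sub_add_cancel, transvec_smul hx (neg_mem hs), ha]; congr 2; field_simp⟩
  · simpa using add_mem e (smul_mem _ a (mem_span_singleton_self x))
  · simpa [smul_smul, s0, a0, mul_assoc] using smul_mem _ (-s * a)⁻¹ e

/-- elements of order `p` moving vectors inside a hyperbolic line -/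
theorem ub_tv (hP : P.ND) {e v : V} (he : P.Sing e) (hv : P.Sing v) (h : P.B e v ≠ 0) {g : P.Iso}
    (hg : ∀ z, g • z - z ∈ span F {e, v}) (h1 : g ≠ 1) (hp : g ^ ringChar F = 1) :
    ∃ y ∈ span F {e, v}, P.Sing y ∧ y ≠ 0 ∧ ∃ s ∈ (uFP hF).Λ, s ≠ 0 ∧ g = P.eich y 0 s := by
  have : Nontrivial V := ⟨e, 0, by rintro rfl; simp at h⟩
  have : Fact (ringChar F).Prime := ⟨CharP.char_is_prime F _⟩
  have : CharP (End F V) (ringChar F) := charP_of_injective_algebraMap (FaithfulSMul.algebraMap_injective F _) _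
  set N : End F V := ((g : V ≃ₗ[F] V) : End F V) - 1 with hN
  have e1 : ∀ z, N z = g • z - z := fun z => rfl
  have e2 : N ^ ringChar F = 0 := by
    rw [hN, sub_pow_char_of_commute _ (Commute.one_right _), one_pow, sub_eq_zero]
    ext z
    have : ∀ k : ℕ, (((g : V ≃ₗ[F] V) : End F V) ^ k) z = g ^ k • z := fun k => by
      induction k with
      | zero => simp
      | succ k ih => rw [pow_succ', pow_succ', End.mul_apply, ih, mul_smul]; rfl
    rw [this, hp]; simp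
  obtain ⟨j, h2, h3⟩ := Nat.exists_not_and_succ_of_not_zero_of_exists (p := fun j => N ^ (j + 1) = 0)
    (fun h => h1 (iso_ext fun z => by simpa [e1, sub_eq_zero] using LinearMap.congr_fun h z))
    ⟨ringChar F, by rw [pow_succ, e2, zero_mul]⟩
  obtain ⟨z, hz⟩ : ∃ z, (N ^ (j + 1)) z ≠ 0 := not_forall.1 fun h => h2 (LinearMap.ext h)
  have h4 : g • (N ^ (j + 1)) z = (N ^ (j + 1)) z := by
    rw [← sub_eq_zero, ← e1, ← End.mul_apply, ← pow_succ', h3]; rfl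
  have h5 : ∃ z', (N ^ (j + 1)) z = g • z' - z' := ⟨_, by rw [pow_succ', End.mul_apply, e1]⟩
  generalize (N ^ (j + 1)) z = y at hz h4 h5
  have h6 : ∀ x, P.B (g • x - x) y = 0 := fun x => by
    rw [map_sub, LinearMap.sub_apply, sub_eq_zero]; nth_rw 1 [← h4]; simp
  obtain ⟨z', rfl⟩ := h5
  have h7 := h6 z'
  have hy := hg z'
  generalize g • z' - z' = y at *
  have h8 : ∀ x, ∃ a : F, g • x = x + a • y := fun x => by
    obtain ⟨a, b, e3⟩ := mem_span_pair.1 hy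
    obtain ⟨a', b', e4⟩ := mem_span_pair.1 (hg x)
    have h9 := h6 x
    rw [← e4] at h9
    subst e3
    simp only [map_add, LinearMap.add_apply, B_smul_left, B_smul_right, he.B_self, hv.B_self] at h7 h9
    have b0 := B_swap_ne h
    simp only [← sub_eq_iff_eq_add', ← e4]
    by_cases ha : a = 0
    · have hb : b ≠ 0 := by rintro rfl; simp [ha] at hz
      have : a' = 0 := by simpa [ha, hb, h] using h9
      exact ⟨b' / b, by simp [ha, this, smul_smul, hb]⟩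
    · have : b' = a' / a * b := by
        rw [div_mul_eq_mul_div, eq_div_iff ha]
        exact mul_right_cancel₀ (mul_ne_zero ((map_ne_zero (frobq hF)).2 ha) b0) (by linear_combination a * h9 - a' * h7)
      exact ⟨a' / a, by simp [this, smul_smul, ha]⟩
  have hs := u_sing_iff.2 h7
  obtain ⟨f, hf⟩ := hP.exists_hyp hs hz
  obtain ⟨w, hw, c, hc, rfl⟩ := hf.mem_U_iff.1 (mem_U.2 ⟨h4, fun x _ => h8 x⟩)
  obtain ⟨a, ha⟩ := h8 f
  rw [hf.eich_smul_f hc (mem_perp_pair.1 hw).2] at ha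
  have h9 : w = (a + c) • y := by simp only [uFP_eps, one_smul] at ha; linear_combination (norm := module) ha
  have h10 : w = 0 := by
    have := (mem_perp_pair.1 hw).2
    rw [h9, B_smul_left, hf.pair, mul_one] at this
    rw [h9, this, zero_smul]
  subst h10
  exact ⟨y, hy, hs, hz, c, (sing_iff_of_QEq hc.val).1 sing_zero, fun e => h1 (by rw [e, eich_zero]), rfl⟩

theorem ub_tv_pow {x : V} (hx : P.Sing x) {c : F} (hc : c ∈ (uFP hF).Λ) (k : ℕ) :
    P.eich x 0 c ^ k = P.eich x 0 (k • c) := by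
  induction k with
  | zero => simp [eich_zero]
  | succ k ih => rw [pow_succ, ih, transvec_mul hx (nsmul_mem hc k) hc, succ_nsmul]

theorem ub_three (hP : P.ND) (hQ : NoQ H) {e v x : V} (he : P.Sing e) (hv : P.Sing v) (hx : P.Sing x) (h0 : x ≠ 0)
    (h : P.B e v ≠ 0) (h1 : P.B x e = 0) (h2 : P.B x v = 0) {c d s : F} (hc : c ∈ (uFP hF).Λ) (hd : d ∈ (uFP hF).Λ)
    (hs : s ∈ (uFP hF).Λ) (s0 : s ≠ 0) : P.eich v 0 c * P.eich e 0 d * P.eich x 0 s ∉ H := fun hH => by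
  have hm : ∀ z, (P.eich v 0 c * P.eich e 0 d) • z - z ∈ span F {e, v} := fun z => by
    rw [mul_smul, tv_smul hv hc, tv_smul he hd]
    exact mem_span_pair.2 ⟨-(d * P.B z e), -(c * P.B (z - (d * P.B z e) • e) v), by module⟩
  have hf : (P.eich v 0 c * P.eich e 0 d) • x = x := by simp [mul_smul, tv_smul hv hc, tv_smul he hd, h1, h2]
  generalize P.eich v 0 c * P.eich e 0 d = g at *
  have h3 : ∀ k : ℕ, g ^ k * P.eich x 0 (k • s) ∈ H := fun k => by
    rw [← ub_tv_pow hx hs, ← Commute.mul_pow (transvec_commute hx hs hf)]; exact pow_mem hH k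
  have h4 : ∀ k : ℕ, ∀ z, g ^ k • z - z ∈ span F {e, v} := fun k z => by
    induction k with
    | zero => simp
    | succ k ih => simpa [pow_succ', mul_smul] using add_mem (hm (g ^ k • z)) ih
  obtain ⟨m, e1⟩ : ringChar F ∣ orderOf g := (ringChar.spec F _).1 (by_contra fun h5 => IsT.notMem hP hQ
    ⟨x, _, hx, h0, nsmul_mem hs _, by simpa [s0] using h5, rfl⟩ (by simpa using h3 (orderOf g)))
  have h5 := orderOf_pos g
  have h6 : 1 < ringChar F := (CharP.char_is_prime F _).one_lt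
  obtain ⟨y, hy, y1, y0, t, t1, t0, e2⟩ := ub_tv hP he hv h (h4 m)
    (pow_ne_one_of_lt_orderOf (by rintro rfl; omega) (by rw [e1] at h5 ⊢; nlinarith [Nat.pos_of_mul_pos_left h5]))
    (by rw [← pow_mul, mul_comm, ← e1, pow_orderOf_eq_one])
  have h7 := e2 ▸ h3 m
  by_cases h8 : m • s = 0
  · exact IsT.notMem hP hQ ⟨y, t, y1, y0, t1, t0, rfl⟩ (by simpa [h8, eich_zero] using h7)
  obtain ⟨a, b, rfl⟩ := mem_span_pair.1 hy
  refine (isR_tv hx y1 (by simp [h1, h2]) h0 (fun h9 => y0 ?_) t1 (nsmul_mem hs m) t0 h8).notMem hP hQ h7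
  obtain ⟨k, hk⟩ := mem_span_singleton.1 h9
  have a1 := congrArg (P.B · e) hk
  have a2 := congrArg (P.B · v) hk
  simp [h1, h2, he.B_self, hv.B_self, h, B_swap_ne h] at a1 a2
  simp [a1, a2]

theorem IsR.zero {g : P.Iso} (h : IsR P g) :
    ∃ u w, P.Sing u ∧ u ≠ 0 ∧ P.Sing w ∧ P.B w u = 0 ∧ w ∉ F ∙ u ∧ g = P.eich u w 0 := by
  obtain ⟨u, w, c, h1, h2, h3, h4, h5, h6, rfl⟩ := h
  obtain ⟨b, rfl⟩ := u_hmin c h6
  have := (show P.EOk u w 0 from ⟨h1, h4, h3⟩).eich_add_smul_e (-b)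
  exact ⟨u, w + -b • u, h1, h2, h3.add (h1.smul _) (by simp [h4]), by simp [h4, h1.B_self],
    fun h => h5 (by simpa using sub_mem h (smul_mem _ (-b) (mem_span_singleton_self u))), by
      rw [this]; congr 1; simp; ring⟩

theorem ub_good (hP : P.ND) (hQ : NoQ H) {r : P.Iso} (hr : IsR P r) {v : V} (hv : P.Sing v) (h0 : v ≠ 0) {c : F}
    (hc : c ∈ (uFP hF).Λ) (h : P.eich v 0 c * r ∈ H) :
    ∃ u, P.Sing u ∧ u ≠ 0 ∧ r ∈ P.U u ∧ P.B v u = 0 ∧ v ∉ F ∙ u := by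
  obtain ⟨e, w, h1, h2, h3, h4, h5, rfl⟩ := hr.zero
  have k : ∀ {u}, P.Sing u → P.B u e = 0 → P.eich e u 0 ∈ P.U u := fun hu h => by
    have := eich_swap h1 hu h 1
    rw [one_smul, map_one, neg_smul, one_smul] at this; rw [this]; exact eich_mem_U _ _ _
  by_cases h6 : P.B e v = 0
  · by_cases h7 : v ∈ F ∙ e
    · obtain ⟨a, rfl⟩ := mem_span_singleton.1 h7
      exact ⟨w, h3, ne_zero_of_notMem h5, k h3 h4, by simp [B_swap_zero h4], fun h => notMem_span_symm h2 h5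
        (by simpa [smul_smul, left_ne_zero_of_smul h0] using smul_mem _ a⁻¹ h)⟩
    · exact ⟨e, h1, h2, eich_mem_U _ _ _, B_swap_zero h6, h7⟩
  obtain ⟨u, a, rfl, h7⟩ : ∃ u, ∃ a : F, w = u + a • e ∧ P.B u v = 0 :=
    ⟨w - (P.B w v / P.B e v) • e, P.B w v / P.B e v, by simp, by simp [h6]⟩
  have h8 : P.B u e = 0 := by simpa [h1.B_self] using h4
  have h9 : P.Sing u := by simpa using h3.add (h1.smul (-a)) (by rw [B_smul_right, h4, mul_zero])
  have u0 : u ≠ 0 := by rintro rfl; exact h5 (by simp [mem_span_singleton])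
  rw [(show P.EOk e u 0 from ⟨h1, h8, h9⟩).eich_add_smul_e] at h ⊢
  have hd : 0 - (uFP hF).ε * (a - (uFP hF).ε * frobq hF a) ∈ (uFP hF).Λ := by
    simpa using neg_mem ((uFP hF).lam_min a)
  generalize 0 - (uFP hF).ε * (a - (uFP hF).ε * frobq hF a) = d at h hd ⊢
  by_cases d0 : d = 0
  · exact ⟨u, h9, u0, d0 ▸ k h9 h8, B_swap_zero h7, fun h => by
      obtain ⟨b, rfl⟩ := mem_span_singleton.1 h
      simp [B_swap_zero h8] at h6⟩
  have h10 : P.B (-d⁻¹ • u) e = 0 := by simp [h8]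
  rw [show u = -d • -d⁻¹ • u by simp [smul_smul, d0], ub_split h1 (h9.smul _) h10 hd, ← mul_assoc] at h
  exact (ub_three hP hQ (h1.add (h9.smul _) (B_swap_zero h10)) hv (h9.smul _) (by simp [d0, u0]) (by simpa [h7])
    (by simp [h8, h9.B_self]) (by simp [h7]) hc hd (neg_mem hd) (neg_ne_zero.2 d0) h).elim

theorem ub_cmp (hP : P.ND) {u v w : V} (h0 : u ≠ 0) (hv : P.Sing v) (hw : P.Sing w) (h1 : P.B v u = 0)
    (h2 : P.B w u = 0) (hu : P.Sing u) (h3 : v ∉ F ∙ u) {c d : F} (hc : c ∈ (uFP hF).Λ) (hd : d ∈ (uFP hF).Λ) (d0 : d ≠ 0)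
    (h : (P.eich v 0 d)⁻¹ * P.eich w 0 c ∈ P.U u) : ∃ a : F, P.eich v 0 d = P.eich (w + a • u) 0 c := by
  have : FiniteDimensional F V := Module.Finite.of_finite
  obtain ⟨z, z1, z2⟩ := exists_perp_B_eq hP (li_of_notMem h0 h3) 1
  obtain ⟨a, ha⟩ := h.2 z z1
  rw [mul_smul, inv_smul_eq_iff, tv_smul hw hc, tv_smul hv hd] at ha
  simp only [map_add, LinearMap.add_apply, B_smul_left, z2, B_swap_zero h1, mul_zero, add_zero, mul_one] at ha
  obtain ⟨α, β, e1, rfl⟩ : ∃ α β : F, α * d = c * P.B z w ∧ v = α • w + β • u :=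
    ⟨c * P.B z w / d, a / d, by field_simp, smul_right_injective V d0 (by
      simp only [smul_add, smul_smul, mul_div_cancel₀ _ d0]; linear_combination (norm := module) ha)⟩
  have a0 : α ≠ 0 := by rintro rfl; exact h3 (by simp [mem_span_singleton])
  refine ⟨β / α, ?_⟩
  rw [show α • w + β • u = α • (w + (β / α) • u) by simp [smul_smul, mul_div_cancel₀ _ a0],
    transvec_smul (hw.add (hu.smul _) (by simp [h2])) hd]
  simp only [map_add, B_smul_right, z1, mul_zero, add_zero] at z2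
  congr 1; linear_combination frobq hF α * e1 + c * z2

variable (P) in
/-- transvections -/
def DT : Set P.EG := {g | IsT P g.1}

variable (P) in
/-- rank two elements -/
def RT : Set P.EG := {g | IsR P g.1}

theorem card_DT (hP : P.ND) (hn : finrank F V = n) (h1 : 1 ≤ n) : (DT P).ncard * (q + 1) = Iq q n := by
  obtain ⟨d, hd, d0⟩ := u_exists_lam hF
  rw [← ncard_sing0 hP hn h1, ← mul_one (P.sing0 _).ncard]
  refine ncard_double (Set.toFinite _) (Set.toFinite _) (fun g v => g.1 = P.eich v 0 d) ?_ fun v hv => ?_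
  · rintro g ⟨w, c, h1, h2, h3, h4, e⟩
    rw [← u_ncard_norm_eq hF (s := c / d) (by simp [u_lam_tau h3, u_lam_tau hd, neg_div_neg_eq]) (div_ne_zero h4 d0),
      ← Set.ncard_image_of_injective _ (smul_left_injective F h2), e]
    congr 1; ext v
    refine ⟨fun ⟨⟨_, v0, hv⟩, e⟩ => ?_, ?_⟩
    · obtain ⟨z, hz⟩ := hP.exists_eq' v0 1
      have := congrArg (· • z) e
      simp only [tv_smul h1 h3, tv_smul hv hd, hz, mul_one, sub_right_inj] at this
      obtain ⟨a, e1, rfl⟩ : ∃ a : F, a * d = c * P.B z w ∧ v = a • w := ⟨c * P.B z w / d, by field_simp,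
        smul_right_injective V d0 (by simp only [smul_smul, mul_div_cancel₀ _ d0, this])⟩
      rw [B_smul_right] at hz
      exact ⟨a, by rw [Set.mem_ofPred_eq, eq_div_iff d0]; linear_combination frobq hF a * e1 + c * hz, rfl⟩
    · rintro ⟨a, ha : _ = _, rfl⟩
      exact ⟨⟨trivial, smul_ne_zero (by rintro rfl; simp [eq_comm, h4, d0] at ha) h2, h1.smul a⟩, by
        rw [transvec_smul h1 hd, ha, div_mul_cancel₀ _ d0]⟩
  · exact Set.ncard_eq_one.2 ⟨⟨_, eich_mem_EG v 0 d⟩, Set.eq_singleton_iff_unique_mem.2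
      ⟨⟨⟨v, d, hv.2.2, hv.2.1, hd, d0, rfl⟩, rfl⟩, fun g hg => Subtype.ext hg.2⟩⟩

theorem ub_ts {u w : V} (hu : P.Sing u) (hw : P.Sing w) (h : P.B w u = 0) : P.TotSing (span F {u, w}) :=
  totSing_span (by rintro _ (rfl | rfl) <;> assumption)
    (by rintro _ (rfl | rfl) _ (rfl | rfl) <;> simp [hu.B_self, hw.B_self, h, B_swap_zero h])

theorem lam_ncard : ((uFP hF).Λ : Set F).ncard = q := (Nat.card_coe_set_eq _).symm.trans (card_lam hF)

theorem card_RU (hP : P.ND) (hn : finrank F V = n) (h3 : 3 ≤ n) {u : V} (hu : P.Sing u) (h0 : u ≠ 0) :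
    {g | g ∈ RT P ∧ g.1 ∈ P.U u}.ncard = Iq q (n - 2) * q := by
  have : FiniteDimensional F V := Module.Finite.of_finite
  obtain ⟨f, hf⟩ := hP.exists_hyp hu h0
  have h1 := ncard_sing0 (hf.emb.nd hP) (n := n - 2) (by have := hf.finrank_perp; omega) (by omega)
  have h2 := ncard_sing0_res (P := P) (P.perp {u, f})
  rw [← ncard_sing0_add_one, h1, add_left_inj] at h2
  refine Eq.trans ?_ (congrArg₂ (· * ·) h2 (lam_ncard (hF := hF)))
  rw [← Set.ncard_prod, ← Set.InjOn.ncard_image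
    (f := fun p : V × F => (⟨P.eich u p.1 p.2, eich_mem_EG _ _ _⟩ : P.EG)) fun p hp p' hp' e => Prod.ext_iff.2
      (hf.eich_inj (ub_ok hu hp.1.2.2 (mem_perp_pair.1 hp.1.1).1 hp.2) (mem_perp_pair.1 hp.1.1).2
        (ub_ok hu hp'.1.2.2 (mem_perp_pair.1 hp'.1.1).1 hp'.2) (mem_perp_pair.1 hp'.1.1).2 (congrArg Subtype.val e))]
  congr 1; ext g
  refine ⟨fun ⟨⟨v, y, d, a1, a2, a3, a4, a5, a6, e⟩, hU⟩ => ?_, ?_⟩
  · obtain ⟨w, hw, c, hc, e'⟩ := hf.mem_U_iff.1 hU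
    have h4 : ∀ z, P.B z v • y - (P.B z y + d * P.B z v) • v = P.B z u • w - (P.B z w + c * P.B z u) • u := fun z => by
      have := congrArg (· • z) (e.symm.trans e')
      simp only [u_eich_smul hc, u_eich_smul (ub_ok a1 a3 a4 a6)] at this
      linear_combination (norm := module) this
    have h5 : P.Sing w := by
      have := (a3.smul (P.B f v)).add (a1.smul (-(P.B f y + d * P.B f v))) (by simp [a4])
      rw [neg_smul, ← sub_eq_add_neg, h4, hf.pair', B_swap_zero (mem_perp_pair.1 hw).2] at this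
      simpa using this.add (hu.smul c) (by simp [hc.perp, hu.B_self])
    refine ⟨(w, c), ⟨⟨hw, ?_, h5⟩, (sing_iff_of_QEq hc.val).1 h5⟩, Subtype.ext e'.symm⟩
    rintro rfl
    obtain ⟨z, z1, z2⟩ := hP.exists_pair (li_of_notMem a2 a5) 1 0
    obtain ⟨z', z3, z4⟩ := hP.exists_pair (li_of_notMem a2 a5) 0 1
    have b1 := h4 z
    have b2 := h4 z'
    rw [u_swap v, u_swap y] at b1 b2
    simp only [z1, z2, z3, z4, map_one, map_zero, one_smul, zero_smul, mul_zero, mul_one, zero_add, add_zero, smul_zero,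
      zero_sub, neg_inj] at b1 b2
    have b3 : c * P.B z' u ≠ 0 := fun e => a2 (by rw [b2, e, zero_smul])
    exact a5 (mem_span_singleton.2 ⟨d - c * P.B z u / (c * P.B z' u), by
      rw [sub_smul, b2, smul_smul (_ / _), div_mul_cancel₀ _ b3, ← b2]; linear_combination (norm := module) -b1⟩)
  · rintro ⟨⟨w, c⟩, ⟨⟨h4, h5, h6⟩, h7⟩, rfl⟩
    refine ⟨⟨u, w, c, hu, h0, h6, (mem_perp_pair.1 h4).1, fun h => ?_, h7, rfl⟩, eich_mem_U _ _ _⟩
    obtain ⟨a, rfl⟩ := mem_span_singleton.1 h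
    simpa [hf.pair, left_ne_zero_of_smul h5] using (mem_perp_pair.1 h4).2

theorem card_RT (hP : P.ND) (hn : finrank F V = n) (h3 : 3 ≤ n) :
    (RT P).ncard * ((q + 1) * (q ^ 2 - 1)) = Iq q n * (Iq q (n - 2) * q) := by
  have : FiniteDimensional F V := Module.Finite.of_finite
  rw [← ncard_sing0 hP hn (by omega)]
  refine ncard_double (Set.toFinite _) (Set.toFinite _) (fun g u => g.1 ∈ P.U u) ?_
    fun u hu => card_RU hP hn h3 hu.2.2 hu.2.1
  rintro g ⟨v, w, c, h1, h2, h4, h5, h6, h7, e⟩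
  rw [← u4_baer_level hP (ub_ts h1 h4 h5) (finrank_span_pair (li_of_notMem h2 h6)) (subset_span (by simp)) h2
    (subset_span (by simp)) h6 h7, e]
  congr 1; ext y
  refine and_congr_left fun hU => and_congr_left fun ⟨y0, _⟩ => iff_of_true trivial (by_contra fun h8 => ?_)
  obtain ⟨z, z1, z2⟩ := exists_perp_B_eq hP (li_of_notMem y0 (notMem_span_symm h2 fun h => h8 (span_mono (by simp) h))) 1
  obtain ⟨a, ha⟩ := hU.2 z z1
  rw [u_eich_smul (ub_ok h1 h4 h5 h7), z2, one_smul, add_sub_assoc, add_right_inj] at ha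
  by_cases a0 : a = 0
  · exact h6 (mem_span_singleton.2 ⟨_, (sub_eq_zero.1 (by rw [ha, a0, zero_smul])).symm⟩)
  · exact h8 ((smul_mem_iff _ a0).1 (ha ▸ sub_mem (subset_span (by simp)) (smul_mem _ _ (subset_span (by simp)))))

section
variable {G X : Type*} [Group G] [MulAction G X] {x : X} {S : Set G}

/-- neighbours with respect to a set of group elements -/
def nbr (S : Set G) (y : X) : Set X := (· • y) '' S

theorem nbr_act (hS : ∀ s ∈ S, ∀ k, k * s * k⁻¹ ∈ S) (k : G) {y w : X} (h : w ∈ nbr S y) : k • w ∈ nbr S (k • y) := by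
  obtain ⟨s, hs, rfl⟩ := h
  exact ⟨_, hS s hs k, by simp [mul_smul]⟩

theorem ub_cover (h3 : Nat.card (orbitRel.Quotient (stabilizer G x) X) = 3) {y z : X} (hy : y ≠ x) (hz : z ≠ x)
    (h : ∀ k : G, k • x = x → k • y ≠ z) (w : X) :
    w = x ∨ (∃ k : G, k • x = x ∧ k • y = w) ∨ ∃ k : G, k • x = x ∧ k • z = w := by
  classical
  have : Finite (orbitRel.Quotient (stabilizer G x) X) := Nat.finite_of_card_ne_zero (by omega)
  have := Fintype.ofFinite (orbitRel.Quotient (stabilizer G x) X)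
  have k : ∀ {a b : X}, (Quotient.mk'' a : orbitRel.Quotient (stabilizer G x) X) = Quotient.mk'' b →
      ∃ k : G, k • x = x ∧ k • b = a := fun e => by
    obtain ⟨k, hk⟩ := Quotient.exact' e
    exact ⟨k.1, k.2, hk⟩
  have k' : ∀ {a : X}, (Quotient.mk'' a : orbitRel.Quotient (stabilizer G x) X) = Quotient.mk'' x → a = x := fun e => by
    obtain ⟨k, h1, h2⟩ := k e
    rw [← h2, h1]
  have e : ({Quotient.mk'' x, Quotient.mk'' y, Quotient.mk'' z} : Finset (orbitRel.Quotient (stabilizer G x) X)) =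
      Finset.univ := Finset.eq_univ_of_card _ (by
    rw [Finset.card_eq_three.2 ⟨_, _, _, fun e => hy (k' e.symm), fun e => hz (k' e.symm),
      fun e => by obtain ⟨k, h1, h2⟩ := k e.symm; exact h k h1 h2, rfl⟩, ← Nat.card_eq_fintype_card, h3])
  have := e.ge (Finset.mem_univ (Quotient.mk'' w))
  simp only [Finset.mem_insert, Finset.mem_singleton] at this
  exact this.imp k' (Or.imp k k)

theorem nbr_fib [Finite G] (hS : ∀ s ∈ S, ∀ k, k * s * k⁻¹ ∈ S)
    (h : ∀ y ∈ nbr S x, ∀ z ∈ nbr S x, ∃ k : G, k • x = x ∧ k • y = z) : ∃ c, (nbr S x).ncard * c = S.ncard := by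
  have k : ∀ y ∈ nbr S x, ∀ z ∈ nbr S x, {s | s ∈ S ∧ s • x = y}.ncard ≤ {s | s ∈ S ∧ s • x = z}.ncard :=
    fun y hy z hz => by
      obtain ⟨k, h1, rfl⟩ := h y hy z hz
      exact Set.ncard_le_ncard_of_injOn (fun s => k * s * k⁻¹) (fun s hs => ⟨hS s hs.1 k, by
        rw [mul_smul, mul_smul, inv_smul_eq_iff.2 h1.symm, hs.2]⟩) fun a _ b _ e => by simpa using e
  rcases S.eq_empty_or_nonempty with rfl | ⟨s, hs⟩
  · exact ⟨0, by simp⟩
  refine ⟨{t | t ∈ S ∧ t • x = s • x}.ncard, (ncard_double (Set.Finite.image _ (Set.toFinite _)) (Set.toFinite _)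
    (fun y t => t • x = y) (fun y hy => (k y hy _ ⟨s, hs, rfl⟩).antisymm (k _ ⟨s, hs, rfl⟩ y hy))
    fun t ht => Set.ncard_eq_one.2 ⟨t • x, ?_⟩).trans (mul_one _)⟩
  ext y; exact ⟨fun h => h.2.symm, fun h => ⟨⟨t, ht, h.symm⟩, h.symm⟩⟩

end

theorem Iq_pos (hq : 2 ≤ q) (h2 : 2 ≤ n) : 0 < Iq q n := by
  have h1 : 1 < q ^ n := Nat.one_lt_pow (by omega) hq
  have h3 : 1 < q ^ (n - 1) := Nat.one_lt_pow (by omega) hq
  unfold Iq; split_ifs <;> exact Nat.mul_pos (by omega) (by omega)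

theorem DT_conj : ∀ s ∈ DT P, ∀ k, k * s * k⁻¹ ∈ DT P := fun _ h k => IsT.conj h k.1

theorem RT_conj : ∀ s ∈ RT P, ∀ k, k * s * k⁻¹ ∈ RT P := fun _ h k => IsR.conj h k.1

variable {X : Type*} [Finite X] [MulAction P.EG X] {x : X}

theorem ub_res (hP : P.ND) (hQ : NoQ (Hx P x)) {r : P.EG} (hr : r ∈ RT P) (h : r • x ∈ nbr (DT P) x) :
    ∃ u, P.Sing u ∧ u ≠ 0 ∧ r.1 ∈ P.U u ∧ ∃ v c, P.Sing v ∧ P.B v u = 0 ∧ v ∉ F ∙ u ∧ c ∈ (uFP hF).Λ ∧ c ≠ 0 ∧
      P.eich v 0 c * r.1 ∈ Hx P x := by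
  obtain ⟨t, ⟨v, c, h1, h2, h3, h4, e⟩, h⟩ := h
  have h5 : P.eich v 0 (-c) * r.1 ∈ Hx P x := by
    have := mem_Hx.2 (show (t⁻¹ * r) • x = x by rw [mul_smul, inv_smul_eq_iff]; exact h.symm)
    rwa [Subgroup.coe_mul, Subgroup.coe_inv, e, inv_eq_of_mul_eq_one_right (by
      rw [transvec_mul h1 h3 (neg_mem h3), add_neg_cancel, eich_zero])] at this
  obtain ⟨u, a1, a2, a3, a4, a5⟩ := ub_good hP hQ hr h1 h2 (neg_mem h3) h5
  exact ⟨u, a1, a2, a3, v, -c, h1, a4, a5, neg_mem h3, neg_ne_zero.2 h4, h5⟩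

theorem ub_cov (hP : P.ND) (hn : finrank F V = n) (h6 : 6 ≤ n) (R : Rk3 P x) (hQ : NoQ (Hx P x)) {r : P.EG}
    (hr : r ∈ RT P) (h : r • x ∉ nbr (DT P) x) {y : X} (hy : y ∈ nbr (DT P) x) (w : X) :
    w = x ∨ (∃ k : P.EG, k • x = x ∧ k • y = w) ∨ ∃ k : P.EG, k • x = x ∧ k • r • x = w := by
  refine ub_cover R.three ?_ (fun e => IsR.notMem hP hQ hr (mem_Hx.2 e))
    (fun k h1 e => h (e ▸ h1 ▸ nbr_act DT_conj k hy)) w
  obtain ⟨t, ht, rfl⟩ := hy
  exact fun e => IsT.notMem hP hQ ht (mem_Hx.2 e)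

theorem DT_ne (hP : P.ND) (hn : finrank F V = n) (h6 : 6 ≤ n) : (nbr (DT P) x).Nonempty :=
  Set.Nonempty.image _ (Set.nonempty_of_ncard_ne_zero fun e => by
    have := card_DT hP hn (by omega)
    have := Iq_pos (two_le_q hF) (n := n) (by omega)
    simp_all)

theorem ub_univ (hP : P.ND) (hn : finrank F V = n) (h6 : 6 ≤ n) (R : Rk3 P x) (hQ : NoQ (Hx P x)) {r : P.EG}
    (hr : r ∈ RT P) (h : r • x ∉ nbr (DT P) x) : (Set.univ : Set X) = insert x (nbr (DT P) x ∪ nbr (RT P) x) := by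
  obtain ⟨y, hy⟩ := DT_ne (x := x) hP hn h6
  refine (Set.eq_univ_of_forall fun w => ?_).symm
  rcases ub_cov hP hn h6 R hQ hr h hy w with e | ⟨k, h1, rfl⟩ | ⟨k, h1, rfl⟩
  · exact Or.inl e
  · exact Or.inr (Or.inl (h1 ▸ nbr_act DT_conj k hy))
  · exact Or.inr (Or.inr (by simpa only [h1] using nbr_act RT_conj k (y := x) ⟨r, hr, rfl⟩))

theorem ub (hP : P.ND) (hn : finrank F V = n) (h6 : 6 ≤ n) (hq : 3 ≤ q) (R : Rk3 P x) (hQ : NoQ (Hx P x))
    (h : ∀ u, P.Sing u → u ≠ 0 → (ResT (Hx P x) u).ncard * (q * (q + 1)) < Iq q (n - 2)) :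
    Nat.card X * ((q + 1) ^ 2 * (q - 1)) ≤
      (q + 1) ^ 2 * (q - 1) + (q ^ 2 - 1) * Iq q n + q * Iq q n * Iq q (n - 2) := by
  have hD := card_DT hP hn (by omega)
  have hR := card_RT hP hn (by omega)
  have i1 := Iq_pos (two_le_q hF) (n := n) (by omega)
  have i2 := Iq_pos (two_le_q hF) (n := n - 2) (by omega)
  obtain ⟨r, hr, h1⟩ : ∃ r ∈ RT P, r • x ∉ nbr (DT P) x := by
    by_contra hn'
    push Not at hn'
    have h1 := ub_double (s := RT P) (t := P.sing0 Set.univ) (Set.toFinite _) (Set.toFinite _)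
      (fun r u => r.1 ∈ P.U u ∧ ∃ v c, P.Sing v ∧ P.B v u = 0 ∧ v ∉ F ∙ u ∧ c ∈ (uFP hF).Λ ∧ c ≠ 0 ∧
        P.eich v 0 c * r.1 ∈ Hx P x) (m := q ^ 2 - 1) (n := (Iq q (n - 2) - 1) / (q * (q + 1)) * q ^ 2) ?_ ?_
    · rw [ncard_sing0 hP hn (by omega)] at h1
      have h2 := Nat.div_mul_le_self (Iq q (n - 2) - 1) (q * (q + 1))
      generalize (Iq q (n - 2) - 1) / (q * (q + 1)) = M at h1 h2
      have h3 : Iq q n * q * Iq q (n - 2) ≤ Iq q n * q * (M * (q * (q + 1))) := by nlinarith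
      have := Nat.le_of_mul_le_mul_left h3 (Nat.mul_pos i1 (by omega))
      omega
    · intro r hr
      obtain ⟨u, a1, a2, a3, v, c, a4, a5, a6, a7⟩ := ub_res hP hQ hr (hn' r hr)
      refine Eq.trans_le ?_ (Set.ncard_le_ncard_of_injOn (s := {0}ᶜ) (fun a : F => a • u)
        (fun a ha => ⟨⟨trivial, smul_ne_zero ha a2, a1.smul a⟩, ?_, v, c, a4, by simp [a5],
          by rwa [span_singleton_smul_eq (IsUnit.mk0 a ha)], a7⟩) (smul_left_injective F a2).injOn)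
      · rw [Set.ncard_compl, Nat.card_eq_fintype_card, hF, Set.ncard_singleton]
      · rwa [U_smul ha]
    · intro u hu
      have h2 : ∀ g : P.Iso, ∃ w c, g ∈ ResT (Hx P x) u → P.Sing w ∧ P.B w u = 0 ∧ w ∉ F ∙ u ∧ c ∈ (uFP hF).Λ ∧
          c ≠ 0 ∧ (P.eich w 0 c)⁻¹ * g ∈ P.U u := fun g => by
        by_cases hg : g ∈ ResT (Hx P x) u
        · obtain ⟨w, c, h⟩ := hg.2
          exact ⟨w, c, fun _ => h⟩
        · exact ⟨0, 0, fun h => (hg h).elim⟩
      choose w c h2 using h2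
      refine (Set.ncard_le_ncard_of_injOn Subtype.val (t := (fun p : P.Iso × F =>
        (P.eich (w p.1 + p.2 • u) 0 (c p.1))⁻¹ * p.1) '' (ResT (Hx P x) u ×ˢ Set.univ)) ?_
        Subtype.val_injective.injOn).trans ((Set.ncard_image_le (Set.toFinite _)).trans ?_)
      · rintro r ⟨-, a1, v, d, a2, a3, a4, a5, a6, a7⟩
        have h3 : P.eich v 0 d * r.1 ∈ ResT (Hx P x) u := ⟨a7, v, d, a2, a3, a4, a5, a6, by simpa⟩
        obtain ⟨b1, b2, b3, b4, b5, b6⟩ := h2 _ h3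
        obtain ⟨a, ha⟩ := ub_cmp hP hu.2.1 a2 b1 a3 b2 hu.2.2 a4 b4 a5 a6
          (by simpa [mul_assoc] using inv_mem (mul_mem b6 (inv_mem a1)))
        exact ⟨(_, a), ⟨h3, trivial⟩, by simp only [← ha]; simp⟩
      · rw [Set.ncard_prod, Set.ncard_univ, Nat.card_eq_fintype_card, hF]
        exact Nat.mul_le_mul_right _ ((Nat.le_div_iff_mul_le (by positivity)).2 (Nat.le_sub_one_of_lt (h u hu.2.2 hu.2.1)))
  have h2 : Nat.card X ≤ (DT P).ncard + (RT P).ncard + 1 := by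
    rw [← Set.ncard_univ, ub_univ hP hn h6 R hQ hr h1]
    exact (Set.ncard_insert_le _ _).trans (Nat.succ_le_succ ((Set.ncard_union_le _ _).trans
      (add_le_add (Set.ncard_image_le (Set.toFinite _)) (Set.ncard_image_le (Set.toFinite _)))))
  obtain ⟨p, rfl⟩ : ∃ p, q = p + 1 := ⟨q - 1, by omega⟩
  rw [show (p + 1) ^ 2 - 1 = (p + 1 + 1) * p by rw [Nat.sub_eq_iff_eq_add (by nlinarith)]; ring] at hR ⊢
  rw [Nat.add_sub_cancel]
  exact (Nat.mul_le_mul_right _ h2).trans_eq (by linear_combination (p + 1 + 1) * p * hD + hR)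

theorem ub_lam (a : F) : (frobq hF a - a)⁻¹ ∈ (uFP hF).Λ := by
  rw [u_mem_lam_iff, map_inv₀, map_sub, frobq_frobq, ← inv_neg, neg_sub]

theorem ub_fac {u w : V} (hu : P.Sing u) (hw : P.Sing w) (h : P.B w u = 0) {a : F} (ha : frobq hF a ≠ a) :
    P.eich u w 0 = P.eich (u + a • w) 0 (frobq hF a - a)⁻¹ * P.eich (u + frobq hF a • w) 0 (a - frobq hF a)⁻¹ :=
  iso_ext fun z => by
  have k : ∀ b : F, P.Sing (u + b • w) := fun b => hu.add (hw.smul b) (by simp [B_swap_zero h])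
  have h1 := sub_ne_zero.2 ha
  have h2 := sub_ne_zero.2 ha.symm
  rw [mul_smul, tv_smul (k _) (ub_lam a), tv_smul (k _) (by simpa [frobq_frobq] using ub_lam (hF := hF) (frobq hF a)),
    u_eich_smul ⟨hu, h, hw⟩]
  simp only [map_add, map_sub, LinearMap.add_apply, LinearMap.sub_apply, B_smul_left, B_smul_right, hu.B_self,
    hw.B_self, h, B_swap_zero h, frobq_frobq]
  match_scalars <;> field_simp <;> ring

theorem n3_eq (hP : P.ND) (hn : finrank F V = n) (h6 : 6 ≤ n) (hq : 3 ≤ q) (R : Rk3 P x) (hQ : NoQ (Hx P x))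
    (h : ∀ u, P.Sing u → u ≠ 0 → ResT (Hx P x) u = ∅) : ∃ k lam l c : ℕ, k * lam * (q + 1) = Iq q n ∧
      l * c * ((q + 1) ^ 2 * (q - 1)) = q * Iq q n * Iq q (n - 2) ∧ Nat.card X = 1 + k + l ∧
      l * (q ^ 2 - q) ≤ k ^ 2 := by
  have hD := card_DT hP hn (by omega)
  have hR := card_RT hP hn (by omega)
  have h1 : ∀ r ∈ RT P, r • x ∉ nbr (DT P) x := fun r hr h1 => by
    obtain ⟨u, a1, a2, a3, v, c, a4, a5, a6, a7, a8, a9⟩ := ub_res hP hQ hr h1
    exact (h u a1 a2).le ⟨a9, v, c, a4, a5, a6, a7, a8, by simpa⟩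
  have h2 : x ∉ nbr (DT P) x := fun ⟨t, ht, e⟩ => IsT.notMem hP hQ ht (mem_Hx.2 e)
  have h3 : x ∉ nbr (RT P) x := fun ⟨t, ht, e⟩ => IsR.notMem hP hQ ht (mem_Hx.2 e)
  obtain ⟨r, hr⟩ : (RT P).Nonempty := Set.nonempty_of_ncard_ne_zero fun e => by
    have i1 := Iq_pos (two_le_q hF) (n := n) (by omega)
    have i2 := Iq_pos (two_le_q hF) (n := n - 2) (by omega)
    rw [e, zero_mul] at hR
    exact (Nat.mul_pos i1 (Nat.mul_pos i2 (by omega))).ne hR
  obtain ⟨y0, hy0⟩ := DT_ne (x := x) hP hn h6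
  obtain ⟨lam, h4⟩ := nbr_fib (x := x) (DT_conj (P := P)) fun y hy z hz => by
    rcases ub_cov hP hn h6 R hQ hr (h1 r hr) hy z with rfl | h | ⟨k, e, rfl⟩
    · exact (h2 hz).elim
    · exact h
    · exact (h1 _ (RT_conj r hr k) (by rwa [mul_smul, mul_smul, inv_smul_eq_iff.2 e.symm])).elim
  obtain ⟨c, h5⟩ := nbr_fib (x := x) (RT_conj (P := P)) (by
    rintro _ ⟨r, hr, rfl⟩ _ ⟨s, hs, rfl⟩
    rcases ub_cov hP hn h6 R hQ hr (h1 r hr) hy0 (s • x) with e | ⟨k, e, e'⟩ | h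
    · exact (h3 ⟨s, hs, e⟩).elim
    · exact (h1 s hs (e' ▸ e ▸ nbr_act DT_conj k hy0)).elim
    · exact h)
  refine ⟨_, lam, (nbr (RT P) x).ncard, c, h4 ▸ hD, ?_, ?_, ?_⟩
  · obtain ⟨p, rfl⟩ : ∃ p, q = p + 1 := ⟨q - 1, by omega⟩
    rw [show (p + 1) ^ 2 - 1 = (p + 1 + 1) * p by rw [Nat.sub_eq_iff_eq_add (by nlinarith)]; ring] at hR
    rw [Nat.add_sub_cancel, h5]; linear_combination hR
  · rw [← Set.ncard_univ, ub_univ hP hn h6 R hQ hr (h1 r hr), Set.ncard_insert_of_notMem (fun h => h.elim h2 h3),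
      Set.ncard_union_eq (Set.disjoint_right.2 (by rintro _ ⟨r, hr, rfl⟩; exact h1 r hr))]; ring
  rw [sq (Set.ncard _)]
  refine ub_double (Set.toFinite _) (Set.toFinite _) (fun z y => z ∈ nbr (DT P) y) ?_ ?_
  · rintro _ ⟨r, hr, rfl⟩
    obtain ⟨u, w, a1, a2, a3, a4, a5, e⟩ := IsR.zero hr
    have k : ∀ b : F, P.Sing (u + b • w) := fun b => a1.add (a3.smul b) (by simp [B_swap_zero a4])
    have li := LinearIndependent.pair_iff.1 (li_of_notMem a2 a5)
    have k0 : ∀ b : F, u + b • w ≠ 0 := fun b e => one_ne_zero (li 1 b (by rwa [one_smul])).1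
    have l : ∀ b : F, (b - frobq hF b)⁻¹ ∈ (uFP hF).Λ := fun b => by simpa [frobq_frobq] using ub_lam (hF := hF) (frobq hF b)
    refine Eq.trans_le ?_ (Set.ncard_le_ncard_of_injOn (s := {a | frobq hF a = a}ᶜ) (fun a : F =>
      (⟨_, eich_mem_EG (u + frobq hF a • w) 0 (a - frobq hF a)⁻¹⟩ : P.EG) • x) (fun a ha => ⟨⟨_,
        ⟨_, _, k _, k0 _, l a, inv_ne_zero (sub_ne_zero.2 (Ne.symm ha)), rfl⟩, rfl⟩,
        ⟨_, eich_mem_EG (u + a • w) 0 (frobq hF a - a)⁻¹⟩, ⟨_, _, k _, k0 _, ub_lam a, inv_ne_zero (sub_ne_zero.2 ha), rfl⟩,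
        by simp only [← mul_smul]; congr 1; exact Subtype.ext (e.trans (ub_fac a1 a3 a4 ha)).symm⟩)
      fun a ha b hb e => by_contra fun ne => ?_)
    · rw [Set.ncard_compl, Nat.card_eq_fintype_card, hF, u_ncard_fix]
    have h6 := mem_Hx.2 ((mul_smul _ _ _).trans (inv_smul_eq_iff.2 e.symm))
    rw [Subgroup.coe_mul, Subgroup.coe_inv, inv_eq_of_mul_eq_one_right (by
      rw [transvec_mul (k _) (l a) (neg_mem (l a)), add_neg_cancel, eich_zero])] at h6
    refine (isR_tv (k _) (k _) (by simp [a1.B_self, a3.B_self, a4, B_swap_zero a4]) (k0 _) (fun h => ?_) (neg_mem (l a))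
      (l b) (by simpa [sub_eq_zero] using Ne.symm ha) (by simpa [sub_eq_zero] using Ne.symm hb)).notMem hP hQ h6
    obtain ⟨t, ht⟩ := mem_span_singleton.1 h
    obtain ⟨b1, b2⟩ := li (t - 1) (t * frobq hF b - frobq hF a) (by linear_combination (norm := module) ht)
    exact ne ((frobq hF).injective (by linear_combination frobq hF b * b1 - b2))
  · rintro _ ⟨t, ht, rfl⟩
    exact Set.ncard_le_ncard_of_injOn (t⁻¹ • ·) (fun z hz => by simpa using nbr_act DT_conj t⁻¹ hz.2)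
      (MulAction.injective _).injOn

end Cfsg.Agent.UR
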